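import Cfsg.Agent.ChevalleyStructure.SteinbergBruhat
set_option linter.all false

/-!
# Injectivity from Steinberg relations (helper111, cluster S2284-S2297)

`Γ` is a group with root subgroups, a torus and monomial elements satisfying (a weak form of) the Steinberg
relations, `θ : Γ →* G'` a homomorphism to a concrete group in which there are submonoids `W0`, `W1`, `W r` of
"(uni)triangular" elements.  Then `θ` is injective.
-/

set_option autoImplicit false

namespace Cfsg.Agent.H111.Inj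

open Cfsg.Agent.ChevalleyStructure.SteinbergBruhat

variable {Γ G' : Type*} [Group Γ] [Group G'] {Φ ι : Type*}

/-- The hypotheses. -/
structure Hyp (R : RData Γ Φ ι) (ht : Φ → ℤ) (θ : Γ →* G') (W0 W1 : Submonoid G')
    (W : Φ → Submonoid G') : Prop where
  refl_refl : ∀ i r, R.refl i (R.refl i r) = r
  refl_sim : ∀ i, R.refl i (R.sim i) = R.neg (R.sim i)
  refl_pos : ∀ i r, 0 < ht r → r ≠ R.sim i → 0 < ht (R.refl i r)
  refl_neg : ∀ i r, R.refl i (R.neg r) = R.neg (R.refl i r)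
  pos_iff : ∀ r, R.pos r ↔ 0 < ht r
  ht_sim : ∀ i, 0 < ht (R.sim i)
  ht_neg : ∀ r, ht (R.neg r) = - ht r
  ht_ne : ∀ r, ht r ≠ 0
  conjH : ∀ h ∈ R.H, ∀ r, ∀ x ∈ R.X r, h * x * h⁻¹ ∈ R.X r
  conjn : ∀ i r, ∀ x ∈ R.X r, R.n i * x * (R.n i)⁻¹ ∈ R.X (R.refl i r)
  conjnH : ∀ i, ∀ h ∈ R.H, R.n i * h * (R.n i)⁻¹ ∈ R.H
  nn : ∀ i, R.n i * R.n i ∈ R.H
  nmem : ∀ i, R.n i ∈ R.X (R.sim i) ⊔ R.X (R.neg (R.sim i)) ⊔ R.H
  Xneg : ∀ i, ∀ x ∈ R.X (R.neg (R.sim i)), x = 1 ∨
    ∃ a ∈ R.X (R.sim i), ∃ h ∈ R.H, ∃ b ∈ R.X (R.sim i), x = a * (R.n i * h) * b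
  comm : ∀ r s, 0 < ht r → 0 < ht s → ∀ x ∈ R.X r, ∀ y ∈ R.X s,
    x * y * x⁻¹ * y⁻¹ ∈ ⨆ t, ⨆ (_ : ht r < ht t ∧ ht s < ht t), R.X t
  gen : R.B ⊔ Subgroup.closure (Set.range R.n) = ⊤
  W0pos : ∀ r, 0 < ht r → ∀ x ∈ R.X r, θ x ∈ W0
  W0H : ∀ h ∈ R.H, θ h ∈ W0
  W0neg : ∀ r, ht r < 0 → ∃ x ∈ R.X r, θ x ∉ W0
  Wpos : ∀ r s, 0 < ht r → ht r ≤ ht s → s ≠ r → ∀ x ∈ R.X s, θ x ∈ W r
  Wr : ∀ r, 0 < ht r → ∀ x ∈ R.X r, θ x ∈ W r → x = 1
  W1pos : ∀ r, 0 < ht r → ∀ x ∈ R.X r, θ x ∈ W1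
  W1H : ∀ h ∈ R.H, θ h ∈ W1 → h = 1

variable {R : RData Γ Φ ι} {ht : Φ → ℤ} {θ : Γ →* G'} {W0 W1 : Submonoid G'} {W : Φ → Submonoid G'}

/-- image of a join of subgroups in a submonoid -/
theorem map_iSup_mem (W : Submonoid G') (P : Φ → Prop) (h : ∀ r, P r → ∀ x ∈ R.X r, θ x ∈ W) {u : Γ}
    (hu : u ∈ ⨆ r, ⨆ (_ : P r), R.X r) : θ u ∈ W := by
  have hle : (⨆ r, ⨆ (_ : P r), R.X r) ≤ Subgroup.closure {x | ∃ r, P r ∧ x ∈ R.X r} := by
    refine iSup₂_le fun r hr x hx => Subgroup.subset_closure ⟨r, hr, hx⟩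
  have hu' := hle hu
  clear hu
  induction hu' using Subgroup.closure_induction'' with
  | mem x hx =>
    obtain ⟨r, hr, hx⟩ := hx
    exact h r hr x hx
  | inv_mem x hx =>
    obtain ⟨r, hr, hx⟩ := hx
    exact h r hr _ ((R.X r).inv_mem hx)
  | one => rw [map_one]; exact W.one_mem
  | mul x y _ _ hx hy => rw [map_mul]; exact W.mul_mem hx hy

namespace Hyp

variable (A : Hyp R ht θ W0 W1 W)
include A

theorem Unorm (i : ι) : ∀ x ∈ R.X (R.sim i), ∀ u ∈ R.Ui i, x * u * x⁻¹ ∈ R.Ui i := by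
  intro x hx u hu
  have : R.Ui i ≤ (R.Ui i).comap (MulAut.conj x).toMonoidHom := by
    refine iSup₂_le fun r hr y hy => ?_
    change x * y * x⁻¹ ∈ R.Ui i
    have h1 := A.comm (R.sim i) r (A.ht_sim i) ((A.pos_iff r).1 hr.1) x hx y hy
    have h2 : (⨆ t, ⨆ (_ : ht (R.sim i) < ht t ∧ ht r < ht t), R.X t) ≤ R.Ui i := by
      refine iSup₂_le fun t ht' => ?_
      refine le_iSup₂_of_le (f := fun r (_ : R.pos r ∧ r ≠ R.sim i) => R.X r) t ⟨?_, ?_⟩ le_rfl
      · rw [A.pos_iff]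
        exact (A.ht_sim i).trans ht'.1
      · rintro rfl
        exact lt_irrefl _ ht'.1
    have h3 : y ∈ R.Ui i := (le_iSup₂_of_le (f := fun r (_ : R.pos r ∧ r ≠ R.sim i) => R.X r) r hr le_rfl :
      R.X r ≤ R.Ui i) hy
    have h4 := (R.Ui i).mul_mem (h2 h1) h3
    simpa using h4
  exact this hu

theorem W0B : ∀ b ∈ R.B, θ b ∈ W0 := by
  intro b hb
  have hle : R.B ≤ Subgroup.closure {x | (∃ r, 0 < ht r ∧ x ∈ R.X r) ∨ x ∈ R.H} := by
    refine sup_le (iSup₂_le fun r hr x hx => Subgroup.subset_closure (Or.inl ⟨r, (A.pos_iff r).1 hr, hx⟩)) ?_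
    exact fun x hx => Subgroup.subset_closure (Or.inr hx)
  have hb' := hle hb
  clear hb
  induction hb' using Subgroup.closure_induction'' with
  | mem x hx =>
    rcases hx with ⟨r, hr, hx⟩ | hx
    · exact A.W0pos r hr x hx
    · exact A.W0H x hx
  | inv_mem x hx =>
    rcases hx with ⟨r, hr, hx⟩ | hx
    · exact A.W0pos r hr _ ((R.X r).inv_mem hx)
    · exact A.W0H _ (R.H.inv_mem hx)
  | one => rw [map_one]; exact W0.one_mem
  | mul x y _ _ hx hy => rw [map_mul]; exact W0.mul_mem hx hy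

theorem map_not_le {r : Φ} (hr : ht r < 0) : ¬ (R.X r).map θ ≤ R.B.map θ := by
  intro hle
  obtain ⟨x, hx, hxW⟩ := A.W0neg r hr
  obtain ⟨b, hb, e⟩ := hle ⟨x, hx, rfl⟩
  apply hxW
  rw [← e]
  exact A.W0B b hb

theorem axioms : R.Axioms where
  refl_refl := A.refl_refl
  refl_sim := A.refl_sim
  refl_pos i r hr hne := (A.pos_iff _).2 (A.refl_pos i r ((A.pos_iff r).1 hr) hne)
  refl_neg := A.refl_neg
  pos_sim i := (A.pos_iff _).2 (A.ht_sim i)
  pos_neg r := by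
    rw [A.pos_iff, A.pos_iff, A.ht_neg]
    have := A.ht_ne r
    omega
  conjH := A.conjH
  conjn := A.conjn
  conjnH := A.conjnH
  nn := A.nn
  nmem := A.nmem
  Xneg := A.Xneg
  Unorm := A.Unorm
  notle r hr := by
    have hr' : ht r < 0 := by
      rw [A.pos_iff] at hr
      have := A.ht_ne r
      omega
    intro hle
    exact A.map_not_le hr' (Subgroup.map_mono hle)

/-- `θ` is injective on the group generated by the root subgroups of an ideal of positive roots. -/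
theorem inj_T (T : Finset Φ) (hT : ∀ t ∈ T, 0 < ht t) (hT' : ∀ r ∈ T, ∀ s, ht r < ht s → s ∈ T) {u : Γ}
    (hu : u ∈ ⨆ t, ⨆ (_ : t ∈ T), R.X t) (h1 : θ u = 1) : u = 1 := by
  classical
  induction hk : T.card generalizing T u with
  | zero =>
    rw [Finset.card_eq_zero] at hk
    subst hk
    simpa using hu
  | succ k ih =>
    have hne : T.Nonempty := by
      rw [← Finset.card_pos, hk]; omega
    obtain ⟨r, hr, hmin⟩ := T.exists_min_image ht hne
    set T' := T.erase r with hT'def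
    have hk' : T'.card = k := by rw [hT'def, Finset.card_erase_of_mem hr, hk]; rfl
    have hTT : ∀ s ∈ T', s ∈ T := fun s hs => Finset.mem_of_mem_erase hs
    have hTi : ∀ a ∈ T', ∀ s, ht a < ht s → s ∈ T' := by
      intro a ha s hs
      refine Finset.mem_erase.2 ⟨?_, hT' a (hTT a ha) s hs⟩
      rintro rfl
      exact absurd (hmin a (hTT a ha)) (not_le.2 hs)
    set K := ⨆ t, ⨆ (_ : t ∈ T'), R.X t with hK
    -- `X r` normalises `K`
    have hnorm : ∀ x ∈ R.X r, ∀ y ∈ K, x * y * x⁻¹ ∈ K := by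
      intro x hx y hy
      have : K ≤ K.comap (MulAut.conj x).toMonoidHom := by
        rw [hK]
        refine iSup₂_le fun s hs y hy => ?_
        rw [← hK]
        change x * y * x⁻¹ ∈ K
        have h1 := A.comm r s (hT r hr) (hT s (hTT s hs)) x hx y hy
        have h2 : (⨆ t, ⨆ (_ : ht r < ht t ∧ ht s < ht t), R.X t) ≤ K := by
          refine iSup₂_le fun t ht' => ?_
          exact le_iSup₂_of_le (f := fun t (_ : t ∈ T') => R.X t) t (hTi s hs t ht'.2) le_rfl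
        have h3 : y ∈ K := (le_iSup₂_of_le (f := fun t (_ : t ∈ T') => R.X t) s hs le_rfl : R.X s ≤ K) hy
        have h4 := K.mul_mem (h2 h1) h3
        simpa using h4
      exact this hy
    -- decomposition
    have hdec : ∃ x ∈ R.X r, ∃ y ∈ K, u = x * y := by
      have hle : (⨆ t, ⨆ (_ : t ∈ T), R.X t) ≤ R.X r ⊔ K := by
        refine iSup₂_le fun t ht' => ?_
        by_cases h : t = r
        · subst h; exact le_sup_left
        · exact (le_iSup₂_of_le (f := fun t (_ : t ∈ T') => R.X t) t (Finset.mem_erase.2 ⟨h, ht'⟩) le_rfl :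
            R.X t ≤ K).trans le_sup_right
      have hu' := hle hu
      rw [← Subgroup.closure_eq (R.X r), ← Subgroup.closure_eq K, ← Subgroup.closure_union] at hu'
      clear hu h1
      induction hu' using Subgroup.closure_induction'' with
      | mem x hx =>
        rcases hx with hx | hx
        · exact ⟨x, hx, 1, K.one_mem, by group⟩
        · exact ⟨1, (R.X r).one_mem, x, hx, by group⟩
      | inv_mem x hx =>
        rcases hx with hx | hx
        · exact ⟨x⁻¹, (R.X r).inv_mem hx, 1, K.one_mem, by group⟩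
        · exact ⟨1, (R.X r).one_mem, x⁻¹, K.inv_mem hx, by group⟩
      | one => exact ⟨1, (R.X r).one_mem, 1, K.one_mem, by group⟩
      | mul x y _ _ hx hy =>
        obtain ⟨a, ha, b, hb, rfl⟩ := hx
        obtain ⟨c, hc, d, hd, rfl⟩ := hy
        refine ⟨a * c, (R.X r).mul_mem ha hc, (c⁻¹ * b * (c⁻¹)⁻¹) * d, K.mul_mem (hnorm _ ((R.X r).inv_mem hc) _ hb) hd, ?_⟩
        group
    obtain ⟨x, hx, y, hy, rfl⟩ := hdec
    have hx1 : x = 1 := by
      apply A.Wr r (hT r hr) x hx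
      have e : θ x = θ y⁻¹ := by
        rw [map_mul] at h1
        rw [map_inv]
        exact eq_inv_of_mul_eq_one_left h1
      rw [e]
      apply map_iSup_mem (R := R) (θ := θ) (W r) (fun t => t ∈ T') _ (K.inv_mem hy)
      intro s hs z hz
      exact A.Wpos r s (hT r hr) (hmin s (hTT s hs)) (Finset.ne_of_mem_erase hs) z hz
    subst hx1
    rw [one_mul] at h1 ⊢
    exact ih T' (fun t ht' => hT t (hTT t ht')) hTi hy h1 hk'

/-- **Injectivity.** -/
theorem injective [Finite Φ] : Function.Injective θ := by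
  classical
  have := Fintype.ofFinite Φ
  rw [injective_iff_map_eq_one]
  intro g hg
  have hgB : g ∈ R.B := by
    refine A.axioms.ker_le_B A.gen θ ?_ ((MonoidHom.mem_ker).2 hg)
    intro r hr
    apply A.map_not_le
    rw [A.pos_iff] at hr
    have := A.ht_ne r
    omega
  obtain ⟨u, hu, h, hh, rfl⟩ := A.axioms.mem_B_iff hgB
  have hu' : u ∈ ⨆ r, ⨆ (_ : 0 < ht r), R.X r := by
    have : R.U ≤ ⨆ r, ⨆ (_ : 0 < ht r), R.X r :=
      iSup₂_le fun r hr => le_iSup₂_of_le (f := fun r (_ : 0 < ht r) => R.X r) r ((A.pos_iff r).1 hr) le_rfl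
    exact this hu
  have h1 : h = 1 := by
    apply A.W1H h hh
    have e : θ h = θ u⁻¹ := by
      rw [map_mul] at hg
      rw [map_inv]
      exact eq_inv_of_mul_eq_one_right hg
    rw [e]
    exact map_iSup_mem (R := R) (θ := θ) W1 (fun r => 0 < ht r) A.W1pos (Subgroup.inv_mem _ hu')
  subst h1
  rw [mul_one] at hg ⊢
  have hu2 : u ∈ ⨆ r, ⨆ (_ : r ∈ Finset.univ.filter fun r => 0 < ht r), R.X r := by
    have e : (⨆ r, ⨆ (_ : r ∈ Finset.univ.filter fun r => 0 < ht r), R.X r) = ⨆ r, ⨆ (_ : 0 < ht r), R.X r := by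
      refine iSup_congr fun r => ?_
      simp
    rw [e]; exact hu'
  refine A.inj_T _ ?_ ?_ hu2 hg
  · intro t ht'
    exact (Finset.mem_filter.1 ht').2
  · intro r hr s hs
    exact Finset.mem_filter.2 ⟨Finset.mem_univ _, ((Finset.mem_filter.1 hr).2).trans hs⟩

end Hyp

end Cfsg.Agent.H111.Inj
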