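import Mathlib
import Cfsg.Agent.H111.Inj
set_option linter.all false

-- part: H111/Sl2
section
/-!
# `SL(2, F)` acting on the plane (helper111, cluster S2284-S2297)
-/

set_option autoImplicit false

namespace Cfsg.Agent.H111

open Matrix

variable {F : Type*} [Field F]

/-- The plane form. -/
def dd (x y : Fin 2 → F) : F := x 0 * y 1 - x 1 * y 0

theorem dd_self (x : Fin 2 → F) : dd x x = 0 := by simp only [dd]; ring
theorem dd_swap (x y : Fin 2 → F) : dd x y = - dd y x := by simp only [dd]; ring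
theorem dd_add_left (x y z : Fin 2 → F) : dd (x + y) z = dd x z + dd y z := by
  simp only [dd, Pi.add_apply]; ring
theorem dd_add_right (x y z : Fin 2 → F) : dd x (y + z) = dd x y + dd x z := by
  simp only [dd, Pi.add_apply]; ring
theorem dd_smul_left (a : F) (x y : Fin 2 → F) : dd (a • x) y = a * dd x y := by
  simp only [dd, Pi.smul_apply, smul_eq_mul]; ring
theorem dd_smul_right (a : F) (x y : Fin 2 → F) : dd x (a • y) = a * dd x y := by
  simp only [dd, Pi.smul_apply, smul_eq_mul]; ring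
@[simp] theorem dd_zero_left (x : Fin 2 → F) : dd 0 x = 0 := by simp [dd]
@[simp] theorem dd_zero_right (x : Fin 2 → F) : dd x 0 = 0 := by simp [dd]
theorem dd_neg_left (x y : Fin 2 → F) : dd (-x) y = - dd x y := by
  simp only [dd, Pi.neg_apply]; ring
theorem dd_neg_right (x y : Fin 2 → F) : dd x (-y) = - dd x y := by
  simp only [dd, Pi.neg_apply]; ring
theorem dd_sub_left (x y z : Fin 2 → F) : dd (x - y) z = dd x z - dd y z := by
  simp only [dd, Pi.sub_apply]; ring
theorem dd_sub_right (x y z : Fin 2 → F) : dd x (y - z) = dd x y - dd x z := by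
  simp only [dd, Pi.sub_apply]; ring

/-- The action. -/
def ac (g : SpecialLinearGroup (Fin 2) F) (v : Fin 2 → F) : Fin 2 → F := g.1 *ᵥ v

theorem ac_apply_zero (g : SpecialLinearGroup (Fin 2) F) (v : Fin 2 → F) :
    ac g v 0 = g.1 0 0 * v 0 + g.1 0 1 * v 1 := by
  simp [ac, mulVec, dotProduct, Fin.sum_univ_two]
theorem ac_apply_one (g : SpecialLinearGroup (Fin 2) F) (v : Fin 2 → F) :
    ac g v 1 = g.1 1 0 * v 0 + g.1 1 1 * v 1 := by
  simp [ac, mulVec, dotProduct, Fin.sum_univ_two]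

@[simp] theorem ac_one (v : Fin 2 → F) : ac 1 v = v := by simp [ac]
theorem ac_mul (g h : SpecialLinearGroup (Fin 2) F) (v : Fin 2 → F) : ac (g * h) v = ac g (ac h v) := by
  rw [ac, ac, ac, mulVec_mulVec]; rfl
theorem ac_add (g : SpecialLinearGroup (Fin 2) F) (v w : Fin 2 → F) : ac g (v + w) = ac g v + ac g w :=
  mulVec_add _ _ _
theorem ac_smul (g : SpecialLinearGroup (Fin 2) F) (a : F) (v : Fin 2 → F) : ac g (a • v) = a • ac g v :=
  mulVec_smul _ _ _
theorem ac_neg (g : SpecialLinearGroup (Fin 2) F) (v : Fin 2 → F) : ac g (-v) = - ac g v :=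
  mulVec_neg _ _
@[simp] theorem ac_zero (g : SpecialLinearGroup (Fin 2) F) : ac g (0 : Fin 2 → F) = 0 := mulVec_zero _

theorem det_eq (g : SpecialLinearGroup (Fin 2) F) : g.1 0 0 * g.1 1 1 - g.1 0 1 * g.1 1 0 = 1 := by
  have := g.2
  rwa [det_fin_two] at this

theorem dd_ac (g : SpecialLinearGroup (Fin 2) F) (v w : Fin 2 → F) : dd (ac g v) (ac g w) = dd v w := by
  have h := det_eq g
  simp only [dd, ac_apply_zero, ac_apply_one]
  linear_combination (v 0 * w 1 - v 1 * w 0) * h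

@[simp] theorem ac_inv_ac (g : SpecialLinearGroup (Fin 2) F) (v : Fin 2 → F) : ac g⁻¹ (ac g v) = v := by
  rw [← ac_mul, inv_mul_cancel, ac_one]
@[simp] theorem ac_ac_inv (g : SpecialLinearGroup (Fin 2) F) (v : Fin 2 → F) : ac g (ac g⁻¹ v) = v := by
  rw [← ac_mul, mul_inv_cancel, ac_one]

theorem ac_eq_zero {g : SpecialLinearGroup (Fin 2) F} {v : Fin 2 → F} : ac g v = 0 ↔ v = 0 := by
  constructor
  · intro h
    rw [← ac_inv_ac g v, h, ac_zero]
  · rintro rfl; simp

theorem ac_ne_zero {g : SpecialLinearGroup (Fin 2) F} {v : Fin 2 → F} (h : v ≠ 0) : ac g v ≠ 0 := by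
  rwa [Ne, ac_eq_zero]

/-- The basis vectors. -/
def ve : Fin 2 → F := ![1, 0]
def vf : Fin 2 → F := ![0, 1]

@[simp] theorem ve_zero : (ve : Fin 2 → F) 0 = 1 := rfl
@[simp] theorem ve_one : (ve : Fin 2 → F) 1 = 0 := rfl
@[simp] theorem vf_zero : (vf : Fin 2 → F) 0 = 0 := rfl
@[simp] theorem vf_one : (vf : Fin 2 → F) 1 = 1 := rfl

@[simp] theorem dd_ve_vf : dd (ve : Fin 2 → F) vf = 1 := by simp [dd]
@[simp] theorem dd_vf_ve : dd (vf : Fin 2 → F) ve = -1 := by simp [dd]

theorem ve_ne : (ve : Fin 2 → F) ≠ 0 := fun h => by simpa using congrFun h 0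
theorem vf_ne : (vf : Fin 2 → F) ≠ 0 := fun h => by simpa using congrFun h 1

theorem ext2 {x y : Fin 2 → F} (h0 : x 0 = y 0) (h1 : x 1 = y 1) : x = y := by
  funext i
  fin_cases i
  · exact h0
  · exact h1

theorem sl_ext {g h : SpecialLinearGroup (Fin 2) F} (he : ac g ve = ac h ve) (hf : ac g vf = ac h vf) : g = h := by
  ext i j
  fin_cases j
  · have := congrFun he i
    fin_cases i
    · simpa [ac_apply_zero] using this
    · simpa [ac_apply_one] using this
  · have := congrFun hf i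
    fin_cases i
    · simpa [ac_apply_zero] using this
    · simpa [ac_apply_one] using this

theorem sl_ext' {g h : SpecialLinearGroup (Fin 2) F} (he : ∀ v, ac g v = ac h v) : g = h :=
  sl_ext (he _) (he _)

/-- The matrix with columns `v`, `w`. -/
def col (v w : Fin 2 → F) (h : dd v w = 1) : SpecialLinearGroup (Fin 2) F :=
  ⟨!![v 0, w 0; v 1, w 1], by rw [det_fin_two_of]; rw [← h]; simp only [dd]; ring⟩

@[simp] theorem col_ve (v w : Fin 2 → F) (h : dd v w = 1) : ac (col v w h) ve = v := by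
  apply ext2
  · rw [ac_apply_zero]; simp [col]
  · rw [ac_apply_one]; simp [col]
@[simp] theorem col_vf (v w : Fin 2 → F) (h : dd v w = 1) : ac (col v w h) vf = w := by
  apply ext2
  · rw [ac_apply_zero]; simp [col]
  · rw [ac_apply_one]; simp [col]

theorem exists_dd_ne {v : Fin 2 → F} (hv : v ≠ 0) : ∃ w, dd v w = 1 := by
  by_cases h0 : v 0 = 0
  · have h1 : v 1 ≠ 0 := fun h1 => hv (ext2 h0 h1)
    refine ⟨![-(v 1)⁻¹, 0], ?_⟩
    simp only [dd, cons_val_zero, cons_val_one]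
    field_simp
    ring
  · refine ⟨![0, (v 0)⁻¹], ?_⟩
    simp only [dd, cons_val_zero, cons_val_one]
    field_simp
    ring

theorem exists_col {v : Fin 2 → F} (hv : v ≠ 0) : ∃ g : SpecialLinearGroup (Fin 2) F, ac g ve = v := by
  obtain ⟨w, hw⟩ := exists_dd_ne hv
  exact ⟨col v w hw, col_ve _ _ _⟩

/-- A matrix with first column `v`. -/
noncomputable def gv (v : Fin 2 → F) : SpecialLinearGroup (Fin 2) F :=
  open Classical in if hv : v ≠ 0 then (exists_col hv).choose else 1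

theorem gv_ve {v : Fin 2 → F} (hv : v ≠ 0) : ac (gv v) ve = v := by
  rw [gv, dif_pos hv]
  exact (exists_col hv).choose_spec

theorem exists_col2 {v w : Fin 2 → F} {c : F} (hc : c ≠ 0) (h : dd v w = c) :
    ∃ g : SpecialLinearGroup (Fin 2) F, ac g ve = v ∧ ac g (c • vf) = w := by
  refine ⟨col v (c⁻¹ • w) (by rw [dd_smul_right, h, inv_mul_cancel₀ hc]), col_ve _ _ _, ?_⟩
  rw [ac_smul, col_vf, smul_smul, mul_inv_cancel₀ hc, one_smul]

theorem eq_smul_of_dd {v w : Fin 2 → F} (hv : v ≠ 0) (h : dd v w = 0) : ∃ c : F, w = c • v := by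
  by_cases h0 : v 0 = 0
  · have h1 : v 1 ≠ 0 := fun h1 => hv (ext2 h0 h1)
    have h2 : w 0 = 0 := by
      simp only [dd, h0, zero_mul, zero_sub, neg_eq_zero, mul_eq_zero] at h
      exact h.resolve_left h1
    refine ⟨w 1 / v 1, ext2 ?_ ?_⟩
    · rw [Pi.smul_apply, h0, h2, smul_zero]
    · rw [Pi.smul_apply, smul_eq_mul, div_mul_cancel₀ _ h1]
  · refine ⟨w 0 / v 0, ext2 ?_ ?_⟩
    · rw [Pi.smul_apply, smul_eq_mul, div_mul_cancel₀ _ h0]
    · rw [Pi.smul_apply, smul_eq_mul]
      simp only [dd] at h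
      field_simp
      linear_combination h

/-- The transvection `x ↦ x + s ⟨x, v⟩ v`. -/
def tv (v : Fin 2 → F) (s : F) : SpecialLinearGroup (Fin 2) F :=
  ⟨!![1 + s * v 0 * v 1, - s * v 0 * v 0; s * v 1 * v 1, 1 - s * v 0 * v 1], by
    rw [det_fin_two_of]; ring⟩

theorem ac_tv (v : Fin 2 → F) (s : F) (x : Fin 2 → F) : ac (tv v s) x = x + (s * dd x v) • v := by
  apply ext2
  · rw [ac_apply_zero]; simp [tv, dd]; ring
  · rw [ac_apply_one]; simp [tv, dd]; ring

@[simp] theorem ac_tv_self (v : Fin 2 → F) (s : F) : ac (tv v s) v = v := by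
  rw [ac_tv, dd_self, mul_zero, zero_smul, add_zero]

@[simp] theorem tv_zero_right (v : Fin 2 → F) : tv v 0 = 1 :=
  sl_ext' fun x => by rw [ac_tv]; simp
@[simp] theorem tv_zero_left (s : F) : tv (0 : Fin 2 → F) s = 1 :=
  sl_ext' fun x => by rw [ac_tv]; simp

theorem tv_add (v : Fin 2 → F) (s t : F) : tv v (s + t) = tv v s * tv v t := by
  apply sl_ext'
  intro x
  rw [ac_mul, ac_tv, ac_tv, ac_tv, dd_add_left, dd_smul_left, dd_self, mul_zero, add_zero, add_assoc,
    ← add_smul, add_mul, add_comm (s * dd x v)]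

theorem tv_neg (v : Fin 2 → F) (s : F) : tv v (-s) = (tv v s)⁻¹ := by
  rw [eq_inv_iff_mul_eq_one, ← tv_add, neg_add_cancel, tv_zero_right]

theorem tv_comm (v : Fin 2 → F) (s t : F) : Commute (tv v s) (tv v t) := by
  rw [Commute, SemiconjBy, ← tv_add, ← tv_add, add_comm]

theorem tv_smul (v : Fin 2 → F) (a s : F) : tv (a • v) s = tv v (a * a * s) := by
  apply sl_ext'
  intro x
  rw [ac_tv, ac_tv, dd_smul_right, smul_smul]
  congr 2
  ring

theorem conj_tv (g : SpecialLinearGroup (Fin 2) F) (v : Fin 2 → F) (s : F) :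
    g * tv v s * g⁻¹ = tv (ac g v) s := by
  apply sl_ext'
  intro x
  rw [ac_mul, ac_mul, ac_tv, ac_add, ac_smul, ac_ac_inv, ac_tv]
  congr 3
  rw [← dd_ac g (ac g⁻¹ x) v, ac_ac_inv]

theorem eq_tv {g : SpecialLinearGroup (Fin 2) F} (h : ac g ve = ve) : ∃ s, g = tv ve s := by
  refine ⟨- (ac g vf 0), sl_ext (by rw [h, ac_tv_self]) ?_⟩
  have h1 := dd_ac g ve vf
  rw [h, dd_ve_vf] at h1
  have h2 : ac g vf 1 = 1 := by
    simpa [dd] using h1
  rw [ac_tv, dd_vf_ve]
  apply ext2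
  · simp
  · simp [h2]

/-- The diagonal matrix. -/
def hd (a : Fˣ) : SpecialLinearGroup (Fin 2) F :=
  ⟨!![(a : F), 0; 0, ((a⁻¹ : Fˣ) : F)], by rw [det_fin_two_of]; simp⟩

@[simp] theorem ac_hd_ve (a : Fˣ) : ac (hd a) (ve : Fin 2 → F) = (a : F) • ve := by
  apply ext2
  · rw [ac_apply_zero]; simp [hd]
  · rw [ac_apply_one]; simp [hd]
@[simp] theorem ac_hd_vf (a : Fˣ) : ac (hd a) (vf : Fin 2 → F) = ((a⁻¹ : Fˣ) : F) • vf := by
  apply ext2
  · rw [ac_apply_zero]; simp [hd]
  · rw [ac_apply_one]; simp [hd]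

theorem hd_mul (a b : Fˣ) : (hd (a * b) : SpecialLinearGroup (Fin 2) F) = hd a * hd b := by
  apply sl_ext
  · rw [ac_mul, ac_hd_ve, ac_hd_ve, ac_smul, ac_hd_ve, smul_smul, Units.val_mul, mul_comm]
  · rw [ac_mul, ac_hd_vf, ac_hd_vf, ac_smul, ac_hd_vf, smul_smul, mul_inv, Units.val_mul, mul_comm]

@[simp] theorem hd_one : (hd 1 : SpecialLinearGroup (Fin 2) F) = 1 := by
  apply sl_ext
  · simp
  · simp

/-- `hd` as a homomorphism. -/
def hdHom : Fˣ →* SpecialLinearGroup (Fin 2) F where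
  toFun := hd
  map_one' := hd_one
  map_mul' := hd_mul

@[simp] theorem hdHom_apply (a : Fˣ) : (hdHom a : SpecialLinearGroup (Fin 2) F) = hd a := rfl

theorem hd_inv (a : Fˣ) : (hd a⁻¹ : SpecialLinearGroup (Fin 2) F) = (hd a)⁻¹ := map_inv hdHom a

/-- The Weyl element. -/
def wd : SpecialLinearGroup (Fin 2) F := ⟨!![0, -1; 1, 0], by rw [det_fin_two_of]; ring⟩

@[simp] theorem ac_wd_ve : ac wd (ve : Fin 2 → F) = vf := by
  apply ext2
  · rw [ac_apply_zero]; simp [wd]
  · rw [ac_apply_one]; simp [wd]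
@[simp] theorem ac_wd_vf : ac wd (vf : Fin 2 → F) = -ve := by
  apply ext2
  · rw [ac_apply_zero]; simp [wd]
  · rw [ac_apply_one]; simp [wd]

theorem ac_neg_one (v : Fin 2 → F) : ac (-1 : SpecialLinearGroup (Fin 2) F) v = -v := by
  apply ext2
  · rw [ac_apply_zero]; simp
  · rw [ac_apply_one]; simp

theorem wd_mul_wd : (wd * wd : SpecialLinearGroup (Fin 2) F) = -1 := by
  apply sl_ext
  · rw [ac_mul, ac_wd_ve, ac_wd_vf, ac_neg_one]
  · rw [ac_mul, ac_wd_vf, ac_neg, ac_wd_ve, ac_neg_one]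

theorem hd_neg_one : (hd (-1) : SpecialLinearGroup (Fin 2) F) = -1 := by
  apply sl_ext
  · rw [ac_hd_ve, ac_neg_one]; simp
  · rw [ac_hd_vf, ac_neg_one]; simp

/-- Any vector in terms of the basis. -/
theorem eq_ve_vf (v : Fin 2 → F) : v = v 0 • ve + v 1 • vf := by
  apply ext2 <;> simp

end Cfsg.Agent.H111
end

-- part: H111/SpAbs
section
/-!
# Abstract short root elements of type `C` (helper111, cluster S2284-S2297)

A group `Q` with homomorphisms `S : Perm (Fin (n+2)) →* Q`, `l : SL(2,F) →* Q` and an element `y` (the short root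
element `E 0 1 ve ve`).  Under the hypotheses `Sys1` the elements `L i g` and `E i j v w` are well defined and
are permuted as in the symplectic group.
-/

set_option autoImplicit false

namespace Cfsg.Agent.H111

open Equiv
open Matrix (SpecialLinearGroup)

/-- The data. -/
structure Pre (n : ℕ) (F : Type*) [Field F] (Q : Type*) [Group Q] where
  S : Perm (Fin (n + 2)) →* Q
  l : SpecialLinearGroup (Fin 2) F →* Q
  y : Q

theorem exists_perm2 {n : ℕ} {i j : Fin (n + 2)} (h : i ≠ j) : ∃ π : Perm (Fin (n + 2)), π 0 = i ∧ π 1 = j := by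
  have h01 : (0 : Fin (n + 2)) ≠ 1 := by simp
  have hj' : swap 0 i j ≠ 0 := by
    intro e
    have : j = swap 0 i (swap 0 i j) := by rw [swap_apply_self]
    rw [e, swap_apply_left] at this
    exact h this.symm
  refine ⟨swap 0 i * swap 1 (swap 0 i j), ?_, ?_⟩
  · rw [Perm.mul_apply, swap_apply_of_ne_of_ne h01 hj'.symm, swap_apply_left]
  · rw [Perm.mul_apply, swap_apply_left, swap_apply_self]

theorem conj_mul_commute {Q : Type*} [Group Q] {z c y : Q} (h : Commute c y) :
    (z * c) * y * (z * c)⁻¹ = z * y * z⁻¹ := by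
  rw [mul_inv_rev, mul_assoc z c y, h.eq]
  group

namespace Pre

variable {n : ℕ} {F : Type*} [Field F] {Q : Type*} [Group Q] {Q' : Type*} [Group Q']

/-- Transport by a homomorphism. -/
def map (A : Pre n F Q) (f : Q →* Q') : Pre n F Q' := ⟨f.comp A.S, f.comp A.l, f A.y⟩

/-- `SL(2,F)` in the plane `i`. -/
def L (A : Pre n F Q) (i : Fin (n + 2)) : SpecialLinearGroup (Fin 2) F →* Q :=
  (MulAut.conj (A.S (swap 0 i))).toMonoidHom.comp A.l

/-- Conjugates of `y`. -/
def z (A : Pre n F Q) (π : Perm (Fin (n + 2))) (g h : SpecialLinearGroup (Fin 2) F) : Q :=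
  A.S π * (A.L 0 g * A.L 1 h)

/-- Conjugates of `y`. -/
def Y (A : Pre n F Q) (π : Perm (Fin (n + 2))) (g h : SpecialLinearGroup (Fin 2) F) : Q :=
  A.z π g h * A.y * (A.z π g h)⁻¹

@[simp] theorem map_S (A : Pre n F Q) (f : Q →* Q') (π : Perm (Fin (n + 2))) : (A.map f).S π = f (A.S π) := rfl
@[simp] theorem map_l (A : Pre n F Q) (f : Q →* Q') (g : SpecialLinearGroup (Fin 2) F) :
    (A.map f).l g = f (A.l g) := rfl
@[simp] theorem map_y (A : Pre n F Q) (f : Q →* Q') : (A.map f).y = f A.y := rfl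

theorem L_apply (A : Pre n F Q) (i : Fin (n + 2)) (g : SpecialLinearGroup (Fin 2) F) :
    A.L i g = A.S (swap 0 i) * A.l g * (A.S (swap 0 i))⁻¹ := rfl

theorem L_zero (A : Pre n F Q) (g : SpecialLinearGroup (Fin 2) F) : A.L 0 g = A.l g := by
  rw [L_apply, swap_self]
  simp [← Perm.one_def]

@[simp] theorem map_L (A : Pre n F Q) (f : Q →* Q') (i : Fin (n + 2)) (g : SpecialLinearGroup (Fin 2) F) :
    (A.map f).L i g = f (A.L i g) := by
  rw [L_apply, L_apply, map_S, map_l, map_mul, map_mul, map_inv]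

@[simp] theorem map_z (A : Pre n F Q) (f : Q →* Q') (π : Perm (Fin (n + 2)))
    (g h : SpecialLinearGroup (Fin 2) F) : (A.map f).z π g h = f (A.z π g h) := by
  simp [z]

@[simp] theorem map_Y (A : Pre n F Q) (f : Q →* Q') (π : Perm (Fin (n + 2)))
    (g h : SpecialLinearGroup (Fin 2) F) : (A.map f).Y π g h = f (A.Y π g h) := by
  simp [Y]

/-- First hypotheses. -/
structure Sys1 (A : Pre n F Q) : Prop where
  comS : ∀ π : Perm (Fin (n + 2)), π 0 = 0 → ∀ g, Commute (A.S π) (A.l g)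
  comL : ∀ g h, Commute (A.L 0 g) (A.L 1 h)
  yS : ∀ π : Perm (Fin (n + 2)), π 0 = 0 → π 1 = 1 → Commute (A.S π) A.y
  yS01 : Commute (A.S (swap 0 1)) A.y
  yL : ∀ j, j ≠ 0 → j ≠ 1 → ∀ g, Commute (A.L j g) A.y
  yh : ∀ a : Fˣ, Commute (A.L 0 (hd a) * (A.L 1 (hd a))⁻¹) A.y
  yt : ∀ s : F, Commute (A.L 0 (tv ve s)) A.y

namespace Sys1

variable {A : Pre n F Q} (H : A.Sys1)
include H

theorem S_L (π : Perm (Fin (n + 2))) (i : Fin (n + 2)) (g : SpecialLinearGroup (Fin 2) F) :
    A.S π * A.L i g * (A.S π)⁻¹ = A.L (π i) g := by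
  have h1 : (swap 0 (π i) * (π * swap 0 i) : Perm (Fin (n + 2))) 0 = 0 := by
    rw [Perm.mul_apply, Perm.mul_apply, swap_apply_left, swap_apply_right]
  have h2 := H.comS _ h1 g
  have h3 : A.S π * A.S (swap 0 i) = A.S (swap 0 (π i)) * A.S (swap 0 (π i) * (π * swap 0 i)) := by
    rw [← map_mul, ← map_mul, ← mul_assoc (swap 0 (π i)), swap_mul_self, one_mul]
  rw [L_apply, L_apply]
  have e : A.S π * (A.S (swap 0 i) * A.l g * (A.S (swap 0 i))⁻¹) * (A.S π)⁻¹ =
      (A.S π * A.S (swap 0 i)) * A.l g * (A.S π * A.S (swap 0 i))⁻¹ := by group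
  rw [e, h3]
  exact conj_mul_commute h2

theorem S_L' (π : Perm (Fin (n + 2))) (i : Fin (n + 2)) (g : SpecialLinearGroup (Fin 2) F) :
    A.S π * A.L i g = A.L (π i) g * A.S π := by
  rw [← H.S_L]; group

theorem L_comm {i j : Fin (n + 2)} (hij : i ≠ j) (g h : SpecialLinearGroup (Fin 2) F) :
    Commute (A.L i g) (A.L j h) := by
  obtain ⟨π, rfl, rfl⟩ := exists_perm2 hij
  rw [← H.S_L, ← H.S_L π 1]
  exact Commute.conj_iff _ |>.2 (H.comL g h)

theorem yt1 (s : F) : Commute (A.L 1 (tv ve s)) A.y := by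
  have h := (Commute.conj_iff (A.S (swap 0 1))).2 (H.yt s)
  rw [H.S_L, swap_apply_left] at h
  have h1 : A.S (swap 0 1) * A.y * (A.S (swap 0 1))⁻¹ = A.y := by
    rw [H.yS01.eq, mul_inv_cancel_right]
  rwa [h1] at h

theorem S_z (σ π : Perm (Fin (n + 2))) (g h : SpecialLinearGroup (Fin 2) F) :
    A.S σ * A.z π g h = A.z (σ * π) g h := by
  rw [z, z, map_mul, mul_assoc]

theorem S_Y (σ π : Perm (Fin (n + 2))) (g h : SpecialLinearGroup (Fin 2) F) :
    A.S σ * A.Y π g h * (A.S σ)⁻¹ = A.Y (σ * π) g h := by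
  rw [Y, Y, ← H.S_z]; group

theorem L0_z (π : Perm (Fin (n + 2))) (k g h : SpecialLinearGroup (Fin 2) F) :
    A.L (π 0) k * A.z π g h = A.z π (k * g) h := by
  rw [z, z, ← mul_assoc, ← H.S_L', map_mul]; group

theorem L1_z (π : Perm (Fin (n + 2))) (k g h : SpecialLinearGroup (Fin 2) F) :
    A.L (π 1) k * A.z π g h = A.z π g (k * h) := by
  rw [z, z, ← mul_assoc, ← H.S_L', map_mul, mul_assoc, ← mul_assoc (A.L 1 k), (H.comL g k).symm.eq]
  group

theorem Lk_z (π : Perm (Fin (n + 2))) (j : Fin (n + 2)) (h0 : j ≠ 0) (h1 : j ≠ 1)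
    (k g h : SpecialLinearGroup (Fin 2) F) :
    A.L (π j) k * A.z π g h = A.z π g h * A.L j k := by
  rw [z, ← mul_assoc, ← H.S_L', mul_assoc, ← mul_assoc (A.L j k), (H.L_comm h0 k g).eq,
    mul_assoc (A.L 0 g), (H.L_comm h1 k h).eq]
  group

theorem L0_Y (π : Perm (Fin (n + 2))) (k g h : SpecialLinearGroup (Fin 2) F) :
    A.L (π 0) k * A.Y π g h * (A.L (π 0) k)⁻¹ = A.Y π (k * g) h := by
  rw [Y, Y, ← H.L0_z]; group

theorem L1_Y (π : Perm (Fin (n + 2))) (k g h : SpecialLinearGroup (Fin 2) F) :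
    A.L (π 1) k * A.Y π g h * (A.L (π 1) k)⁻¹ = A.Y π g (k * h) := by
  rw [Y, Y, ← H.L1_z]; group

theorem Lk_Y (π : Perm (Fin (n + 2))) (j : Fin (n + 2)) (h0 : j ≠ 0) (h1 : j ≠ 1)
    (k g h : SpecialLinearGroup (Fin 2) F) : Commute (A.L (π j) k) (A.Y π g h) := by
  have e : A.L (π j) k = A.z π g h * A.L j k * (A.z π g h)⁻¹ := by
    rw [← H.Lk_z π j h0 h1]; group
  rw [e, Y]
  exact (Commute.conj_iff _).2 (H.yL j h0 h1 k)

/-- `Y` depends only on the images of `ve` -/
theorem Y_congr_vec (π : Perm (Fin (n + 2))) {g g' h h' : SpecialLinearGroup (Fin 2) F}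
    (hg : ac g ve = ac g' ve) (hh : ac h ve = ac h' ve) : A.Y π g h = A.Y π g' h' := by
  obtain ⟨s, hs⟩ : ∃ s, g⁻¹ * g' = tv ve s := eq_tv (by rw [ac_mul, ← hg, ac_inv_ac])
  obtain ⟨t, ht⟩ : ∃ s, h⁻¹ * h' = tv ve s := eq_tv (by rw [ac_mul, ← hh, ac_inv_ac])
  have e1 : g' = g * tv ve s := by rw [← hs]; group
  have e2 : h' = h * tv ve t := by rw [← ht]; group
  have e3 : A.z π g' h' = A.z π g h * (A.L 0 (tv ve s) * A.L 1 (tv ve t)) := by
    rw [e1, e2, z, z, map_mul, map_mul]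
    have := (H.comL (tv ve s) h).eq
    calc A.S π * (A.L 0 g * A.L 0 (tv ve s) * (A.L 1 h * A.L 1 (tv ve t)))
        = A.S π * (A.L 0 g * (A.L 0 (tv ve s) * A.L 1 h) * A.L 1 (tv ve t)) := by group
      _ = A.S π * (A.L 0 g * A.L 1 h) * (A.L 0 (tv ve s) * A.L 1 (tv ve t)) := by rw [this]; group
  rw [Y, Y, e3]
  exact (conj_mul_commute ((H.yt s).mul_left (H.yt1 t))).symm

/-- `Y` depends only on `π 0`, `π 1` -/
theorem Y_congr_perm {π π' : Perm (Fin (n + 2))} (h0 : π 0 = π' 0) (h1 : π 1 = π' 1)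
    (g h : SpecialLinearGroup (Fin 2) F) : A.Y π g h = A.Y π' g h := by
  set ρ := π⁻¹ * π' with hρ
  have hρ0 : ρ 0 = 0 := by rw [hρ, Perm.mul_apply, ← h0]; simp
  have hρ1 : ρ 1 = 1 := by rw [hρ, Perm.mul_apply, ← h1]; simp
  have e : π' = π * ρ := by rw [hρ]; group
  have e3 : A.z π' g h = A.z π g h * A.S ρ := by
    have h2 := H.S_L' ρ 0 g
    have h3 := H.S_L' ρ 1 h
    rw [hρ0] at h2
    rw [hρ1] at h3
    rw [e, z, z, map_mul, mul_assoc, ← mul_assoc (A.S ρ), h2, mul_assoc (A.L 0 g), h3]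
    group
  rw [Y, Y, e3]
  exact (conj_mul_commute (H.yS ρ hρ0 hρ1)).symm

theorem Y_swap (π : Perm (Fin (n + 2))) (g h : SpecialLinearGroup (Fin 2) F) :
    A.Y (π * swap 0 1) g h = A.Y π h g := by
  have e3 : A.z (π * swap 0 1) g h = A.z π h g * A.S (swap 0 1) := by
    have h2 := H.S_L' (swap 0 1) 0 g
    have h3 := H.S_L' (swap 0 1) 1 h
    rw [swap_apply_left] at h2
    rw [swap_apply_right] at h3
    rw [z, z, map_mul, mul_assoc, ← mul_assoc (A.S (swap 0 1)), h2, mul_assoc (A.L 1 g), h3,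
      ← mul_assoc (A.L 1 g), ← (H.comL h g).eq]
    group
  rw [Y, Y, e3]
  exact conj_mul_commute H.yS01

theorem Y_hd (π : Perm (Fin (n + 2))) (g h : SpecialLinearGroup (Fin 2) F) (a : Fˣ) :
    A.Y π (g * hd a) h = A.Y π g (h * hd a) := by
  have e3 : A.z π (g * hd a) h = A.z π g (h * hd a) * (A.L 0 (hd a) * (A.L 1 (hd a))⁻¹) := by
    have h2 := (H.comL (hd a) (h * hd a)).eq
    rw [z, z, map_mul]
    calc A.S π * (A.L 0 g * A.L 0 (hd a) * A.L 1 h)
        = A.S π * (A.L 0 g * (A.L 0 (hd a) * A.L 1 (h * hd a)) * (A.L 1 (hd a))⁻¹) := by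
          rw [map_mul]; group
      _ = _ := by rw [h2]; group
  rw [Y, Y, e3]
  exact conj_mul_commute (H.yh a)

omit H in
open Classical in
/-- The short root elements. -/
noncomputable def _root_.Cfsg.Agent.H111.Pre.E (A : Pre n F Q) (i j : Fin (n + 2)) (v w : Fin 2 → F) : Q :=
  if h : i ≠ j then (if v ≠ 0 ∧ w ≠ 0 then A.Y (exists_perm2 h).choose (gv v) (gv w) else 1) else 1

omit H in
@[simp] theorem E_zero_left (i j : Fin (n + 2)) (w : Fin 2 → F) : A.E i j 0 w = 1 := by
  rw [E]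
  split_ifs with h1 h2
  · exact absurd rfl h2.1
  · rfl
  · rfl

omit H in
@[simp] theorem E_zero_right (i j : Fin (n + 2)) (w : Fin 2 → F) : A.E i j w 0 = 1 := by
  rw [E]
  split_ifs with h1 h2
  · exact absurd rfl h2.2
  · rfl
  · rfl

/-- the main formula -/
theorem E_eq (π : Perm (Fin (n + 2))) (g h : SpecialLinearGroup (Fin 2) F) :
    A.E (π 0) (π 1) (ac g ve) (ac h ve) = A.Y π g h := by
  have hne : π 0 ≠ π 1 := by
    rw [Ne, π.injective.eq_iff]; simp
  have h1 := ac_ne_zero (g := g) ve_ne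
  have h2 := ac_ne_zero (g := h) ve_ne
  rw [E, dif_pos hne, if_pos ⟨h1, h2⟩]
  obtain ⟨h3, h4⟩ := (exists_perm2 hne).choose_spec
  rw [H.Y_congr_perm h3 h4]
  exact H.Y_congr_vec π (gv_ve h1) (gv_ve h2)

theorem E_cases (P : Fin (n + 2) → Fin (n + 2) → (Fin 2 → F) → (Fin 2 → F) → Q → Prop)
    (h0l : ∀ i j w, i ≠ j → P i j 0 w 1) (h0r : ∀ i j v, i ≠ j → P i j v 0 1)
    (hY : ∀ π g h, P (π 0) (π 1) (ac g ve) (ac h ve) (A.Y π g h))
    {i j : Fin (n + 2)} (hij : i ≠ j) (v w : Fin 2 → F) : P i j v w (A.E i j v w) := by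
  by_cases hv : v = 0
  · subst hv; rw [E_zero_left]; exact h0l i j w hij
  by_cases hw : w = 0
  · subst hw; rw [E_zero_right]; exact h0r i j v hij
  obtain ⟨π, rfl, rfl⟩ := exists_perm2 hij
  obtain ⟨g, rfl⟩ := exists_col hv
  obtain ⟨h, rfl⟩ := exists_col hw
  rw [H.E_eq]
  exact hY π g h

theorem E_S (σ : Perm (Fin (n + 2))) {i j : Fin (n + 2)} (hij : i ≠ j) (v w : Fin 2 → F) :
    A.S σ * A.E i j v w * (A.S σ)⁻¹ = A.E (σ i) (σ j) v w := by
  refine H.E_cases (fun i j v w x => A.S σ * x * (A.S σ)⁻¹ = A.E (σ i) (σ j) v w) ?_ ?_ ?_ hij v w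
  · intro i j w _; simp
  · intro i j w _; simp
  · intro π g h
    rw [H.S_Y]
    exact (H.E_eq (σ * π) g h).symm

theorem E_L_left {i j : Fin (n + 2)} (hij : i ≠ j) (k : SpecialLinearGroup (Fin 2) F) (v w : Fin 2 → F) :
    A.L i k * A.E i j v w * (A.L i k)⁻¹ = A.E i j (ac k v) w := by
  refine H.E_cases (fun i j v w x => A.L i k * x * (A.L i k)⁻¹ = A.E i j (ac k v) w) ?_ ?_ ?_ hij v w
  · intro i j w _; simp
  · intro i j w _; simp
  · intro π g h
    rw [H.L0_Y, ← ac_mul, H.E_eq]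

theorem E_L_right {i j : Fin (n + 2)} (hij : i ≠ j) (k : SpecialLinearGroup (Fin 2) F) (v w : Fin 2 → F) :
    A.L j k * A.E i j v w * (A.L j k)⁻¹ = A.E i j v (ac k w) := by
  refine H.E_cases (fun i j v w x => A.L j k * x * (A.L j k)⁻¹ = A.E i j v (ac k w)) ?_ ?_ ?_ hij v w
  · intro i j w _; simp
  · intro i j w _; simp
  · intro π g h
    rw [H.L1_Y, ← ac_mul, H.E_eq]

theorem E_L_other {i j k : Fin (n + 2)} (hij : i ≠ j) (hki : k ≠ i) (hkj : k ≠ j)
    (g : SpecialLinearGroup (Fin 2) F) (v w : Fin 2 → F) : Commute (A.L k g) (A.E i j v w) := by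
  refine H.E_cases (fun i j _ _ x => k ≠ i → k ≠ j → Commute (A.L k g) x) ?_ ?_ ?_ hij v w hki hkj
  · intro i j w _ _ _; exact Commute.one_right _
  · intro i j w _ _ _; exact Commute.one_right _
  · intro π g' h h0 h1
    have e : k = π (π⁻¹ k) := by simp
    rw [e]
    apply H.Lk_Y
    · intro h2; apply h0; rw [e, h2]
    · intro h2; apply h1; rw [e, h2]

theorem E_symm {i j : Fin (n + 2)} (hij : i ≠ j) (v w : Fin 2 → F) : A.E i j v w = A.E j i w v := by
  refine H.E_cases (fun i j v w x => x = A.E j i w v) ?_ ?_ ?_ hij v w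
  · intro i j w _; simp
  · intro i j w _; simp
  · intro π g h
    rw [← H.Y_swap, ← H.E_eq]
    simp

theorem E_smul {i j : Fin (n + 2)} (hij : i ≠ j) (a : F) (v w : Fin 2 → F) :
    A.E i j (a • v) w = A.E i j v (a • w) := by
  by_cases ha : a = 0
  · subst ha; simp
  refine H.E_cases (fun i j v w _ => A.E i j (a • v) w = A.E i j v (a • w)) ?_ ?_ ?_ hij v w
  · intro i j w _; simp
  · intro i j w _; simp
  · intro π g h
    have e1 : a • ac g ve = ac (g * hd (Units.mk0 a ha)) (ve : Fin 2 → F) := by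
      rw [ac_mul, ac_hd_ve, ac_smul, Units.val_mk0]
    have e2 : a • ac h ve = ac (h * hd (Units.mk0 a ha)) (ve : Fin 2 → F) := by
      rw [ac_mul, ac_hd_ve, ac_smul, Units.val_mk0]
    rw [e1, e2, H.E_eq, H.E_eq, H.Y_hd]

theorem y_eq : A.y = A.E 0 1 ve ve := by
  have h := H.E_eq 1 1 1
  simp only [Perm.one_apply, ac_one] at h
  rw [h, Y, z]
  simp

theorem Y_one (π : Perm (Fin (n + 2))) : A.Y π 1 1 = A.S π * A.y * (A.S π)⁻¹ := by
  rw [Y, z]; simp

end Sys1

end Pre

end Cfsg.Agent.H111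
end

-- part: H111/SpRel
section
/-!
# Steinberg relations of type `C` from few relators (helper111, cluster S2284-S2297)
-/

set_option autoImplicit false

namespace Cfsg.Agent.H111

open Equiv
open Matrix (SpecialLinearGroup)

namespace Pre

variable {n : ℕ} {F : Type*} [Field F] {Q : Type*} [Group Q]

/-- Second hypotheses. -/
structure Sys2 (A : Pre n F Q) (ζ : F) : Prop extends Sys1 A where
  hζ0 : ζ ≠ 0
  hζ : ∀ a : F, a ≠ 0 → ∃ b : F, b ≠ 0 ∧ (a = b * b * 1 ∨ a = b * b * ζ)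
  add1 : ∀ c, (c = 1 ∨ c = ζ) →
    A.E 0 1 ve ve * A.E 0 1 ve (c • vf) = A.L 0 (tv ve (-c)) * A.E 0 1 ve (ve + c • vf)
  com1 : ∀ j, j ≠ 0 → j ≠ 1 → Commute (A.E 0 1 ve ve) (A.E 0 j ve ve)
  com2 : ∀ j, j ≠ 0 → j ≠ 1 →
    A.E 0 1 ve ve * A.E 0 j vf ve * (A.E 0 1 ve ve)⁻¹ = A.E 0 j vf ve * A.E 1 j (-ve) ve
  com3 : ∀ j k, j ≠ 0 → j ≠ 1 → k ≠ 0 → k ≠ 1 → j ≠ k → Commute (A.E 0 1 ve ve) (A.E j k ve ve)
  sw : A.S (swap 0 1) = A.E 0 1 ve vf * A.E 0 1 vf (-ve) * A.E 0 1 ve vf * A.L 0 (-1)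

namespace Sys1

variable {A : Pre n F Q} (H : A.Sys1)
include H

theorem conj_L_E {i j : Fin (n + 2)} (hij : i ≠ j) (k : Fin (n + 2)) (g : SpecialLinearGroup (Fin 2) F)
    (v w : Fin 2 → F) :
    MulAut.conj (A.L k g) (A.E i j v w) = A.E i j (if k = i then ac g v else v) (if k = j then ac g w else w) := by
  rw [MulAut.conj_apply]
  by_cases h1 : k = i
  · subst h1
    rw [if_pos rfl, if_neg hij, H.E_L_left hij]
  · rw [if_neg h1]
    by_cases h2 : k = j
    · subst h2
      rw [if_pos rfl, H.E_L_right hij]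
    · rw [if_neg h2, (H.E_L_other hij h1 h2 g v w).eq, mul_inv_cancel_right]

theorem conj_S_E {i j : Fin (n + 2)} (hij : i ≠ j) (π : Perm (Fin (n + 2))) (v w : Fin 2 → F) :
    MulAut.conj (A.S π) (A.E i j v w) = A.E (π i) (π j) v w := H.E_S π hij v w

theorem conj_S_L (π : Perm (Fin (n + 2))) (i : Fin (n + 2)) (g : SpecialLinearGroup (Fin 2) F) :
    MulAut.conj (A.S π) (A.L i g) = A.L (π i) g := H.S_L π i g

theorem conj_L_L (k i : Fin (n + 2)) (g h : SpecialLinearGroup (Fin 2) F) :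
    MulAut.conj (A.L k g) (A.L i h) = A.L i (if k = i then g * h * g⁻¹ else h) := by
  rw [MulAut.conj_apply]
  by_cases h1 : k = i
  · subst h1
    rw [if_pos rfl, map_mul, map_mul, map_inv]
  · rw [if_neg h1, (H.L_comm h1 g h).eq, mul_inv_cancel_right]

end Sys1

namespace Sys2

variable {A : Pre n F Q} {ζ : F} (H : A.Sys2 ζ)
include H

/-- `E i j v w` commutes with `T i v s`. -/
theorem comm_T_E {i j : Fin (n + 2)} (hij : i ≠ j) (v w : Fin 2 → F) (s : F) :
    Commute (A.L i (tv v s)) (A.E i j v w) := by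
  have h := H.E_L_left hij (tv v s) v w
  rw [ac_tv_self] at h
  rw [Commute, SemiconjBy]
  calc A.L i (tv v s) * A.E i j v w = (A.L i (tv v s) * A.E i j v w * (A.L i (tv v s))⁻¹) * A.L i (tv v s) := by
        group
    _ = _ := by rw [h]

theorem add_of_ne {i j : Fin (n + 2)} (hij : i ≠ j) (v w w' : Fin 2 → F) (h : dd w w' ≠ 0) :
    A.E i j v w * A.E i j v w' = A.L i (tv v (dd w' w)) * A.E i j v (w + w') := by
  by_cases hv : v = 0
  · subst hv; simp
  obtain ⟨b, hb, hc⟩ := H.hζ _ h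
  obtain ⟨c, hc1, hc2⟩ : ∃ c, (c = 1 ∨ c = ζ) ∧ dd w w' = b * b * c := by
    rcases hc with h | h
    · exact ⟨1, Or.inl rfl, h⟩
    · exact ⟨ζ, Or.inr rfl, h⟩
  have hc0 : c ≠ 0 := by
    rintro rfl
    exact h (by rw [hc2, mul_zero])
  obtain ⟨g, hg1, hg2⟩ := exists_col2 (v := b⁻¹ • w) (w := b⁻¹ • w') hc0 (by
    rw [dd_smul_left, dd_smul_right, hc2]; field_simp)
  obtain ⟨k, hk⟩ := exists_col (v := b • v) (smul_ne_zero hb hv)
  obtain ⟨π, rfl, rfl⟩ := exists_perm2 hij
  have h01 : (0 : Fin (n + 2)) ≠ 1 := by simp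
  have key := congrArg (MulAut.conj (A.S π * A.L 0 k * A.L 1 g)) (H.add1 c hc1)
  rw [map_mul, map_mul, map_mul, map_mul] at key
  simp only [MulAut.mul_apply, H.conj_L_E h01, H.conj_L_L, h01, h01.symm, if_true, if_false, H.conj_S_E h01,
    H.conj_S_L, conj_tv, hk, hg1, hg2, ac_add] at key
  have e1 : ∀ u : Fin 2 → F, A.E (π 0) (π 1) (b • v) (b⁻¹ • u) = A.E (π 0) (π 1) v u := by
    intro u
    rw [H.E_smul hij, smul_smul, mul_inv_cancel₀ hb, one_smul]
  rw [← smul_add, e1, e1, e1, tv_smul] at key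
  rw [key, dd_swap w' w, hc2]
  congr 4
  ring

theorem E_neg {i j : Fin (n + 2)} (hij : i ≠ j) (v u : Fin 2 → F) : A.E i j v u * A.E i j v (-u) = 1 := by
  by_cases hu : u = 0
  · subst hu; simp
  obtain ⟨w', hw'⟩ := exists_dd_ne hu
  set w := -w' with hw
  have hd : dd w u = 1 := by rw [hw, dd_neg_left, dd_swap, hw', neg_neg]
  have h1 := H.add_of_ne hij v (w + u) (-u) (by
    rw [dd_neg_right, dd_add_left, dd_self, add_zero, hd]; simp)
  have h2 := H.add_of_ne hij v w u (by rw [hd]; simp)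
  rw [add_neg_cancel_right, dd_neg_left, dd_add_right, dd_self, add_zero, dd_swap, hd, neg_neg] at h1
  rw [dd_swap, hd] at h2
  have h3 : A.E i j v (w + u) = A.L i (tv v 1) * (A.E i j v w * A.E i j v u) := by
    rw [h2, ← mul_assoc, ← map_mul, ← tv_add]; simp
  rw [h3, mul_assoc] at h1
  have h4 := mul_left_cancel h1
  rw [mul_assoc] at h4
  exact mul_left_cancel (a := A.E i j v w) (by rw [h4, mul_one])

theorem add_of_ne' {i j : Fin (n + 2)} (hij : i ≠ j) (v w w' : Fin 2 → F) (h : dd w w' ≠ 0) :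
    A.E i j v (w + w') = A.L i (tv v (dd w w')) * (A.E i j v w * A.E i j v w') := by
  rw [H.add_of_ne hij v w w' h, ← mul_assoc, ← map_mul, ← tv_add, dd_swap w' w]; simp

/-- **Addition formula**. -/
theorem add {i j : Fin (n + 2)} (hij : i ≠ j) (v w w' : Fin 2 → F) :
    A.E i j v w * A.E i j v w' = A.L i (tv v (dd w' w)) * A.E i j v (w + w') := by
  by_cases hd : dd w w' = 0
  swap
  · exact H.add_of_ne hij v w w' hd
  by_cases hw : w = 0
  · subst hw; simp
  obtain ⟨a, rfl⟩ := eq_smul_of_dd hw hd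
  have hdd : dd (a • w) w = 0 := by rw [dd_smul_left, dd_self, mul_zero]
  rw [hdd, tv_zero_right, map_one, one_mul]
  by_cases ha : a = 0
  · subst ha; simp
  by_cases ha1 : 1 + a = 0
  · have ha2 : a = -1 := by linear_combination ha1
    subst ha2
    rw [neg_smul, one_smul, H.E_neg hij, add_neg_cancel]; simp
  obtain ⟨u, hu⟩ := exists_dd_ne hw
  have hu' : dd u w = -1 := by rw [dd_swap, hu]
  have h1 : A.E i j v w = A.L i (tv v 1) * (A.E i j v (w - u) * A.E i j v u) := by
    have := H.add_of_ne' hij v (w - u) u (by rw [dd_sub_left, dd_self, hu]; simp)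
    rwa [sub_add_cancel, dd_sub_left, dd_self, hu, sub_zero] at this
  have h2 : A.E i j v u * A.E i j v (a • w) = A.L i (tv v a) * A.E i j v (u + a • w) := by
    have := H.add_of_ne hij v u (a • w) (by rw [dd_smul_right, hu']; simpa using ha)
    rwa [dd_smul_left, hu, mul_one] at this
  have h3 : A.E i j v (w - u) * A.E i j v (u + a • w) = A.L i (tv v (-(1 + a))) * A.E i j v (w + a • w) := by
    have e : dd (w - u) (u + a • w) = 1 + a := by
      rw [dd_sub_left, dd_add_right, dd_add_right, dd_smul_right, dd_smul_right, hu, hu', dd_self, dd_self]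
      ring
    have := H.add_of_ne hij v (w - u) (u + a • w) (by rw [e]; exact ha1)
    rw [dd_swap (u + a • w), e] at this
    rw [this]
    congr 2
    abel
  have hc := (H.comm_T_E hij v (w - u) a).eq
  calc A.E i j v w * A.E i j v (a • w)
      = A.L i (tv v 1) * A.E i j v (w - u) * (A.E i j v u * A.E i j v (a • w)) := by rw [h1]; group
    _ = A.L i (tv v 1) * (A.E i j v (w - u) * A.L i (tv v a)) * A.E i j v (u + a • w) := by rw [h2]; group
    _ = A.L i (tv v 1) * A.L i (tv v a) * (A.E i j v (w - u) * A.E i j v (u + a • w)) := by rw [← hc]; group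
    _ = (A.L i (tv v 1) * A.L i (tv v a) * A.L i (tv v (-(1 + a)))) * A.E i j v (w + a • w) := by rw [h3]; group
    _ = _ := by
      rw [← map_mul, ← map_mul, ← tv_add, ← tv_add]
      simp

theorem E_inv {i j : Fin (n + 2)} (hij : i ≠ j) (v w : Fin 2 → F) : (A.E i j v w)⁻¹ = A.E i j v (-w) := by
  rw [inv_eq_iff_mul_eq_one, H.E_neg hij]

/-- additivity on a line -/
theorem add_line {i j : Fin (n + 2)} (hij : i ≠ j) (v w : Fin 2 → F) (a b : F) :
    A.E i j v (a • w) * A.E i j v (b • w) = A.E i j v ((a + b) • w) := by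
  rw [H.add hij, dd_smul_left, dd_smul_right, dd_self, mul_zero, mul_zero, tv_zero_right, map_one, one_mul, add_smul]

/-- **The commutator formula for three planes.** -/
theorem comm3 {i j k : Fin (n + 2)} (hij : i ≠ j) (hik : i ≠ k) (hjk : j ≠ k) (v v' w w' : Fin 2 → F) :
    A.E i j v w * A.E i k v' w' * (A.E i j v w)⁻¹ = A.E i k v' w' * A.E j k (dd v' v • w) w' := by
  by_cases hv : v = 0
  · subst hv; simp
  by_cases hw : w = 0
  · subst hw; simp
  by_cases hv' : v' = 0
  · subst hv'; simp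
  by_cases hw' : w' = 0
  · subst hw'; simp
  have h01 : (0 : Fin (n + 2)) ≠ 1 := by simp
  obtain ⟨π, rfl, rfl⟩ := exists_perm2 hij
  obtain ⟨k, rfl⟩ : ∃ k', k = π k' := ⟨π⁻¹ k, by simp⟩
  rw [Ne, π.injective.eq_iff] at hik hjk
  have hk0 : k ≠ 0 := fun e => hik e.symm
  have hk1 : k ≠ 1 := fun e => hjk e.symm
  by_cases hd : dd v v' = 0
  · obtain ⟨a, rfl⟩ := eq_smul_of_dd hv hd
    have ha : a ≠ 0 := by rintro rfl; exact hv' (by simp)
    obtain ⟨g, hg⟩ := exists_col hv
    obtain ⟨h, hh⟩ := exists_col hw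
    obtain ⟨h', hh'⟩ := exists_col (v := a • w') (smul_ne_zero ha hw')
    have key := congrArg (MulAut.conj (A.S π * A.L 0 g * A.L 1 h * A.L k h')) (H.com1 k hk0 hk1).eq
    rw [map_mul, map_mul, map_mul, map_mul, map_mul] at key
    simp only [MulAut.mul_apply, H.conj_L_E h01, H.conj_L_E hk0.symm, h01, h01.symm, if_true, if_false, H.conj_S_E h01,
      H.conj_S_E hk0.symm, hg, hh, hh', hk0, hk1, hk0.symm, hk1.symm] at key
    have hπ : π 0 ≠ π k := by rw [Ne, π.injective.eq_iff]; exact hk0.symm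
    rw [H.E_smul hπ, key, mul_inv_cancel_right, dd_smul_left, dd_self]
    simp
  · set c := dd v' v with hc
    have hc0 : c ≠ 0 := by rw [hc, dd_swap]; simpa using hd
    obtain ⟨g, hg1, hg2⟩ := exists_col2 (v := v) (w := (-c⁻¹) • v') one_ne_zero (by
      rw [dd_smul_right, dd_swap v v', ← hc]; field_simp)
    rw [one_smul] at hg2
    obtain ⟨h, hh⟩ := exists_col hw
    obtain ⟨h', hh'⟩ := exists_col (v := (-c) • w') (smul_ne_zero (neg_ne_zero.2 hc0) hw')
    have key := congrArg (MulAut.conj (A.S π * A.L 0 g * A.L 1 h * A.L k h')) (H.com2 k hk0 hk1)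
    rw [map_mul, map_mul, map_mul, map_mul, map_mul, map_mul, map_inv] at key
    simp only [MulAut.mul_apply, H.conj_L_E h01, H.conj_L_E hk0.symm, H.conj_L_E hk1.symm, h01, h01.symm, if_true,
      if_false, H.conj_S_E h01, H.conj_S_E hk0.symm, H.conj_S_E hk1.symm, hg1, hg2, hh, hh', hk0, hk1, hk0.symm,
      hk1.symm, ac_neg] at key
    have hπ : π 0 ≠ π k := by rw [Ne, π.injective.eq_iff]; exact hk0.symm
    have hπ1 : π 1 ≠ π k := by rw [Ne, π.injective.eq_iff]; exact hk1.symm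
    have e1 : A.E (π 0) (π k) (-c⁻¹ • v') (-c • w') = A.E (π 0) (π k) v' w' := by
      rw [H.E_smul hπ, smul_smul]
      congr 1
      rw [neg_mul_neg, inv_mul_cancel₀ hc0, one_smul]
    have e2 : A.E (π 1) (π k) (-w) (-c • w') = A.E (π 1) (π k) (c • w) w' := by
      rw [← H.E_smul hπ1, smul_neg, neg_smul, neg_neg]
    rw [e1, e2] at key
    exact key

/-- **Disjoint planes.** -/
theorem comm4 {i j k l : Fin (n + 2)} (hij : i ≠ j) (hik : i ≠ k) (hjk : j ≠ k) (hil : i ≠ l) (hjl : j ≠ l)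
    (hkl : k ≠ l) (v v' w w' : Fin 2 → F) : Commute (A.E i j v w) (A.E k l v' w') := by
  by_cases hv : v = 0
  · subst hv; simp
  by_cases hw : w = 0
  · subst hw; simp
  by_cases hv' : v' = 0
  · subst hv'; simp
  by_cases hw' : w' = 0
  · subst hw'; simp
  have h01 : (0 : Fin (n + 2)) ≠ 1 := by simp
  obtain ⟨π, rfl, rfl⟩ := exists_perm2 hij
  obtain ⟨k, rfl⟩ : ∃ k', k = π k' := ⟨π⁻¹ k, by simp⟩
  obtain ⟨l, rfl⟩ : ∃ k', l = π k' := ⟨π⁻¹ l, by simp⟩
  rw [Ne, π.injective.eq_iff] at hik hjk hil hjl hkl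
  have hk0 : k ≠ 0 := fun e => hik e.symm
  have hk1 : k ≠ 1 := fun e => hjk e.symm
  have hl0 : l ≠ 0 := fun e => hil e.symm
  have hl1 : l ≠ 1 := fun e => hjl e.symm
  obtain ⟨g, hg⟩ := exists_col hv
  obtain ⟨h, hh⟩ := exists_col hw
  obtain ⟨g', hg'⟩ := exists_col hv'
  obtain ⟨h', hh'⟩ := exists_col hw'
  have key := congrArg (MulAut.conj (A.S π * A.L 0 g * A.L 1 h * A.L k g' * A.L l h'))
    (H.com3 k l hk0 hk1 hl0 hl1 hkl).eq
  rw [map_mul, map_mul, map_mul, map_mul, map_mul, map_mul] at key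
  simp only [MulAut.mul_apply, H.conj_L_E h01, H.conj_L_E hkl, h01, h01.symm, if_true, if_false, H.conj_S_E h01,
    H.conj_S_E hkl, hg, hh, hg', hh', hk0, hk1, hk0.symm, hk1.symm, hl0, hl1, hl0.symm, hl1.symm, hkl, Ne.symm hkl]
    at key
  exact key

/-- The transposition. -/
theorem S_swap {i j : Fin (n + 2)} (hij : i ≠ j) :
    A.S (swap i j) = A.E i j ve vf * A.E i j vf (-ve) * A.E i j ve vf * A.L i (-1) := by
  obtain ⟨π, rfl, rfl⟩ := exists_perm2 hij
  have h01 : (0 : Fin (n + 2)) ≠ 1 := by simp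
  have key := congrArg (MulAut.conj (A.S π)) H.sw
  rw [map_mul, map_mul, map_mul] at key
  simp only [H.conj_S_E h01, H.conj_S_L] at key
  rw [← key, MulAut.conj_apply, ← map_mul, ← map_inv, ← map_mul]
  congr 1
  rw [Equiv.swap_apply_apply]

end Sys2

end Pre

end Cfsg.Agent.H111
end

-- part: H111/SpRoot
section
/-!
# The root datum of type `C` in `Q` (helper111, cluster S2284-S2297)
-/

set_option autoImplicit false

namespace Cfsg.Agent.H111

open Equiv
open Matrix (SpecialLinearGroup)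
open Cfsg.Agent.ChevalleyStructure.SteinbergBruhat

/-- Signed indices. -/
abbrev Sg (n : ℕ) : Type := Fin (n + 2) × Bool

/-- negation of a signed index -/
def ng {n : ℕ} (a : Sg n) : Sg n := (a.1, !a.2)

@[simp] theorem ng_ng {n : ℕ} (a : Sg n) : ng (ng a) = a := by simp [ng]
@[simp] theorem ng_fst {n : ℕ} (a : Sg n) : (ng a).1 = a.1 := rfl
@[simp] theorem ng_mk {n : ℕ} (i : Fin (n + 2)) (s : Bool) : ng ((i, s) : Sg n) = (i, !s) := rfl

theorem ng_ne {n : ℕ} (a : Sg n) : ng a ≠ a := by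
  intro h
  have := congrArg Prod.snd h
  simp [ng] at this

theorem eq_or_ng {n : ℕ} {a b : Sg n} (h : a.1 = b.1) : b = a ∨ b = ng a := by
  obtain ⟨i, s⟩ := a
  obtain ⟨j, t⟩ := b
  simp only at h
  subst h
  cases s <;> cases t <;> simp [ng]

/-- heights of signed indices -/
def hs {n : ℕ} (a : Sg n) : ℤ := if a.2 then (n + 2 - a.1.val : ℤ) else -(n + 2 - a.1.val : ℤ)

theorem hs_ng {n : ℕ} (a : Sg n) : hs (ng a) = - hs a := by
  obtain ⟨i, s⟩ := a
  cases s <;> simp [hs, ng]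

theorem hs_true {n : ℕ} (i : Fin (n + 2)) : hs ((i, true) : Sg n) = n + 2 - i.val := rfl
theorem hs_false {n : ℕ} (i : Fin (n + 2)) : hs ((i, false) : Sg n) = -(n + 2 - i.val) := rfl

theorem hs_ne {n : ℕ} (a : Sg n) : hs a ≠ 0 := by
  obtain ⟨⟨i, hi⟩, s⟩ := a
  cases s
  · rw [hs_false]; simp only; omega
  · rw [hs_true]; simp only; omega

theorem hs_inj {n : ℕ} {a b : Sg n} (h : hs a = hs b) : a = b := by
  obtain ⟨⟨i, hi⟩, s⟩ := a
  obtain ⟨⟨j, hj⟩, t⟩ := b
  cases s <;> cases t <;> simp only [hs_false, hs_true] at h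
  · have : i = j := by omega
    subst this; rfl
  · omega
  · omega
  · have : i = j := by omega
    subst this; rfl

theorem hs_add_ne {n : ℕ} {a b : Sg n} (h : b ≠ ng a) : hs a + hs b ≠ 0 := by
  intro e
  apply h
  apply hs_inj
  rw [hs_ng]; omega

/-- the basis vector -/
def bs {F : Type*} [Field F] (s : Bool) : Fin 2 → F := if s then ve else vf

@[simp] theorem bs_true {F : Type*} [Field F] : (bs true : Fin 2 → F) = ve := rfl
@[simp] theorem bs_false {F : Type*} [Field F] : (bs false : Fin 2 → F) = vf := rfl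

/-- The roots. -/
def Root (n : ℕ) : Type := {r : Sym2 (Sg n) // r.map ng ≠ r}

instance finite_Root_H111 (n : ℕ) : Finite (Root n) := by unfold Root; infer_instance

theorem isRoot_iff {n : ℕ} {a b : Sg n} : (s(a, b) : Sym2 (Sg n)).map ng ≠ s(a, b) ↔ b ≠ ng a := by
  rw [Sym2.map_mk, Ne, Sym2.eq_iff, not_or, not_and, not_and]
  constructor
  · rintro ⟨_, h2⟩ rfl
    exact h2 rfl (ng_ng a)
  · intro h
    exact ⟨fun h1 => absurd h1 (ng_ne a), fun h1 => absurd h1.symm h⟩

/-- The root `{a, b}`. -/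
def mkR {n : ℕ} (a b : Sg n) (h : b ≠ ng a) : Root n := ⟨s(a, b), isRoot_iff.2 h⟩

theorem Root.ind {n : ℕ} {P : Root n → Prop} (h : ∀ a b h, P (mkR a b h)) (r : Root n) : P r := by
  obtain ⟨r, hr⟩ := r
  induction r using Sym2.ind with
  | _ a b => exact h a b (isRoot_iff.1 hr)

theorem mkR_eq {n : ℕ} {a b c d : Sg n} {h : b ≠ ng a} {h' : d ≠ ng c} :
    mkR a b h = mkR c d h' ↔ (a = c ∧ b = d) ∨ (a = d ∧ b = c) :=
  Subtype.ext_iff.trans Sym2.eq_iff

/-- height of a root -/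
def Root.ht {n : ℕ} (r : Root n) : ℤ := Sym2.lift ⟨fun a b => hs a + hs b, fun a b => add_comm _ _⟩ r.1

@[simp] theorem ht_mkR {n : ℕ} (a b : Sg n) (h : b ≠ ng a) : (mkR a b h).ht = hs a + hs b := rfl

/-- image of a root -/
def Root.im {n : ℕ} (f : Sg n → Sg n) (hf : Function.Injective f) (hf' : ∀ a, f (ng a) = ng (f a)) (r : Root n) :
    Root n :=
  ⟨r.1.map f, by
    revert r
    refine Root.ind fun a b h => ?_
    change ((s(a, b) : Sym2 (Sg n)).map f).map ng ≠ (s(a, b) : Sym2 (Sg n)).map f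
    rw [Sym2.map_mk, isRoot_iff, ← hf', Ne, hf.eq_iff]
    exact h⟩

theorem im_mkR {n : ℕ} (f : Sg n → Sg n) (hf : Function.Injective f) (hf' : ∀ a, f (ng a) = ng (f a)) (a b : Sg n)
    (h : b ≠ ng a) : (mkR a b h).im f hf hf' = mkR (f a) (f b) (by rw [← hf', Ne, hf.eq_iff]; exact h) := rfl

/-- The index set of simple roots: `inl i` for `e_i - e_{i+1}`, `inr ()` for `2 e_{n+1}`. -/
abbrev Sim (n : ℕ) : Type := Fin (n + 1) ⊕ Unit

/-- simple reflections on signed indices -/
def rho {n : ℕ} : Sim n → Sg n → Sg n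
  | Sum.inl i => fun a => (swap i.castSucc i.succ a.1, a.2)
  | Sum.inr _ => fun a => if a.1 = Fin.last (n + 1) then ng a else a

@[simp] theorem rho_inl {n : ℕ} (i : Fin (n + 1)) (a : Sg n) :
    rho (Sum.inl i) a = (swap i.castSucc i.succ a.1, a.2) := rfl
@[simp] theorem rho_inr {n : ℕ} (u : Unit) (a : Sg n) :
    rho (Sum.inr u) a = if a.1 = Fin.last (n + 1) then ng a else a := rfl

theorem rho_rho {n : ℕ} (i : Sim n) (a : Sg n) : rho i (rho i a) = a := by
  rcases i with i | u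
  · simp
  · simp only [rho_inr]
    by_cases h : a.1 = Fin.last (n + 1) <;> simp [h]

theorem rho_inj {n : ℕ} (i : Sim n) : Function.Injective (rho i) := by
  intro a b h
  rw [← rho_rho i a, h, rho_rho]

theorem rho_ng {n : ℕ} (i : Sim n) (a : Sg n) : rho i (ng a) = ng (rho i a) := by
  rcases i with i | u
  · simp [ng]
  · simp only [rho_inr, ng_fst]
    by_cases h : a.1 = Fin.last (n + 1) <;> simp [h]

theorem ng_inj {n : ℕ} : Function.Injective (ng : Sg n → Sg n) := by
  intro a b h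
  rw [← ng_ng a, h, ng_ng]

/-- The negative of a root. -/
def Root.neg {n : ℕ} (r : Root n) : Root n := r.im ng ng_inj fun _ => rfl

/-- Simple reflections. -/
def Root.refl {n : ℕ} (i : Sim n) (r : Root n) : Root n := r.im (rho i) (rho_inj i) (rho_ng i)

/-- Simple roots. -/
def simR {n : ℕ} : Sim n → Root n
  | Sum.inl i => mkR (i.castSucc, true) (i.succ, false) (by
      intro h
      have := congrArg (fun a : Sg n => a.1.val) h
      simp [ng] at this)
  | Sum.inr _ => mkR (Fin.last (n + 1), true) (Fin.last (n + 1), true) (ng_ne _).symm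

theorem simR_inl {n : ℕ} (i : Fin (n + 1)) (h) :
    simR (Sum.inl i : Sim n) = mkR (i.castSucc, true) (i.succ, false) h := rfl
theorem simR_inr {n : ℕ} (u : Unit) (h) :
    simR (Sum.inr u : Sim n) = mkR (Fin.last (n + 1), true) (Fin.last (n + 1), true) h := rfl

theorem Root.ht_ne {n : ℕ} (r : Root n) : r.ht ≠ 0 := by
  revert r
  exact Root.ind fun a b h => hs_add_ne h

theorem Root.ht_neg {n : ℕ} (r : Root n) : r.neg.ht = - r.ht := by
  revert r
  refine Root.ind fun a b h => ?_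
  rw [Root.neg, im_mkR, ht_mkR, ht_mkR, hs_ng, hs_ng]
  ring

theorem Root.refl_refl {n : ℕ} (i : Sim n) (r : Root n) : (r.refl i).refl i = r := by
  revert r
  refine Root.ind fun a b h => ?_
  rw [Root.refl, Root.refl, im_mkR, im_mkR, mkR_eq, rho_rho, rho_rho]
  exact Or.inl ⟨rfl, rfl⟩

theorem Root.refl_neg {n : ℕ} (i : Sim n) (r : Root n) : r.neg.refl i = (r.refl i).neg := by
  revert r
  refine Root.ind fun a b h => ?_
  rw [Root.refl, Root.refl, Root.neg, Root.neg, im_mkR, im_mkR, im_mkR, im_mkR, mkR_eq, rho_ng, rho_ng]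
  exact Or.inl ⟨rfl, rfl⟩

theorem refl_simR {n : ℕ} (i : Sim n) : (simR i).refl i = (simR i).neg := by
  rcases i with i | u
  · have h : ((i.succ, false) : Sg n) ≠ ng (i.castSucc, true) := by
      intro h
      have := congrArg (fun a : Sg n => a.1.val) h
      simp [ng] at this
    rw [simR_inl i h, Root.refl, Root.neg, im_mkR, im_mkR, mkR_eq]
    simp
  · rw [simR_inr u (ng_ne _).symm, Root.refl, Root.neg, im_mkR, im_mkR, mkR_eq]
    simp

theorem ht_simR {n : ℕ} (i : Sim n) : 0 < (simR i).ht := by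
  rcases i with i | u
  · have h : ((i.succ, false) : Sg n) ≠ ng (i.castSucc, true) := by
      intro h
      have := congrArg (fun a : Sg n => a.1.val) h
      simp [ng] at this
    rw [simR_inl i h, ht_mkR, hs_true, hs_false]
    simp only [Fin.val_castSucc, Fin.val_succ]
    push_cast
    omega
  · rw [simR_inr u (ng_ne _).symm, ht_mkR, hs_true]
    simp only [Fin.val_last]
    push_cast
    omega

theorem val_swap {n : ℕ} (i : Fin (n + 1)) (j : Fin (n + 2)) :
    (j = i.castSucc ∧ swap i.castSucc i.succ j = i.succ) ∨ (j = i.succ ∧ swap i.castSucc i.succ j = i.castSucc) ∨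
      (j ≠ i.castSucc ∧ j ≠ i.succ ∧ swap i.castSucc i.succ j = j) := by
  by_cases h1 : j = i.castSucc
  · left; subst h1; exact ⟨rfl, swap_apply_left _ _⟩
  · by_cases h2 : j = i.succ
    · right; left; subst h2; exact ⟨rfl, swap_apply_right _ _⟩
    · right; right; exact ⟨h1, h2, swap_apply_of_ne_of_ne h1 h2⟩

theorem refl_pos_inl {n : ℕ} (i : Fin (n + 1)) (a b : Sg n) (h : b ≠ ng a) (hp : 0 < hs a + hs b)
    (hne : ¬ ((a = (i.castSucc, true) ∧ b = (i.succ, false)) ∨ (a = (i.succ, false) ∧ b = (i.castSucc, true)))) :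
    0 < hs (rho (Sum.inl i) a) + hs (rho (Sum.inl i) b) := by
  obtain ⟨ja, sa⟩ := a
  obtain ⟨jb, sb⟩ := b
  have hva := ja.isLt
  have hvb := jb.isLt
  have hvi := i.isLt
  simp only [rho_inl]
  simp only [ng_mk, Ne, Prod.mk.injEq, not_and] at h hne
  have e1 : ∀ j : Fin (n + 2), j = i.castSucc ↔ j.val = i.val := fun j => by rw [Fin.ext_iff]; rfl
  have e2 : ∀ j : Fin (n + 2), j = i.succ ↔ j.val = i.val + 1 := fun j => by rw [Fin.ext_iff]; rfl
  rcases val_swap i ja with ⟨h1, h2⟩ | ⟨h1, h2⟩ | ⟨h1, h1', h2⟩ <;>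
  rcases val_swap i jb with ⟨h3, h4⟩ | ⟨h3, h4⟩ | ⟨h3, h3', h4⟩ <;>
  rw [h2, h4] <;>
  cases sa <;> cases sb <;>
  simp only [hs_true, hs_false, Fin.val_castSucc, Fin.val_succ, Nat.cast_add, Nat.cast_one, e1, e2, Fin.ext_iff,
    reduceCtorEq, and_true, and_false, Bool.not_true, Bool.not_false, not_true_eq_false, not_false_eq_true, imp_false,
    or_false, false_or, Nat.cast_inj] at * <;>
  omega

theorem Root.refl_pos {n : ℕ} (i : Sim n) (r : Root n) (hr : 0 < r.ht) (hne : r ≠ simR i) : 0 < (r.refl i).ht := by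
  revert r
  refine Root.ind fun a b h => ?_
  intro hr hne
  rw [ht_mkR] at hr
  rw [Root.refl, im_mkR, ht_mkR]
  rcases i with i | u
  · have h0 : ((i.succ, false) : Sg n) ≠ ng (i.castSucc, true) := by
      intro h
      have := congrArg (fun a : Sg n => a.1.val) h
      simp [ng] at this
    rw [simR_inl i h0, Ne, mkR_eq] at hne
    exact refl_pos_inl i a b h hr hne
  · rw [simR_inr u (ng_ne _).symm, Ne, mkR_eq] at hne
    obtain ⟨ja, sa⟩ := a
    obtain ⟨jb, sb⟩ := b
    have hva := ja.isLt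
    have hvb := jb.isLt
    simp only [rho_inr]
    simp only [ng_mk, Ne, Prod.mk.injEq, not_and] at h hne
    by_cases h1 : ja = Fin.last (n + 1) <;> by_cases h2 : jb = Fin.last (n + 1) <;>
      simp only [h1, h2, if_true, if_false, ng_mk] <;>
      rw [Fin.ext_iff] at h1 h2 <;>
      cases sa <;> cases sb <;>
      simp only [Bool.not_true, Bool.not_false, hs_true, hs_false, Fin.val_last, Fin.ext_iff, true_and,
        and_true, and_false, reduceCtorEq, not_true_eq_false, not_false_eq_true, Nat.cast_add, Nat.cast_one] at * <;>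
      omega

end Cfsg.Agent.H111
end

-- part: H111/SpDatum
section
/-!
# The root datum of type `C` in `Q`: axioms (helper111, cluster S2284-S2297)
-/

set_option autoImplicit false

namespace Cfsg.Agent.H111

open Equiv
open Matrix (SpecialLinearGroup)
open Cfsg.Agent.ChevalleyStructure.SteinbergBruhat

section Sl2

variable {F : Type*} [Field F]

theorem exists_hd_bs (u : Fˣ) (s : Bool) : ∃ c : F, ac (hd u) (bs s) = c • bs s := by
  cases s
  · exact ⟨_, ac_hd_vf u⟩
  · exact ⟨_, ac_hd_ve u⟩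

theorem exists_wd_bs (s : Bool) : ∃ c : F, ac wd (bs s : Fin 2 → F) = c • bs (!s) := by
  cases s
  · exact ⟨-1, by rw [bs_false, ac_wd_vf]; simp⟩
  · exact ⟨1, by rw [bs_true, ac_wd_ve]; simp⟩

theorem wd_eq : (wd : SpecialLinearGroup (Fin 2) F) = tv ve 1 * tv vf 1 * tv ve 1 := by
  apply sl_ext
  · simp only [ac_wd_ve, ac_mul, ac_tv]
    apply ext2 <;> simp [dd]
  · simp only [ac_wd_vf, ac_mul, ac_tv]
    apply ext2 <;> simp [dd]

theorem tv_vf_eq (u : Fˣ) : (tv vf (u : F)) = tv ve (-((u⁻¹ : Fˣ) : F)) * (wd * hd u) * tv ve (-((u⁻¹ : Fˣ) : F)) := by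
  have h : tv ve ((u⁻¹ : Fˣ) : F) * tv vf (u : F) * tv ve ((u⁻¹ : Fˣ) : F) = wd * hd u := by
    apply sl_ext
    · simp only [ac_mul, ac_tv, ac_hd_ve, ac_smul, ac_wd_ve]
      apply ext2 <;> simp [dd]
    · simp only [ac_mul, ac_tv, ac_hd_vf, ac_smul, ac_wd_vf]
      apply ext2 <;> simp [dd]
  rw [← h, tv_neg]
  group

theorem exists_eq_tv_mul (g : SpecialLinearGroup (Fin 2) F) :
    g ∈ Subgroup.closure ({x | ∃ s, x = tv ve s} ∪ {x | ∃ s, x = tv vf s} : Set (SpecialLinearGroup (Fin 2) F)) := by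
  set K := Subgroup.closure ({x | ∃ s, x = tv ve s} ∪ {x | ∃ s, x = tv vf s} : Set (SpecialLinearGroup (Fin 2) F))
  have hE : ∀ s, tv ve s ∈ K := fun s => Subgroup.subset_closure (Or.inl ⟨s, rfl⟩)
  have hF : ∀ s, tv vf s ∈ K := fun s => Subgroup.subset_closure (Or.inr ⟨s, rfl⟩)
  have main : ∀ g : SpecialLinearGroup (Fin 2) F, ac g ve 1 ≠ 0 → g ∈ K := by
    intro g hg
    set a := ac g ve 0 with ha
    set c := ac g ve 1 with hc
    have h1 : ac (tv vf (-c) * tv ve ((a - 1) / c) * g) ve = ve := by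
      rw [ac_mul, ac_mul, eq_ve_vf (ac g ve), ← ha, ← hc]
      simp only [ac_tv]
      apply ext2
      · simp [dd]; field_simp; ring
      · simp [dd]; field_simp; ring
    obtain ⟨s, hs⟩ := eq_tv h1
    have e : g = (tv ve ((a - 1) / c))⁻¹ * (tv vf (-c))⁻¹ * tv ve s := by rw [← hs]; group
    rw [e]
    exact K.mul_mem (K.mul_mem (K.inv_mem (hE _)) (K.inv_mem (hF _))) (hE _)
  by_cases h : ac g ve 1 = 0
  · have h0 : ac g ve 0 ≠ 0 := fun h0 => ac_ne_zero (g := g) ve_ne (ext2 h0 h)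
    have h2 := main (tv vf 1 * g) (by
      rw [ac_mul, eq_ve_vf (ac g ve), h, zero_smul, add_zero, ac_tv, dd_smul_left, dd_ve_vf]
      simpa using h0)
    have e : g = (tv vf 1)⁻¹ * (tv vf 1 * g) := by group
    rw [e]
    exact K.mul_mem (K.inv_mem (hF _)) h2
  · exact main g h

end Sl2

namespace Pre

variable {n : ℕ} {F : Type*} [Field F] {Q : Type*} [Group Q]

/-- Root elements. -/
noncomputable def Xel (A : Pre n F Q) (a b : Sg n) (t : F) : Q :=
  if a = b then A.L a.1 (tv (bs a.2) t) else if a.1 = b.1 then 1 else A.E a.1 b.1 (bs a.2) (t • bs b.2)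

theorem Xel_self (A : Pre n F Q) (a : Sg n) (t : F) : A.Xel a a t = A.L a.1 (tv (bs a.2) t) := if_pos rfl

theorem Xel_ne (A : Pre n F Q) {a b : Sg n} (h : a.1 ≠ b.1) (t : F) :
    A.Xel a b t = A.E a.1 b.1 (bs a.2) (t • bs b.2) := by
  rw [Xel, if_neg (fun e => h (by rw [e])), if_neg h]

theorem Xel_opp (A : Pre n F Q) {a b : Sg n} (h : a.1 = b.1) (h' : a ≠ b) (t : F) : A.Xel a b t = 1 := by
  rw [Xel, if_neg h', if_pos h]

namespace Sys2

variable {A : Pre n F Q} {ζ : F} (H : A.Sys2 ζ)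
include H

theorem Xel_symm (a b : Sg n) (t : F) : A.Xel a b t = A.Xel b a t := by
  by_cases h : a = b
  · rw [h]
  by_cases h1 : a.1 = b.1
  · rw [Xel_opp A h1 h, Xel_opp A h1.symm (Ne.symm h)]
  · rw [Xel_ne A h1, Xel_ne A (Ne.symm h1), H.E_symm h1, H.E_smul (Ne.symm h1)]

theorem Xel_add (a b : Sg n) (s t : F) : A.Xel a b s * A.Xel a b t = A.Xel a b (s + t) := by
  by_cases h : a = b
  · subst h
    rw [Xel_self, Xel_self, Xel_self, tv_add, map_mul]
  by_cases h1 : a.1 = b.1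
  · rw [Xel_opp A h1 h, Xel_opp A h1 h, Xel_opp A h1 h, one_mul]
  · rw [Xel_ne A h1, Xel_ne A h1, Xel_ne A h1, H.add_line h1]

theorem Xel_zero (a b : Sg n) : A.Xel a b 0 = 1 := by
  have := H.Xel_add a b 0 0
  rw [add_zero] at this
  exact mul_eq_left.1 this

theorem Xel_inv (a b : Sg n) (t : F) : (A.Xel a b t)⁻¹ = A.Xel a b (-t) := by
  rw [inv_eq_iff_mul_eq_one, H.Xel_add, add_neg_cancel, H.Xel_zero]

/-- root subgroups -/
def XR (a b : Sg n) : Subgroup Q where
  carrier := {x | ∃ t, x = A.Xel a b t}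
  mul_mem' := by
    rintro x y ⟨s, rfl⟩ ⟨t, rfl⟩
    exact ⟨s + t, H.Xel_add a b s t⟩
  one_mem' := ⟨0, (H.Xel_zero a b).symm⟩
  inv_mem' := by
    rintro x ⟨s, rfl⟩
    exact ⟨-s, H.Xel_inv a b s⟩

theorem mem_XR {a b : Sg n} {x : Q} : x ∈ H.XR a b ↔ ∃ t, x = A.Xel a b t := Iff.rfl

theorem XR_symm (a b : Sg n) : H.XR a b = H.XR b a := by
  ext x
  rw [mem_XR, mem_XR]
  constructor
  · rintro ⟨t, rfl⟩; exact ⟨t, H.Xel_symm a b t⟩
  · rintro ⟨t, rfl⟩; exact ⟨t, H.Xel_symm b a t⟩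

theorem E_mem {a b : Sg n} (h : a.1 ≠ b.1) (c d : F) : A.E a.1 b.1 (c • bs a.2) (d • bs b.2) ∈ H.XR a b := by
  refine ⟨c * d, ?_⟩
  rw [Xel_ne A h, H.E_smul h, smul_smul]

theorem E_mem' {a b : Sg n} (h : a.1 ≠ b.1) {v w : Fin 2 → F} (hv : ∃ c : F, v = c • bs a.2)
    (hw : ∃ c : F, w = c • bs b.2) : A.E a.1 b.1 v w ∈ H.XR a b := by
  obtain ⟨c, rfl⟩ := hv
  obtain ⟨d, rfl⟩ := hw
  exact H.E_mem h c d

theorem L_mem {a : Sg n} {v : Fin 2 → F} (hv : ∃ c : F, v = c • bs a.2) (s : F) : A.L a.1 (tv v s) ∈ H.XR a a := by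
  obtain ⟨c, rfl⟩ := hv
  exact ⟨c * c * s, by rw [Xel_self, tv_smul]⟩

theorem conj_hd_mem (k : Fin (n + 2)) (u : Fˣ) (a b : Sg n) (t : F) :
    MulAut.conj (A.L k (hd u)) (A.Xel a b t) ∈ H.XR a b := by
  have hex : ∀ (i : Fin (n + 2)) (s : Bool), ∃ c : F, (if k = i then ac (hd u) (bs s) else bs s) = c • bs s := by
    intro i s
    split_ifs
    · exact exists_hd_bs u s
    · exact ⟨1, by rw [one_smul]⟩
  by_cases h : a = b
  · subst h
    rw [Xel_self, H.conj_L_L]
    split_ifs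
    · rw [conj_tv]
      exact H.L_mem (exists_hd_bs u a.2) t
    · exact H.L_mem ⟨1, by rw [one_smul]⟩ t
  by_cases h1 : a.1 = b.1
  · rw [Xel_opp A h1 h, map_one]
    exact (H.XR a b).one_mem
  · rw [Xel_ne A h1, ← one_smul F (bs a.2), H.E_smul h1, one_smul, ← H.E_smul h1, H.conj_L_E h1]
    have e : (if k = a.1 then ac (hd u) (t • bs a.2) else t • bs a.2 : Fin 2 → F) =
        t • (if k = a.1 then ac (hd u) (bs a.2) else bs a.2) := by
      split_ifs
      · rw [ac_smul]
      · rfl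
    rw [e]
    obtain ⟨c, hc⟩ := hex a.1 a.2
    rw [hc]
    exact H.E_mem' h1 ⟨t * c, by rw [smul_smul]⟩ (hex b.1 b.2)

theorem conj_wd_mem (k : Fin (n + 2)) (a b : Sg n) (t : F) :
    MulAut.conj (A.L k wd) (A.Xel a b t) ∈ H.XR (if a.1 = k then ng a else a) (if b.1 = k then ng b else b) := by
  have hex : ∀ (a : Sg n), ∃ c : F, (if k = a.1 then ac wd (bs a.2) else bs a.2 : Fin 2 → F) =
      c • bs (if a.1 = k then ng a else a).2 := by
    intro a
    by_cases hk : a.1 = k
    · rw [if_pos hk.symm, if_pos hk]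
      exact exists_wd_bs a.2
    · rw [if_neg (Ne.symm hk), if_neg hk]
      exact ⟨1, by rw [one_smul]⟩
  have hfst : ∀ a : Sg n, (if a.1 = k then ng a else a).1 = a.1 := by
    intro a; split_ifs <;> rfl
  by_cases h : a = b
  · subst h
    rw [Xel_self, H.conj_L_L]
    have e : (if k = a.1 then wd * tv (bs a.2) t * wd⁻¹ else tv (bs a.2) t : SpecialLinearGroup (Fin 2) F) =
        tv (if k = a.1 then ac wd (bs a.2) else bs a.2) t := by
      split_ifs
      · rw [conj_tv]
      · rfl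
    rw [e]
    have := H.L_mem (hex a) t
    rwa [hfst] at this
  by_cases h1 : a.1 = b.1
  · rw [Xel_opp A h1 h, map_one]
    exact Subgroup.one_mem _
  · rw [Xel_ne A h1, ← one_smul F (bs a.2), H.E_smul h1, one_smul, ← H.E_smul h1, H.conj_L_E h1]
    have e : (if k = a.1 then ac wd (t • bs a.2) else t • bs a.2 : Fin 2 → F) =
        t • (if k = a.1 then ac wd (bs a.2) else bs a.2) := by
      split_ifs
      · rw [ac_smul]
      · rfl
    rw [e]
    obtain ⟨c, hc⟩ := hex a
    have h2 : (if a.1 = k then ng a else a).1 ≠ (if b.1 = k then ng b else b).1 := by rwa [hfst, hfst]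
    have := H.E_mem' h2 (v := t • (if k = a.1 then ac wd (bs a.2) else bs a.2)) ⟨t * c, by rw [hc, smul_smul]⟩ (hex b)
    rwa [hfst, hfst] at this

theorem conj_S_Xel (π : Perm (Fin (n + 2))) (a b : Sg n) (t : F) :
    MulAut.conj (A.S π) (A.Xel a b t) = A.Xel (π a.1, a.2) (π b.1, b.2) t := by
  by_cases h : a = b
  · subst h
    rw [Xel_self, Xel_self, H.conj_S_L]
  by_cases h1 : a.1 = b.1
  · rw [Xel_opp A h1 h, map_one, Xel_opp]
    · simp only [h1]
    · intro e
      apply h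
      rw [Prod.mk.injEq] at e
      exact Prod.ext h1 e.2
  · rw [Xel_ne A h1, Xel_ne, H.conj_S_E h1]
    simp only [Ne, π.injective.eq_iff]
    exact h1

/-! ### Commutators -/

/-- The statement for a pair of (ordered) roots. -/
def CM (H : A.Sys2 ζ) (a b c d : Sg n) : Prop :=
  ∀ (s t : F) (K : Subgroup Q), (∀ p q : Sg n, q ≠ ng p → hs a + hs b < hs p + hs q → hs c + hs d < hs p + hs q →
    H.XR p q ≤ K) → 0 < hs a + hs b → 0 < hs c + hs d →
    A.Xel a b s * A.Xel c d t * (A.Xel a b s)⁻¹ * (A.Xel c d t)⁻¹ ∈ K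

theorem CM.swap {a b c d : Sg n} (h : H.CM a b c d) : H.CM c d a b := by
  intro s t K hK h1 h2
  have := K.inv_mem (h t s K (fun p q h0 ha hb => hK p q h0 hb ha) h2 h1)
  have e : (A.Xel a b t * A.Xel c d s * (A.Xel a b t)⁻¹ * (A.Xel c d s)⁻¹)⁻¹ =
    A.Xel c d s * A.Xel a b t * (A.Xel c d s)⁻¹ * (A.Xel a b t)⁻¹ := by group
  rwa [e] at this

theorem CM.symm_left {a b c d : Sg n} (h : H.CM a b c d) : H.CM b a c d := by
  intro s t K hK h1 h2
  rw [H.Xel_symm b a]
  exact h s t K (fun p q h0 ha hb => hK p q h0 (by rwa [add_comm] at ha) hb) (by rwa [add_comm] at h1) h2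

theorem CM.symm_right {a b c d : Sg n} (h : H.CM a b c d) : H.CM a b d c := by
  intro s t K hK h1 h2
  rw [H.Xel_symm d c]
  exact h s t K (fun p q h0 ha hb => hK p q h0 ha (by rwa [add_comm] at hb)) h1 (by rwa [add_comm] at h2)

theorem CM_of_comm {a b c d : Sg n} (h : ∀ s t, Commute (A.Xel a b s) (A.Xel c d t)) : H.CM a b c d := by
  intro s t K _ _ _
  rw [(h s t).eq, mul_inv_cancel_right, mul_inv_cancel]
  exact K.one_mem

theorem CM_self (a b : Sg n) : H.CM a b a b :=
  H.CM_of_comm fun s t => by rw [Commute, SemiconjBy, H.Xel_add, H.Xel_add, add_comm]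

theorem CM_opp_right {c d : Sg n} (h : c.1 = d.1) (h' : c ≠ d) (a b : Sg n) : H.CM a b c d :=
  H.CM_of_comm fun s t => by rw [Xel_opp A h h']; exact Commute.one_right _

/-- long - long -/
theorem CM_LL (a c : Sg n) : H.CM a a c c := by
  by_cases h : a.1 = c.1
  · rcases eq_or_ng h with rfl | rfl
    · exact H.CM_self _ _
    · intro s t K _ h1 h2
      rw [hs_ng] at h2
      omega
  · apply H.CM_of_comm
    intro s t
    rw [Xel_self, Xel_self]
    exact H.L_comm h _ _

/-- long - short with common plane first -/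
theorem CM_LS_aux (a c d : Sg n) (hcd : c.1 ≠ d.1) (h : a.1 = c.1) : H.CM a a c d := by
  rcases eq_or_ng h with rfl | rfl
  · apply H.CM_of_comm
    intro s t
    rw [Xel_self, Xel_ne A hcd]
    exact H.comm_T_E hcd _ _ _
  · intro s t K hK h1 h2
    rw [ng_fst] at hcd
    -- `T_a(s) E(-a, d)(t)`
    set v : Fin 2 → F := bs a.2 with hv
    set v' : Fin 2 → F := bs (ng a).2 with hv'
    set w : Fin 2 → F := t • bs d.2 with hw
    have e1 : A.Xel (ng a) d t = A.E a.1 d.1 v' w := Xel_ne A (a := ng a) hcd t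
    have e2 : A.Xel a a s = A.L a.1 (tv v s) := Xel_self A a s
    have e3 : A.Xel a a s * A.Xel (ng a) d t * (A.Xel a a s)⁻¹ = A.E a.1 d.1 (v' + (s * dd v' v) • v) w := by
      rw [e1, e2, H.E_L_left hcd, ac_tv]
    have e4 : A.E a.1 d.1 ((s * dd v' v) • v) w * A.E a.1 d.1 v' w =
        A.L d.1 (tv w (dd v' ((s * dd v' v) • v))) * A.E a.1 d.1 (v' + (s * dd v' v) • v) w := by
      rw [H.E_symm hcd, H.E_symm hcd v', H.add (Ne.symm hcd), H.E_symm hcd, add_comm v']
    have e5 : A.E a.1 d.1 (v' + (s * dd v' v) • v) w =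
        (A.L d.1 (tv w (dd v' ((s * dd v' v) • v))))⁻¹ *
          (A.E a.1 d.1 ((s * dd v' v) • v) w * A.E a.1 d.1 v' w) := by
      rw [e4]; group
    rw [e3, e5, e1]
    have e6 : (A.L d.1 (tv w (dd v' ((s * dd v' v) • v))))⁻¹ *
          (A.E a.1 d.1 ((s * dd v' v) • v) w * A.E a.1 d.1 v' w) * (A.E a.1 d.1 v' w)⁻¹ =
        (A.L d.1 (tv w (dd v' ((s * dd v' v) • v))))⁻¹ * A.E a.1 d.1 ((s * dd v' v) • v) w := by group
    rw [e6]
    rw [hs_ng] at h2
    refine K.mul_mem (K.inv_mem ?_) ?_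
    · refine hK d d (ng_ne d).symm ?_ ?_ (H.L_mem ⟨t, rfl⟩ _)
      · omega
      · rw [hs_ng]; omega
    · refine hK a d ?_ ?_ ?_ (H.E_mem' hcd ⟨_, rfl⟩ ⟨t, rfl⟩)
      · intro e
        exact hcd (by rw [e]; rfl)
      · omega
      · rw [hs_ng]; omega

theorem CM_LS (a c d : Sg n) (hcd : c.1 ≠ d.1) : H.CM a a c d := by
  by_cases h : a.1 = c.1
  · exact H.CM_LS_aux a c d hcd h
  by_cases h' : a.1 = d.1
  · exact CM.symm_right H (H.CM_LS_aux a d c (Ne.symm hcd) h')
  · apply H.CM_of_comm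
    intro s t
    rw [Xel_self, Xel_ne A hcd]
    exact H.E_L_other hcd h h' _ _ _

/-- short - short, common plane first -/
theorem CM_SS_aux (a b c d : Sg n) (hab : a.1 ≠ b.1) (hcd : c.1 ≠ d.1) (h : a.1 = c.1) : H.CM a b c d := by
  by_cases hbd : b.1 = d.1
  · -- two common planes
    rcases eq_or_ng h with rfl | rfl
    · rcases eq_or_ng hbd with rfl | rfl
      · exact H.CM_self _ _
      · -- `E(a, b)`, `E(a, -b)`
        intro s t K hK h1 h2
        have e1 : A.Xel c b s = A.E c.1 b.1 (bs c.2) (s • bs b.2) := Xel_ne A hab s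
        have e2 : A.Xel c (ng b) t = A.E c.1 b.1 (bs c.2) (t • bs (ng b).2) := Xel_ne A hcd t
        set v : Fin 2 → F := bs c.2 with hv
        set w : Fin 2 → F := s • bs b.2 with hw
        set w' : Fin 2 → F := t • bs (ng b).2 with hw'
        have e3 := H.add hab v w w'
        have e4 := H.add hab v w' w
        have e5 : A.E c.1 b.1 v w * A.E c.1 b.1 v w' = A.L c.1 (tv v (dd w' w - dd w w')) *
            (A.E c.1 b.1 v w' * A.E c.1 b.1 v w) := by
          rw [e3, e4, ← mul_assoc, ← map_mul, ← tv_add, add_comm w' w]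
          congr 3
          ring
        have e6 : A.Xel c b s * A.Xel c (ng b) t * (A.Xel c b s)⁻¹ * (A.Xel c (ng b) t)⁻¹ =
            A.L c.1 (tv v (dd w' w - dd w w')) := by
          rw [e1, e2, e5]; group
        rw [e6]
        rw [hs_ng] at h2
        refine hK c c (ng_ne c).symm ?_ ?_ (H.L_mem ⟨1, by rw [one_smul]⟩ _)
        · omega
        · rw [hs_ng]; omega
    · rcases eq_or_ng hbd with rfl | rfl
      · -- `E(a, d)`, `E(-a, d)`
        intro s t K hK h1 h2
        rw [ng_fst] at hcd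
        have e1 : A.Xel a d s = A.E d.1 a.1 (bs d.2) (s • bs a.2) := by
          rw [H.Xel_symm, Xel_ne A (Ne.symm hab)]
        have e2 : A.Xel (ng a) d t = A.E d.1 a.1 (bs d.2) (t • bs (ng a).2) := by
          rw [H.Xel_symm, Xel_ne A (b := ng a) (Ne.symm hcd)]; rfl
        set v : Fin 2 → F := bs d.2 with hv
        set w : Fin 2 → F := s • bs a.2 with hw
        set w' : Fin 2 → F := t • bs (ng a).2 with hw'
        have e3 := H.add (Ne.symm hab) v w w'
        have e4 := H.add (Ne.symm hab) v w' w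
        have e5 : A.E d.1 a.1 v w * A.E d.1 a.1 v w' = A.L d.1 (tv v (dd w' w - dd w w')) *
            (A.E d.1 a.1 v w' * A.E d.1 a.1 v w) := by
          rw [e3, e4, ← mul_assoc, ← map_mul, ← tv_add, add_comm w' w]
          congr 3
          ring
        have e6 : A.Xel a d s * A.Xel (ng a) d t * (A.Xel a d s)⁻¹ * (A.Xel (ng a) d t)⁻¹ =
            A.L d.1 (tv v (dd w' w - dd w w')) := by
          rw [e1, e2, e5]; group
        rw [e6]
        rw [hs_ng] at h2
        refine hK d d (ng_ne d).symm ?_ ?_ (H.L_mem ⟨1, by rw [one_smul]⟩ _)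
        · omega
        · rw [hs_ng]; omega
      · intro s t K _ h1 h2
        rw [hs_ng, hs_ng] at h2
        omega
  · -- three planes
    intro s t K hK h1 h2
    have had : a.1 ≠ d.1 := by rw [h]; exact hcd
    have e1 : A.Xel a b s = A.E a.1 b.1 (bs a.2) (s • bs b.2) := Xel_ne A hab s
    have e2 : A.Xel c d t = A.E a.1 d.1 (bs c.2) (t • bs d.2) := by rw [Xel_ne A hcd, h]
    have e3 := H.comm3 hab had hbd (bs a.2) (bs c.2) (s • bs b.2) (t • bs d.2)
    have e4 := H.comm3 (i := d.1) (j := a.1) (k := b.1) (Ne.symm had) (Ne.symm hbd) hab (t • bs d.2)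
      (t • bs d.2) (bs c.2) (dd (bs c.2 : Fin 2 → F) (bs a.2) • s • bs b.2)
    rw [dd_self, zero_smul, Sys1.E_zero_left, mul_one, H.E_symm (Ne.symm had), H.E_symm (Ne.symm hbd)] at e4
    have e5 : A.Xel a b s * A.Xel c d t * (A.Xel a b s)⁻¹ * (A.Xel c d t)⁻¹ =
        A.E b.1 d.1 (dd (bs c.2 : Fin 2 → F) (bs a.2) • s • bs b.2) (t • bs d.2) := by
      rw [e1, e2, e3, e4]
    rw [e5]
    rcases eq_or_ng h with h3 | h3
    · rw [h3, dd_self, zero_smul, Sys1.E_zero_left]
      exact K.one_mem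
    · rw [h3, hs_ng] at h2
      refine hK b d ?_ ?_ ?_ (H.E_mem' hbd ⟨_, (smul_smul _ _ _)⟩ ⟨t, rfl⟩)
      · intro e
        exact hbd (by rw [e]; rfl)
      · omega
      · rw [h3, hs_ng]; omega

theorem CM_SS (a b c d : Sg n) (hab : a.1 ≠ b.1) (hcd : c.1 ≠ d.1) : H.CM a b c d := by
  by_cases h1 : a.1 = c.1
  · exact H.CM_SS_aux a b c d hab hcd h1
  by_cases h2 : a.1 = d.1
  · exact CM.symm_right H (H.CM_SS_aux a b d c hab (Ne.symm hcd) h2)
  by_cases h3 : b.1 = c.1
  · exact CM.symm_left H (H.CM_SS_aux b a c d (Ne.symm hab) hcd h3)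
  by_cases h4 : b.1 = d.1
  · exact CM.symm_right H (CM.symm_left H (H.CM_SS_aux b a d c (Ne.symm hab) (Ne.symm hcd) h4))
  · apply H.CM_of_comm
    intro s t
    rw [Xel_ne A hab, Xel_ne A hcd]
    exact H.comm4 hab h1 h3 h2 h4 hcd _ _ _ _

theorem CM_all (a b c d : Sg n) : H.CM a b c d := by
  by_cases hab : a.1 = b.1
  · by_cases hab' : a = b
    · subst hab'
      by_cases hcd : c.1 = d.1
      · by_cases hcd' : c = d
        · subst hcd'
          exact H.CM_LL a c
        · exact H.CM_opp_right hcd hcd' _ _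
      · exact H.CM_LS a c d hcd
    · exact CM.swap H (H.CM_opp_right hab hab' _ _)
  · by_cases hcd : c.1 = d.1
    · by_cases hcd' : c = d
      · subst hcd'
        exact CM.swap H (H.CM_LS c a b hab)
      · exact H.CM_opp_right hcd hcd' _ _
    · exact H.CM_SS a b c d hab hcd

end Sys2

end Pre

end Cfsg.Agent.H111
end

-- part: H111/SpModel
section
/-!
# The concrete symplectic group (helper111, cluster S2284-S2297)
-/

set_option autoImplicit false

namespace Cfsg.Agent.H111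

open Equiv
open Matrix (SpecialLinearGroup)

section Model

variable (n : ℕ) (F : Type*) [Field F]

/-- The symplectic space: `n + 2` planes. -/
abbrev VV : Type _ := Fin (n + 2) → Fin 2 → F

variable {n F}

/-- The form. -/
def om (x y : VV n F) : F := ∑ i, dd (x i) (y i)

/-- permutation of the planes -/
def cS (π : Perm (Fin (n + 2))) : VV n F ≃ₗ[F] VV n F where
  toFun x i := x (π⁻¹ i)
  invFun x i := x (π i)
  left_inv x := by funext i; simp
  right_inv x := by funext i; simp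
  map_add' x y := rfl
  map_smul' c x := rfl

@[simp] theorem cS_apply (π : Perm (Fin (n + 2))) (x : VV n F) (i : Fin (n + 2)) : cS π x i = x (π⁻¹ i) := rfl

/-- `SL(2,F)` in the plane `i` -/
def cL (i : Fin (n + 2)) (g : SpecialLinearGroup (Fin 2) F) : VV n F ≃ₗ[F] VV n F where
  toFun x j := if j = i then ac g (x j) else x j
  invFun x j := if j = i then ac g⁻¹ (x j) else x j
  left_inv x := by funext j; by_cases h : j = i <;> simp [h]
  right_inv x := by funext j; by_cases h : j = i <;> simp [h]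
  map_add' x y := by funext j; by_cases h : j = i <;> simp [h, ac_add]
  map_smul' c x := by funext j; by_cases h : j = i <;> simp [h, ac_smul]

theorem cL_apply (i : Fin (n + 2)) (g : SpecialLinearGroup (Fin 2) F) (x : VV n F) (j : Fin (n + 2)) :
    cL i g x j = if j = i then ac g (x j) else x j := rfl

/-- the short root elements, as functions -/
def fE (i j : Fin (n + 2)) (v w : Fin 2 → F) (x : VV n F) : VV n F := fun k =>
  x k + (if k = j then dd (x i) v • w else 0) + (if k = i then dd (x j) w • v else 0)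

theorem fE_apply_i {i j : Fin (n + 2)} (hij : i ≠ j) (v w : Fin 2 → F) (x : VV n F) :
    fE i j v w x i = x i + dd (x j) w • v := by
  simp [fE, hij]
theorem fE_apply_j {i j : Fin (n + 2)} (hij : i ≠ j) (v w : Fin 2 → F) (x : VV n F) :
    fE i j v w x j = x j + dd (x i) v • w := by
  simp [fE, Ne.symm hij]
theorem fE_apply_k {i j k : Fin (n + 2)} (hki : k ≠ i) (hkj : k ≠ j) (v w : Fin 2 → F) (x : VV n F) :
    fE i j v w x k = x k := by
  simp [fE, hki, hkj]

theorem fE_fE {i j : Fin (n + 2)} (hij : i ≠ j) (v w : Fin 2 → F) (x : VV n F) :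
    fE i j v (-w) (fE i j v w x) = x := by
  funext k
  by_cases hi : k = i
  · subst hi
    rw [fE_apply_i hij, fE_apply_i hij, fE_apply_j hij, dd_neg_right, dd_add_left, dd_smul_left, dd_self]
    simp
  by_cases hj : k = j
  · subst hj
    rw [fE_apply_j hij, fE_apply_j hij, fE_apply_i hij, dd_add_left, dd_smul_left, dd_self]
    simp
  · rw [fE_apply_k hi hj, fE_apply_k hi hj]

/-- the short root elements -/
def cE {i j : Fin (n + 2)} (hij : i ≠ j) (v w : Fin 2 → F) : VV n F ≃ₗ[F] VV n F where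
  toFun := fE i j v w
  invFun := fE i j v (-w)
  left_inv x := fE_fE hij v w x
  right_inv x := by
    have := fE_fE hij v (-w) x
    rwa [neg_neg] at this
  map_add' x y := by
    funext k
    by_cases hi : k = i
    · subst hi
      rw [Pi.add_apply, fE_apply_i hij, fE_apply_i hij, fE_apply_i hij, Pi.add_apply, Pi.add_apply, dd_add_left,
        add_smul]
      abel
    by_cases hj : k = j
    · subst hj
      rw [Pi.add_apply, fE_apply_j hij, fE_apply_j hij, fE_apply_j hij, Pi.add_apply, Pi.add_apply, dd_add_left,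
        add_smul]
      abel
    · rw [Pi.add_apply, fE_apply_k hi hj, fE_apply_k hi hj, fE_apply_k hi hj, Pi.add_apply]
  map_smul' c x := by
    funext k
    by_cases hi : k = i
    · subst hi
      rw [Pi.smul_apply, fE_apply_i hij, fE_apply_i hij, Pi.smul_apply, Pi.smul_apply, dd_smul_left, smul_add,
        smul_smul, RingHom.id_apply]
    by_cases hj : k = j
    · subst hj
      rw [Pi.smul_apply, fE_apply_j hij, fE_apply_j hij, Pi.smul_apply, Pi.smul_apply, dd_smul_left, smul_add,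
        smul_smul, RingHom.id_apply]
    · rw [Pi.smul_apply, fE_apply_k hi hj, fE_apply_k hi hj, Pi.smul_apply, RingHom.id_apply]

theorem cE_apply {i j : Fin (n + 2)} (hij : i ≠ j) (v w : Fin 2 → F) (x : VV n F) : cE hij v w x = fE i j v w x := rfl

/-! ### isometries -/

theorem om_cS (π : Perm (Fin (n + 2))) (x y : VV n F) : om (cS π x) (cS π y) = om x y := by
  simp only [om, cS_apply]
  exact Equiv.sum_comp π⁻¹ (fun i => dd (x i) (y i))

theorem om_cL (i : Fin (n + 2)) (g : SpecialLinearGroup (Fin 2) F) (x y : VV n F) :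
    om (cL i g x) (cL i g y) = om x y := by
  simp only [om, cL_apply]
  refine Finset.sum_congr rfl fun j _ => ?_
  split_ifs
  · rw [dd_ac]
  · rfl

theorem om_cE {i j : Fin (n + 2)} (hij : i ≠ j) (v w : Fin 2 → F) (x y : VV n F) :
    om (cE hij v w x) (cE hij v w y) = om x y := by
  simp only [om, cE_apply]
  have e : ∀ z : VV n F → VV n F → Fin (n + 2) → F, z = z := fun _ => rfl
  rw [← Finset.add_sum_erase _ _ (Finset.mem_univ i), ← Finset.add_sum_erase _ (fun k => dd (x k) (y k)) (Finset.mem_univ i),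
    ← Finset.add_sum_erase _ _ (Finset.mem_erase.2 ⟨Ne.symm hij, Finset.mem_univ j⟩),
    ← Finset.add_sum_erase _ (fun k => dd (x k) (y k)) (Finset.mem_erase.2 ⟨Ne.symm hij, Finset.mem_univ j⟩)]
  have h : ∑ k ∈ (Finset.univ.erase i).erase j, dd (fE i j v w x k) (fE i j v w y k) =
      ∑ k ∈ (Finset.univ.erase i).erase j, dd (x k) (y k) := by
    refine Finset.sum_congr rfl fun k hk => ?_
    have hj := Finset.ne_of_mem_erase hk
    have hi := Finset.ne_of_mem_erase (Finset.mem_of_mem_erase hk)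
    rw [fE_apply_k hi hj, fE_apply_k hi hj]
  rw [h, fE_apply_i hij, fE_apply_i hij, fE_apply_j hij, fE_apply_j hij]
  simp only [dd_add_left, dd_add_right, dd_smul_left, dd_smul_right, dd_self, mul_zero, add_zero]
  rw [dd_swap v (y i), dd_swap w (y j)]
  ring

variable (n F) in
/-- The symplectic group of `VV`. -/
def SpV : Subgroup (VV n F ≃ₗ[F] VV n F) where
  carrier := {g | ∀ x y, om (g x) (g y) = om x y}
  mul_mem' := by
    intro g h hg hh x y
    rw [LinearEquiv.mul_apply, LinearEquiv.mul_apply, hg, hh]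
  one_mem' := fun _ _ => rfl
  inv_mem' := by
    intro g hg x y
    rw [← hg, ← LinearEquiv.mul_apply, ← LinearEquiv.mul_apply, mul_inv_cancel]
    rfl

theorem mem_SpV {g : VV n F ≃ₗ[F] VV n F} : g ∈ SpV n F ↔ ∀ x y, om (g x) (g y) = om x y := Iff.rfl

/-! ### relations -/

theorem cS_mul (π σ : Perm (Fin (n + 2))) : (cS (π * σ) : VV n F ≃ₗ[F] VV n F) = cS π * cS σ := by
  ext1 x; funext i
  simp

theorem cL_mul (i : Fin (n + 2)) (g h : SpecialLinearGroup (Fin 2) F) :
    (cL i (g * h) : VV n F ≃ₗ[F] VV n F) = cL i g * cL i h := by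
  ext1 x; funext j
  rw [LinearEquiv.mul_apply, cL_apply, cL_apply, cL_apply]
  split_ifs
  · rw [ac_mul]
  · rfl

theorem cS_one : (cS 1 : VV n F ≃ₗ[F] VV n F) = 1 := by
  ext1 x; funext i; simp

theorem cL_one (i : Fin (n + 2)) : (cL i 1 : VV n F ≃ₗ[F] VV n F) = 1 := by
  ext1 x; funext j
  rw [cL_apply]
  split_ifs <;> simp

theorem cS_cL (π : Perm (Fin (n + 2))) (i : Fin (n + 2)) (g : SpecialLinearGroup (Fin 2) F) :
    cS π * cL i g = cL (π i) g * cS π := by
  ext1 x; funext j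
  simp only [LinearEquiv.mul_apply, cL_apply, cS_apply]
  by_cases h : j = π i
  · rw [if_pos h, if_pos (by rw [h]; simp)]
  · rw [if_neg h, if_neg (by rintro rfl; simp at h)]

theorem cL_cL {i j : Fin (n + 2)} (hij : i ≠ j) (g h : SpecialLinearGroup (Fin 2) F) :
    (cL i g * cL j h : VV n F ≃ₗ[F] VV n F) = cL j h * cL i g := by
  ext1 x; funext k
  simp only [LinearEquiv.mul_apply, cL_apply]
  by_cases h1 : k = i
  · subst h1; simp [hij]
  · simp [h1]

theorem cS_cE (π : Perm (Fin (n + 2))) {i j : Fin (n + 2)} (hij : i ≠ j) (v w : Fin 2 → F)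
    (h : π i ≠ π j) : cS π * cE hij v w = cE h v w * cS π := by
  ext1 x; funext k
  obtain ⟨k, rfl⟩ := π.surjective k
  simp only [LinearEquiv.mul_apply, cE_apply, cS_apply]
  rw [show π⁻¹ (π k) = k by simp]
  by_cases h1 : k = i
  · subst h1
    rw [fE_apply_i hij, fE_apply_i h]
    simp
  by_cases h2 : k = j
  · subst h2
    rw [fE_apply_j hij, fE_apply_j h]
    simp
  · rw [fE_apply_k h1 h2, fE_apply_k (π.injective.ne h1) (π.injective.ne h2)]
    simp

theorem cL_cE_left {i j : Fin (n + 2)} (hij : i ≠ j) (g : SpecialLinearGroup (Fin 2) F) (v w : Fin 2 → F) :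
    cL i g * cE hij v w = cE hij (ac g v) w * cL i g := by
  ext1 x; funext k
  simp only [LinearEquiv.mul_apply, cE_apply, cL_apply]
  by_cases h1 : k = i
  · subst h1
    rw [if_pos rfl, fE_apply_i hij, fE_apply_i hij, cL_apply, cL_apply, if_pos rfl, if_neg (Ne.symm hij),
      ac_add, ac_smul]
  by_cases h2 : k = j
  · subst h2
    rw [if_neg h1, fE_apply_j hij, fE_apply_j hij, cL_apply, cL_apply, if_pos rfl, if_neg (Ne.symm hij), dd_ac]
  · rw [if_neg h1, fE_apply_k h1 h2, fE_apply_k h1 h2, cL_apply, if_neg h1]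

theorem cE_symm {i j : Fin (n + 2)} (hij : i ≠ j) (v w : Fin 2 → F) : cE hij v w = cE (Ne.symm hij) w v := by
  ext1 x; funext k
  simp only [cE_apply, fE]
  abel

theorem cL_cE_right {i j : Fin (n + 2)} (hij : i ≠ j) (g : SpecialLinearGroup (Fin 2) F) (v w : Fin 2 → F) :
    cL j g * cE hij v w = cE hij v (ac g w) * cL j g := by
  rw [cE_symm hij, cL_cE_left, ← cE_symm]

theorem cL_cE_other {i j k : Fin (n + 2)} (hij : i ≠ j) (hki : k ≠ i) (hkj : k ≠ j)
    (g : SpecialLinearGroup (Fin 2) F) (v w : Fin 2 → F) : cL k g * cE hij v w = cE hij v w * cL k g := by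
  ext1 x; funext l
  simp only [LinearEquiv.mul_apply, cE_apply, cL_apply]
  by_cases h1 : l = i
  · subst h1
    rw [if_neg (Ne.symm hki), fE_apply_i hij, fE_apply_i hij, cL_apply, cL_apply, if_neg (Ne.symm hki),
      if_neg (Ne.symm hkj)]
  by_cases h2 : l = j
  · subst h2
    rw [if_neg (Ne.symm hkj), fE_apply_j hij, fE_apply_j hij, cL_apply, cL_apply, if_neg (Ne.symm hki),
      if_neg (Ne.symm hkj)]
  · rw [fE_apply_k h1 h2, fE_apply_k h1 h2, cL_apply]

theorem cE_smul {i j : Fin (n + 2)} (hij : i ≠ j) (a : F) (v w : Fin 2 → F) : cE hij (a • v) w = cE hij v (a • w) := by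
  ext1 x; funext k
  simp only [cE_apply]
  by_cases h1 : k = i
  · subst h1
    rw [fE_apply_i hij, fE_apply_i hij, dd_smul_right, smul_smul, mul_comm]
  by_cases h2 : k = j
  · subst h2
    rw [fE_apply_j hij, fE_apply_j hij, dd_smul_right, smul_smul, mul_comm]
  · rw [fE_apply_k h1 h2, fE_apply_k h1 h2]

theorem cE_add {i j : Fin (n + 2)} (hij : i ≠ j) (v w w' : Fin 2 → F) :
    cE hij v w * cE hij v w' = cL i (tv v (dd w' w)) * cE hij v (w + w') := by
  ext1 x; funext k
  simp only [LinearEquiv.mul_apply, cE_apply, cL_apply]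
  by_cases h1 : k = i
  · subst h1
    rw [if_pos rfl, fE_apply_i hij, fE_apply_i hij, fE_apply_i hij, fE_apply_j hij, ac_tv, dd_add_left,
      dd_smul_left, dd_add_left, dd_smul_left, dd_self, dd_add_right, mul_zero, add_zero, add_smul, add_smul,
      mul_comm (dd w' w)]
    abel
  by_cases h2 : k = j
  · subst h2
    rw [if_neg h1, fE_apply_j hij, fE_apply_j hij, fE_apply_j hij, fE_apply_i hij, dd_add_left,
      dd_smul_left, dd_self, mul_zero, add_zero, smul_add]
    abel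
  · rw [if_neg h1, fE_apply_k h1 h2, fE_apply_k h1 h2, fE_apply_k h1 h2]

theorem cE_comm3 {i j k : Fin (n + 2)} (hij : i ≠ j) (hik : i ≠ k) (hjk : j ≠ k) (v v' w w' : Fin 2 → F) :
    cE hij v w * cE hik v' w' = cE hik v' w' * cE hjk (dd v' v • w) w' * cE hij v w := by
  ext1 x; funext l
  simp only [LinearEquiv.mul_apply, cE_apply]
  by_cases h1 : l = i
  · subst h1
    simp only [fE_apply_i hij, fE_apply_j hij, fE_apply_k (Ne.symm hik) (Ne.symm hjk), fE_apply_i hik,
      fE_apply_j hik, fE_apply_k (Ne.symm hij) hjk, fE_apply_i hjk, fE_apply_j hjk, fE_apply_k hij hik,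
      dd_add_left, dd_smul_left, dd_add_right, dd_smul_right, dd_self, mul_zero, add_zero]
    abel
  by_cases h2 : l = j
  · subst h2
    simp only [fE_apply_i hij, fE_apply_j hij, fE_apply_k (Ne.symm hik) (Ne.symm hjk), fE_apply_i hik,
      fE_apply_j hik, fE_apply_k (Ne.symm hij) hjk, fE_apply_i hjk, fE_apply_j hjk, fE_apply_k hij hik,
      dd_add_left, dd_smul_left, dd_add_right, dd_smul_right, dd_self, mul_zero, add_zero, smul_smul, add_smul]
    abel
  by_cases h3 : l = k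
  · subst h3
    simp only [fE_apply_i hij, fE_apply_j hij, fE_apply_k (Ne.symm hik) (Ne.symm hjk), fE_apply_i hik,
      fE_apply_j hik, fE_apply_k (Ne.symm hij) hjk, fE_apply_i hjk, fE_apply_j hjk, fE_apply_k hij hik,
      dd_add_left, dd_smul_left, dd_add_right, dd_smul_right, dd_self, mul_zero, add_zero, smul_smul, add_smul]
    rw [dd_swap v v']
    module
  · simp only [fE_apply_k h1 h2, fE_apply_k h1 h3, fE_apply_k h2 h3]

theorem cE_comm4 {i j k l : Fin (n + 2)} (hij : i ≠ j) (hik : i ≠ k) (hjk : j ≠ k) (hil : i ≠ l) (hjl : j ≠ l)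
    (hkl : k ≠ l) (v v' w w' : Fin 2 → F) : cE hij v w * cE hkl v' w' = cE hkl v' w' * cE hij v w := by
  ext1 x; funext p
  simp only [LinearEquiv.mul_apply, cE_apply]
  by_cases h1 : p = i
  · subst h1
    simp only [fE_apply_i hij, fE_apply_k hik hil, fE_apply_k hjk hjl]
  by_cases h2 : p = j
  · subst h2
    simp only [fE_apply_j hij, fE_apply_k hik hil, fE_apply_k hjk hjl]
  by_cases h3 : p = k
  · subst h3
    simp only [fE_apply_i hkl, fE_apply_k h1 h2, fE_apply_k (Ne.symm hil) (Ne.symm hjl)]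
  by_cases h4 : p = l
  · subst h4
    simp only [fE_apply_j hkl, fE_apply_k h1 h2, fE_apply_k (Ne.symm hik) (Ne.symm hjk)]
  · simp only [fE_apply_k h1 h2, fE_apply_k h3 h4]

theorem cS_swap {i j : Fin (n + 2)} (hij : i ≠ j) :
    (cS (swap i j) : VV n F ≃ₗ[F] VV n F) = cE hij ve vf * cE hij vf (-ve) * cE hij ve vf * cL i (-1) := by
  ext1 x; funext k
  simp only [LinearEquiv.mul_apply, cE_apply, cS_apply, swap_inv]
  by_cases h1 : k = i
  · subst h1
    simp only [fE_apply_i hij, fE_apply_j hij, swap_apply_left, cL_apply, if_true, if_neg (Ne.symm hij), ac_neg_one]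
    apply ext2 <;> simp [dd]
  by_cases h2 : k = j
  · subst h2
    simp only [fE_apply_i hij, fE_apply_j hij, swap_apply_right, cL_apply, if_true, if_neg (Ne.symm hij), ac_neg_one]
    apply ext2 <;> simp [dd]
  · simp only [fE_apply_k h1 h2, cL_apply, if_neg h1, swap_apply_of_ne_of_ne h1 h2]

end Model

end Cfsg.Agent.H111
end

-- part: H111/SpConc
section
/-!
# The concrete symplectic group satisfies the hypotheses; matrix coefficients (helper111, cluster S2284-S2297)
-/

set_option autoImplicit false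

namespace Cfsg.Agent.H111

open Equiv
open Matrix (SpecialLinearGroup)

section Conc

variable {n : ℕ} {F : Type*} [Field F]

theorem h01 {n : ℕ} : (0 : Fin (n + 2)) ≠ 1 := by simp

theorem cE_zero_left {i j : Fin (n + 2)} (hij : i ≠ j) (w : Fin 2 → F) : cE hij 0 w = 1 := by
  ext1 x; funext k
  simp [cE_apply, fE]

theorem cE_zero_right {i j : Fin (n + 2)} (hij : i ≠ j) (v : Fin 2 → F) : cE hij v 0 = 1 := by
  ext1 x; funext k
  simp [cE_apply, fE]

variable (n F) in
/-- The concrete data. -/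
def cpre : Pre n F (SpV n F) where
  S := 
    { toFun := fun π => ⟨cS π, om_cS π⟩
      map_one' := Subtype.ext cS_one
      map_mul' := fun π σ => Subtype.ext (cS_mul π σ) }
  l :=
    { toFun := fun g => ⟨cL 0 g, om_cL 0 g⟩
      map_one' := Subtype.ext (cL_one 0)
      map_mul' := fun g h => Subtype.ext (cL_mul 0 g h) }
  y := ⟨cE h01 ve ve, om_cE h01 ve ve⟩

@[simp] theorem cpre_S (π : Perm (Fin (n + 2))) : (((cpre n F).S π : SpV n F) : VV n F ≃ₗ[F] VV n F) = cS π := rfl
theorem cpre_l (g : SpecialLinearGroup (Fin 2) F) : (((cpre n F).l g : SpV n F) : VV n F ≃ₗ[F] VV n F) = cL 0 g := rfl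
theorem cpre_y : (((cpre n F).y : SpV n F) : VV n F ≃ₗ[F] VV n F) = cE h01 ve ve := rfl

@[simp] theorem cpre_L (i : Fin (n + 2)) (g : SpecialLinearGroup (Fin 2) F) :
    (((cpre n F).L i g : SpV n F) : VV n F ≃ₗ[F] VV n F) = cL i g := by
  rw [Pre.L_apply, Subgroup.coe_mul, Subgroup.coe_mul, Subgroup.coe_inv, cpre_S, cpre_l, cS_cL, swap_apply_left,
    mul_inv_cancel_right]

theorem com_of_val {x y : SpV n F} (h : (x : VV n F ≃ₗ[F] VV n F) * y = y * x) : Commute x y :=
  Subtype.ext h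

theorem cpre_sys1 : (cpre n F).Sys1 where
  comS π hπ g := com_of_val (by
    rw [cpre_S, cpre_l, cS_cL, hπ])
  comL g h := com_of_val (by
    rw [cpre_L, cpre_L, cL_cL h01])
  yS π h0 h1 := com_of_val (by
    have h : π 0 ≠ π 1 := π.injective.ne h01
    rw [cpre_S, cpre_y, cS_cE π h01 _ _ h]
    congr 1
    generalize_proofs
    revert h
    rw [h0, h1]
    intro h
    rfl)
  yS01 := com_of_val (by
    have h : swap (0 : Fin (n + 2)) 1 0 ≠ swap (0 : Fin (n + 2)) 1 1 := (swap 0 1).injective.ne h01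
    rw [cpre_S, cpre_y, cS_cE _ h01 _ _ h]
    congr 1
    rw [cE_symm h01]
    generalize_proofs
    revert h
    rw [swap_apply_left, swap_apply_right]
    intro h
    rfl)
  yL j h0 h1 g := com_of_val (by
    rw [cpre_L, cpre_y, cL_cE_other h01 h0 h1])
  yh a := by
    have h : (cpre n F).L 0 (hd a) * (cpre n F).y * ((cpre n F).L 0 (hd a))⁻¹ =
        (cpre n F).L 1 (hd a) * (cpre n F).y * ((cpre n F).L 1 (hd a))⁻¹ := by
      apply Subtype.ext
      simp only [Subgroup.coe_mul, Subgroup.coe_inv, cpre_L, cpre_y]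
      rw [cL_cE_left h01, cL_cE_right h01, mul_inv_cancel_right, mul_inv_cancel_right, ac_hd_ve, cE_smul]
    have hc : Commute ((cpre n F).L 0 (hd a)) ((cpre n F).L 1 (hd a)) := com_of_val (by
      rw [cpre_L, cpre_L, cL_cL h01])
    rw [Commute, SemiconjBy]
    have e : (cpre n F).L 0 (hd a) * ((cpre n F).L 1 (hd a))⁻¹ = ((cpre n F).L 1 (hd a))⁻¹ * (cpre n F).L 0 (hd a) :=
      hc.inv_right.eq
    calc (cpre n F).L 0 (hd a) * ((cpre n F).L 1 (hd a))⁻¹ * (cpre n F).y
        = ((cpre n F).L 1 (hd a))⁻¹ * ((cpre n F).L 0 (hd a) * (cpre n F).y * ((cpre n F).L 0 (hd a))⁻¹) *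
            (cpre n F).L 0 (hd a) := by rw [e]; group
      _ = (cpre n F).y * (((cpre n F).L 1 (hd a))⁻¹ * (cpre n F).L 0 (hd a)) := by rw [h]; group
      _ = _ := by rw [← e]
  yt s := com_of_val (by
    rw [cpre_L, cpre_y, cL_cE_left h01, ac_tv_self])

theorem cE_congr {i j i' j' : Fin (n + 2)} (hi : i = i') (hj : j = j') (h : i ≠ j) (h' : i' ≠ j') (v w : Fin 2 → F) :
    cE h v w = cE h' v w := by
  subst hi; subst hj; rfl

theorem cpre_Y (π : Perm (Fin (n + 2))) (g h : SpecialLinearGroup (Fin 2) F) :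
    (((cpre n F).Y π g h : SpV n F) : VV n F ≃ₗ[F] VV n F) = cE (π.injective.ne h01) (ac g ve) (ac h ve) := by
  rw [Pre.Y]
  have e : (((cpre n F).z π g h : SpV n F) : VV n F ≃ₗ[F] VV n F) * cE h01 ve ve =
      cE (π.injective.ne h01) (ac g ve) (ac h ve) * (((cpre n F).z π g h : SpV n F) : VV n F ≃ₗ[F] VV n F) := by
    rw [Pre.z, Subgroup.coe_mul, Subgroup.coe_mul, cpre_S, cpre_L, cpre_L]
    calc cS π * (cL 0 g * cL 1 h) * cE h01 ve ve = cS π * (cL 0 g * (cL 1 h * cE h01 ve ve)) := by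
          simp only [mul_assoc]
      _ = cS π * ((cL 0 g * cE h01 ve (ac h ve)) * cL 1 h) := by rw [cL_cE_right]; simp only [mul_assoc]
      _ = (cS π * cE h01 (ac g ve) (ac h ve)) * (cL 0 g * cL 1 h) := by rw [cL_cE_left]; simp only [mul_assoc]
      _ = _ := by rw [cS_cE π h01 _ _ (π.injective.ne h01)]; simp only [mul_assoc]
  rw [Subgroup.coe_mul, Subgroup.coe_mul, Subgroup.coe_inv, cpre_y, e, mul_inv_cancel_right]

@[simp] theorem cpre_E {i j : Fin (n + 2)} (hij : i ≠ j) (v w : Fin 2 → F) :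
    (((cpre n F).E i j v w : SpV n F) : VV n F ≃ₗ[F] VV n F) = cE hij v w := by
  have := cpre_sys1.E_cases (A := cpre n F) (fun i j v w x => ∀ hij : i ≠ j,
    ((x : SpV n F) : VV n F ≃ₗ[F] VV n F) = cE hij v w) (by
      intro i j w _ hij
      rw [cE_zero_left]; rfl) (by
      intro i j w _ hij
      rw [cE_zero_right]; rfl) (by
      intro π g h hij
      rw [cpre_Y]) hij v w
  exact this hij

theorem cpre_sys2 {ζ : F} (hζ0 : ζ ≠ 0) (hζ : ∀ a : F, a ≠ 0 → ∃ b : F, b ≠ 0 ∧ (a = b * b * 1 ∨ a = b * b * ζ)) :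
    (cpre n F).Sys2 ζ where
  toSys1 := cpre_sys1
  hζ0 := hζ0
  hζ := hζ
  add1 c _ := by
    apply Subtype.ext
    simp only [Subgroup.coe_mul, cpre_L]
    rw [cpre_E h01, cpre_E h01, cpre_E h01, cE_add, dd_smul_left, dd_vf_ve, mul_neg, mul_one]
  com1 j h0 h1 := by
    apply com_of_val
    rw [cpre_E h01, cpre_E (Ne.symm h0), cE_comm3 h01 (Ne.symm h0) (Ne.symm h1), dd_self, zero_smul, cE_zero_left,
      mul_one]
  com2 j h0 h1 := by
    apply Subtype.ext
    simp only [Subgroup.coe_mul, Subgroup.coe_inv]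
    rw [cpre_E h01, cpre_E (Ne.symm h0), cpre_E (Ne.symm h1), cE_comm3 h01 (Ne.symm h0) (Ne.symm h1), dd_vf_ve,
      mul_inv_cancel_right, neg_smul, one_smul]
  com3 j k h0 h1 h2 h3 h4 := by
    apply com_of_val
    rw [cpre_E h01, cpre_E h4, cE_comm4 h01 (Ne.symm h0) (Ne.symm h1) (Ne.symm h2) (Ne.symm h3) h4]
  sw := by
    apply Subtype.ext
    simp only [Subgroup.coe_mul, cpre_L, cpre_S]
    rw [cpre_E h01, cpre_E h01, cS_swap h01]

/-! ### Coefficients -/

/-- basis vectors -/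
def eb (b : Sg n) : VV n F := Pi.single b.1 (bs b.2)

/-- coordinates -/
def co (a : Sg n) (x : VV n F) : F := x a.1 (if a.2 then 0 else 1)

/-- sign -/
def sg {F : Type*} [Field F] {n : ℕ} (c : Sg n) : F := if c.2 then -1 else 1

theorem sg_ne {F : Type*} [Field F] {n : ℕ} (c : Sg n) : (sg c : F) ≠ 0 := by
  rw [sg]; split_ifs
  · exact neg_ne_zero.2 one_ne_zero
  · exact one_ne_zero

theorem bs_coord (s t : Bool) : (bs s : Fin 2 → F) (if t then 0 else 1) = if t = s then 1 else 0 := by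
  cases s <;> cases t <;> simp

theorem co_add (a : Sg n) (x y : VV n F) : co a (x + y) = co a x + co a y := rfl
theorem co_smul (a : Sg n) (c : F) (x : VV n F) : co a (c • x) = c * co a x := rfl

theorem co_eb (a b : Sg n) : co a (eb b : VV n F) = if a = b then 1 else 0 := by
  obtain ⟨i, s⟩ := a
  obtain ⟨j, t⟩ := b
  simp only [co, eb]
  by_cases h : i = j
  · subst h
    rw [Pi.single_eq_same, bs_coord]
    simp
  · rw [Pi.single_eq_of_ne h, if_neg (show ¬ ((i, s) : Sg n) = (j, t) by simp [h])]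
    rfl

theorem sum_co (x : VV n F) : ∑ b : Sg n, co b x • (eb b : VV n F) = x := by
  funext i
  rw [Finset.sum_apply, Fintype.sum_prod_type]
  have : ∀ j : Fin (n + 2), ∑ s : Bool, (co (j, s) x • (eb (j, s) : VV n F)) i = if j = i then x j else 0 := by
    intro j
    rw [Fintype.sum_bool]
    simp only [co, eb, Pi.smul_apply]
    by_cases h : j = i
    · subst h
      rw [Pi.single_eq_same, Pi.single_eq_same, if_pos rfl]
      apply ext2 <;> simp
    · rw [Pi.single_eq_of_ne (Ne.symm h), Pi.single_eq_of_ne (Ne.symm h), if_neg h]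
      simp
  simp only [this]
  rw [Finset.sum_ite_eq' Finset.univ i]
  simp

/-- matrix coefficients -/
def coef (g : SpV n F) (a b : Sg n) : F := co a (g.1 (eb b))

theorem co_apply (g : SpV n F) (a : Sg n) (x : VV n F) : co a (g.1 x) = ∑ c, coef g a c * co c x := by
  conv_lhs => rw [← sum_co x, map_sum]
  have : ∀ (s : Finset (Sg n)) (f : Sg n → VV n F), co a (∑ c ∈ s, f c) = ∑ c ∈ s, co a (f c) := by
    intro s f
    simp only [co, Finset.sum_apply]
  rw [this]
  refine Finset.sum_congr rfl fun c _ => ?_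
  rw [map_smul, co_smul, coef, mul_comm]

theorem coef_mul (g h : SpV n F) (a b : Sg n) : coef (g * h) a b = ∑ c, coef g a c * coef h c b := by
  rw [coef, Subgroup.coe_mul, LinearEquiv.mul_apply, co_apply]
  rfl

theorem coef_one (a b : Sg n) : coef (1 : SpV n F) a b = if a = b then 1 else 0 := co_eb a b

variable (n F) in
/-- lower triangular -/
def W0 : Submonoid (SpV n F) where
  carrier := {g | ∀ a b, coef g a b ≠ 0 → hs b ≤ hs a}
  one_mem' := by
    intro a b h
    rw [coef_one] at h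
    split_ifs at h with h1
    · rw [h1]
    · exact absurd rfl h
  mul_mem' := by
    intro g h hg hh a b hab
    rw [coef_mul] at hab
    obtain ⟨c, _, hc⟩ := Finset.exists_ne_zero_of_sum_ne_zero hab
    exact (hh c b (right_ne_zero_of_mul hc)).trans (hg a c (left_ne_zero_of_mul hc))

theorem coef_mul_diag {g h : SpV n F} {k : ℤ} (hk : 0 < k)
    (hg : (∀ a, coef g a a = 1) ∧ ∀ a b, a ≠ b → coef g a b ≠ 0 → hs b + k ≤ hs a)
    (hh : (∀ a, coef h a a = 1) ∧ ∀ a b, a ≠ b → coef h a b ≠ 0 → hs b + k ≤ hs a) :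
    (∀ a, coef (g * h) a a = 1) ∧ ∀ a b, a ≠ b → coef (g * h) a b ≠ 0 → hs b + k ≤ hs a := by
  constructor
  · intro a
    rw [coef_mul, Finset.sum_eq_single a]
    · rw [hg.1, hh.1, one_mul]
    · intro c _ hc
      by_contra hne
      have h1 := hg.2 a c (Ne.symm hc) (left_ne_zero_of_mul hne)
      have h2 := hh.2 c a hc (right_ne_zero_of_mul hne)
      omega
    · intro h; exact absurd (Finset.mem_univ _) h
  · intro a b hab hne
    rw [coef_mul] at hne
    obtain ⟨c, _, hc⟩ := Finset.exists_ne_zero_of_sum_ne_zero hne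
    by_cases h1 : c = a
    · subst h1
      exact hh.2 c b hab (right_ne_zero_of_mul hc)
    by_cases h2 : c = b
    · subst h2
      exact hg.2 a c hab (left_ne_zero_of_mul hc)
    · have h3 := hg.2 a c (Ne.symm h1) (left_ne_zero_of_mul hc)
      have h4 := hh.2 c b h2 (right_ne_zero_of_mul hc)
      omega

variable (n F) in
/-- unitriangular of level `k` -/
def Wk (k : ℤ) (hk : 0 < k) : Submonoid (SpV n F) where
  carrier := {g | (∀ a, coef g a a = 1) ∧ ∀ a b, a ≠ b → coef g a b ≠ 0 → hs b + k ≤ hs a}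
  one_mem' := by
    constructor
    · intro a; rw [coef_one, if_pos rfl]
    · intro a b hab h
      rw [coef_one, if_neg hab] at h
      exact absurd rfl h
  mul_mem' := fun hg hh => coef_mul_diag hk hg hh

variable (F) in
/-- the submonoid of a positive root -/
def Wr' (r : Root n) (hr : 0 < r.ht) : Submonoid (SpV n F) where
  carrier := {g | g ∈ Wk n F r.ht hr ∧ ∀ a b, r.1 = s(a, b) → coef g a (ng b) = 0}
  one_mem' := by
    refine ⟨Submonoid.one_mem _, fun a b h => ?_⟩
    rw [coef_one, if_neg]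
    rintro rfl
    have := r.2
    rw [h, isRoot_iff] at this
    simp at this
  mul_mem' := by
    rintro g h ⟨hg, hg'⟩ ⟨hh, hh'⟩
    refine ⟨Submonoid.mul_mem _ hg hh, fun a b hab => ?_⟩
    have hht : r.ht = hs a + hs b := by rw [Root.ht, hab]; rfl
    have hne : a ≠ ng b := by
      rintro rfl
      have := r.2
      rw [hab, isRoot_iff] at this
      simp at this
    rw [coef_mul]
    by_contra hne'
    obtain ⟨c, _, hc⟩ := Finset.exists_ne_zero_of_sum_ne_zero hne'
    by_cases h1 : c = a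
    · subst h1
      exact right_ne_zero_of_mul hc (hh' c b hab)
    by_cases h2 : c = ng b
    · subst h2
      exact left_ne_zero_of_mul hc (hg' a b hab)
    · have h3 := hg.2 a c (Ne.symm h1) (left_ne_zero_of_mul hc)
      have h4 := hh.2 c (ng b) h2 (right_ne_zero_of_mul hc)
      rw [hs_ng] at h4
      omega

variable (F) in
/-- the submonoid of a root -/
def Wr (r : Root n) : Submonoid (SpV n F) := if hr : 0 < r.ht then Wr' F r hr else ⊤

theorem dd_eb (b c : Sg n) : dd ((eb b : VV n F) c.1) (bs c.2) = if b = ng c then sg c else 0 := by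
  obtain ⟨i, s⟩ := b
  obtain ⟨j, t⟩ := c
  simp only [eb, ng_mk, sg]
  by_cases h : i = j
  · subst h
    rw [Pi.single_eq_same]
    cases s <;> cases t <;> simp [dd]
  · rw [Pi.single_eq_of_ne (Ne.symm h), dd_zero_left]
    simp [h]

theorem coef_Xel_ne {c d : Sg n} (h : c.1 ≠ d.1) (t : F) (a b : Sg n) :
    coef ((cpre n F).Xel c d t) a b = (if a = b then 1 else 0) + (if a = d then t * (if b = ng c then sg c else 0) else 0)
      + (if a = c then t * (if b = ng d then sg d else 0) else 0) := by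
  rw [Pre.Xel_ne _ h, coef, cpre_E h, cE_apply, ← co_eb (F := F) a b, ← dd_eb, ← dd_eb]
  simp only [co, fE, Pi.add_apply]
  congr 1
  · congr 1
    obtain ⟨i, s⟩ := a
    obtain ⟨j, u⟩ := d
    simp only
    by_cases hij : i = j
    · subst hij
      rw [if_pos rfl, Pi.smul_apply, Pi.smul_apply, bs_coord]
      by_cases hsu : s = u
      · subst hsu; simp; ring
      · simp [hsu]
    · rw [if_neg hij, if_neg (show ¬ ((i, s) : Sg n) = (j, u) by simp [hij])]
      rfl
  · obtain ⟨i, s⟩ := a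
    obtain ⟨j, u⟩ := c
    simp only
    by_cases hij : i = j
    · subst hij
      rw [if_pos rfl, Pi.smul_apply, bs_coord, dd_smul_right]
      by_cases hsu : s = u
      · subst hsu; simp
      · simp [hsu]
    · rw [if_neg hij, if_neg (show ¬ ((i, s) : Sg n) = (j, u) by simp [hij])]
      rfl

theorem coef_Xel_self (c : Sg n) (t : F) (a b : Sg n) :
    coef ((cpre n F).Xel c c t) a b = (if a = b then 1 else 0) + (if a = c then t * (if b = ng c then sg c else 0) else 0) := by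
  rw [Pre.Xel_self, coef, cpre_L, ← co_eb (F := F) a b, ← dd_eb]
  simp only [co, cL_apply]
  obtain ⟨i, s⟩ := a
  obtain ⟨j, u⟩ := c
  simp only
  by_cases hij : i = j
  · subst hij
    rw [if_pos rfl, ac_tv, Pi.add_apply, Pi.smul_apply, bs_coord]
    by_cases hsu : s = u
    · subst hsu; simp
    · simp [hsu]
  · rw [if_neg hij, if_neg (show ¬ ((i, s) : Sg n) = (j, u) by simp [hij]), add_zero]

theorem coef_Xel_diag {c d : Sg n} (h : d ≠ ng c) (t : F) (a : Sg n) : coef ((cpre n F).Xel c d t) a a = 1 := by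
  by_cases hcd : c = d
  · subst hcd
    rw [coef_Xel_self, if_pos rfl]
    split_ifs with h1 h2
    · exact absurd (h1.symm.trans h2) h
    · simp
    · simp
  · have hne : c.1 ≠ d.1 := by
      intro e
      rcases eq_or_ng e with h1 | h1
      · exact hcd h1.symm
      · exact h h1
    rw [coef_Xel_ne hne, if_pos rfl]
    have h1 : (if a = d then t * (if a = ng c then sg c else 0) else 0) = (0 : F) := by
      split_ifs with h1 h2
      · exact absurd (h1.symm.trans h2) h
      · simp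
      · rfl
    have h2 : (if a = c then t * (if a = ng d then sg d else 0) else 0) = (0 : F) := by
      split_ifs with h1 h2
      · exact absurd (by rw [← h1, h2, ng_ng]) h
      · simp
      · rfl
    rw [h1, h2, add_zero, add_zero]

theorem coef_Xel_off {c d : Sg n} (h : d ≠ ng c) (t : F) {a b : Sg n} (hab : a ≠ b)
    (hne : coef ((cpre n F).Xel c d t) a b ≠ 0) : (a = d ∧ b = ng c) ∨ (a = c ∧ b = ng d) := by
  by_cases hcd : c = d
  · subst hcd
    rw [coef_Xel_self, if_neg hab] at hne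
    split_ifs at hne with h1 h2
    · exact Or.inl ⟨h1, h2⟩
    · simp at hne
    · simp at hne
  · have hne' : c.1 ≠ d.1 := by
      intro e
      rcases eq_or_ng e with h1 | h1
      · exact hcd h1.symm
      · exact h h1
    rw [coef_Xel_ne hne', if_neg hab] at hne
    by_contra hcon
    rw [not_or, not_and, not_and] at hcon
    apply hne
    have h1 : (if a = d then t * (if b = ng c then sg c else 0) else 0) = (0 : F) := by
      split_ifs with h1 h2
      · exact absurd h2 (hcon.1 h1)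
      · simp
      · rfl
    have h2 : (if a = c then t * (if b = ng d then sg d else 0) else 0) = (0 : F) := by
      split_ifs with h1 h2
      · exact absurd h2 (hcon.2 h1)
      · simp
      · rfl
    rw [h1, h2, add_zero, add_zero]

theorem coef_Xel_main {c d : Sg n} (h : d ≠ ng c) (t : F) : coef ((cpre n F).Xel c d t) c (ng d) = t * sg d := by
  have hne0 : c ≠ ng d := by
    rintro rfl
    simp at h
  by_cases hcd : c = d
  · subst hcd
    rw [coef_Xel_self, if_neg hne0, if_pos rfl, if_pos rfl, zero_add]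
  · have hne' : c.1 ≠ d.1 := by
      intro e
      rcases eq_or_ng e with h1 | h1
      · exact hcd h1.symm
      · exact h h1
    rw [coef_Xel_ne hne', if_neg hne0, if_neg hcd, if_pos rfl, if_pos rfl, zero_add, zero_add]

end Conc

end Cfsg.Agent.H111
end
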