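import Cfsg.Agent.H111.SpConc
import Cfsg.Agent.TitsThree.SpIdent
import Cfsg.Agent.H111.Pres
import Cfsg.Agent.H109.SL2b
import Cfsg.Agent.H110.AltPres
import Cfsg.Agent.S0246
set_option linter.all false

-- part: H111/SpSys
section
/-!
# From relators to the systems `Sys1`, `Sys2` (helper111, cluster S2284-S2297)
-/

set_option autoImplicit false

namespace Cfsg.Agent.H111

open Equiv
open Matrix (SpecialLinearGroup)

theorem exists_perm_fix1 {n : ℕ} {j j' : Fin (n + 2)} (h0 : j ≠ 0) (h1 : j ≠ 1) (h0' : j' ≠ 0) (h1' : j' ≠ 1) :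
    ∃ σ : Perm (Fin (n + 2)), σ 0 = 0 ∧ σ 1 = 1 ∧ σ j' = j :=
  ⟨swap j' j, swap_apply_of_ne_of_ne h0'.symm h0.symm, swap_apply_of_ne_of_ne h1'.symm h1.symm, swap_apply_left _ _⟩

theorem exists_perm_fix2 {n : ℕ} {j j' k k' : Fin (n + 2)} (h0 : j ≠ 0) (h1 : j ≠ 1) (h0' : j' ≠ 0) (h1' : j' ≠ 1)
    (k0 : k ≠ 0) (k1 : k ≠ 1) (k0' : k' ≠ 0) (k1' : k' ≠ 1) (hjk : j ≠ k) (hjk' : j' ≠ k') :
    ∃ σ : Perm (Fin (n + 2)), σ 0 = 0 ∧ σ 1 = 1 ∧ σ j' = j ∧ σ k' = k := by
  obtain ⟨σ, s0, s1, sj⟩ := exists_perm_fix1 h0 h1 h0' h1'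
  have e0 : σ k' ≠ 0 := fun e => k0' (σ.injective (e.trans s0.symm))
  have e1 : σ k' ≠ 1 := fun e => k1' (σ.injective (e.trans s1.symm))
  have ej : σ k' ≠ j := fun e => hjk' (σ.injective (e.trans sj.symm)).symm
  refine ⟨swap (σ k') k * σ, ?_, ?_, ?_, ?_⟩
  · rw [Perm.mul_apply, s0, swap_apply_of_ne_of_ne e0.symm k0.symm]
  · rw [Perm.mul_apply, s1, swap_apply_of_ne_of_ne e1.symm k1.symm]
  · rw [Perm.mul_apply, sj, swap_apply_of_ne_of_ne ej.symm hjk]
  · rw [Perm.mul_apply, swap_apply_left]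

/-- commuting with the generators -/
theorem commute_of_closure {G Q : Type*} [Group G] [Group Q] (f : G →* Q) (y : Q) {s : Set G}
    (hs : ∀ x ∈ s, Commute (f x) y) {g : G} (hg : g ∈ Subgroup.closure s) : Commute (f g) y := by
  induction hg using Subgroup.closure_induction with
  | mem x hx => exact hs x hx
  | one => rw [map_one]; exact Commute.one_left _
  | mul x y _ _ hx hy => rw [map_mul]; exact hx.mul_left hy
  | inv x _ hx => rw [map_inv]; exact hx.inv_left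

namespace Pre

variable {n : ℕ} {F : Type*} [Field F] {Q : Type*} [Group Q]

/-- The relations corresponding to the relators. -/
structure Rels (A : Pre n F Q) (g : Fin 3 → SpecialLinearGroup (Fin 2) F) (a b c d : Perm (Fin (n + 2)))
    (ζ : Fˣ) : Prop where
  gen : Subgroup.closure (Set.range g) = ⊤
  gen2 : ∀ π : Perm (Fin (n + 2)), π 0 = 0 → π 1 = 1 → π ∈ Subgroup.closure {a, b}
  gen1 : ∀ π : Perm (Fin (n + 2)), π 0 = 0 → π ∈ Subgroup.closure {c, d}
  genζ : ∀ u : Fˣ, u ∈ Subgroup.zpowers ζ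
  ra : ∀ i, Commute (A.S c) (A.l (g i)) ∧ Commute (A.S d) (A.l (g i))
  rb : ∀ i j, Commute (A.L 0 (g i)) (A.L 1 (g j))
  rc1 : Commute (A.S a) A.y ∧ Commute (A.S b) A.y
  rc2 : Commute (A.S (swap 0 1)) A.y
  rc3 : ∀ j : Fin (n + 2), j ≠ 0 → j ≠ 1 → ∃ j' : Fin (n + 2), j' ≠ 0 ∧ j' ≠ 1 ∧ ∀ i, Commute (A.L j' (g i)) A.y
  rc4 : Commute (A.L 0 (hd ζ) * (A.L 1 (hd ζ))⁻¹) A.y
  rc5 : Commute (A.L 0 (tv ve 1)) A.y ∧ Commute (A.L 0 (tv ve (ζ : F))) A.y
  rc7 : A.y * A.Y 1 1 (gv ((1 : F) • vf)) = A.L 0 (tv ve (-(1 : F))) * A.Y 1 1 (gv (ve + (1 : F) • vf)) ∧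
    A.y * A.Y 1 1 (gv ((ζ : F) • vf)) = A.L 0 (tv ve (-(ζ : F))) * A.Y 1 1 (gv (ve + (ζ : F) • vf))
  rc8 : ∀ j : Fin (n + 2), j ≠ 0 → j ≠ 1 →
    ∃ π : Perm (Fin (n + 2)), π 0 = 0 ∧ π 1 ≠ 0 ∧ π 1 ≠ 1 ∧ Commute A.y (A.Y π 1 1)
  rc9 : ∀ j : Fin (n + 2), j ≠ 0 → j ≠ 1 →
    ∃ π π' : Perm (Fin (n + 2)), π 0 = 0 ∧ π 1 ≠ 0 ∧ π 1 ≠ 1 ∧ π' 0 = 1 ∧ π' 1 = π 1 ∧
      A.y * A.Y π (gv vf) 1 * A.y⁻¹ = A.Y π (gv vf) 1 * A.Y π' (gv (-ve)) 1
  rc10 : ∀ j k : Fin (n + 2), j ≠ 0 → j ≠ 1 → k ≠ 0 → k ≠ 1 → j ≠ k →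
    ∃ π : Perm (Fin (n + 2)), π 0 ≠ 0 ∧ π 0 ≠ 1 ∧ π 1 ≠ 0 ∧ π 1 ≠ 1 ∧ Commute A.y (A.Y π 1 1)
  rc12 : A.S (swap 0 1) = A.Y 1 1 (gv vf) * A.Y 1 (gv vf) (gv (-ve)) * A.Y 1 1 (gv vf) * A.L 0 (-1)

theorem square_class {ζ : Fˣ} (h : ∀ u : Fˣ, u ∈ Subgroup.zpowers ζ) (a : F) (ha : a ≠ 0) :
    ∃ b : F, b ≠ 0 ∧ (a = b * b * 1 ∨ a = b * b * (ζ : F)) := by
  obtain ⟨k, hk⟩ := Subgroup.mem_zpowers_iff.1 (h (Units.mk0 a ha))
  have ha' : a = ((ζ ^ k : Fˣ) : F) := by rw [hk, Units.val_mk0]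
  rcases Int.even_or_odd' k with ⟨m, hm | hm⟩
  · refine ⟨((ζ ^ m : Fˣ) : F), Units.ne_zero _, Or.inl ?_⟩
    rw [ha', hm, mul_one, ← Units.val_mul, ← zpow_add, two_mul]
  · refine ⟨((ζ ^ m : Fˣ) : F), Units.ne_zero _, Or.inr ?_⟩
    rw [ha', hm, ← Units.val_mul, ← zpow_add, ← Units.val_mul, ← zpow_add_one, two_mul]

namespace Rels

variable {A : Pre n F Q} {g : Fin 3 → SpecialLinearGroup (Fin 2) F} {a b c d : Perm (Fin (n + 2))} {ζ : Fˣ}
  (R : A.Rels g a b c d ζ)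
include R

theorem mem_gen (x : SpecialLinearGroup (Fin 2) F) : x ∈ Subgroup.closure (Set.range g) := by
  rw [R.gen]; trivial

theorem comS (π : Perm (Fin (n + 2))) (hπ : π 0 = 0) (x : SpecialLinearGroup (Fin 2) F) :
    Commute (A.S π) (A.l x) := by
  refine commute_of_closure A.S (A.l x) ?_ (R.gen1 π hπ)
  have h : ∀ s : Perm (Fin (n + 2)), (∀ i, Commute (A.S s) (A.l (g i))) → Commute (A.S s) (A.l x) := by
    intro s hs
    refine (commute_of_closure A.l (A.S s) ?_ (R.mem_gen x)).symm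
    rintro _ ⟨i, rfl⟩
    exact (hs i).symm
  rintro s (rfl | rfl)
  · exact h _ fun i => (R.ra i).1
  · exact h _ fun i => (R.ra i).2

theorem comL (x y : SpecialLinearGroup (Fin 2) F) : Commute (A.L 0 x) (A.L 1 y) := by
  refine commute_of_closure (A.L 0) (A.L 1 y) ?_ (R.mem_gen x)
  rintro _ ⟨i, rfl⟩
  refine (commute_of_closure (A.L 1) _ ?_ (R.mem_gen y)).symm
  rintro _ ⟨j, rfl⟩
  exact (R.rb i j).symm

theorem S_L (π : Perm (Fin (n + 2))) (i : Fin (n + 2)) (g : SpecialLinearGroup (Fin 2) F) :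
    A.S π * A.L i g * (A.S π)⁻¹ = A.L (π i) g := by
  have h1 : (swap 0 (π i) * (π * swap 0 i) : Perm (Fin (n + 2))) 0 = 0 := by
    rw [Perm.mul_apply, Perm.mul_apply, swap_apply_left, swap_apply_right]
  have h2 := R.comS _ h1 g
  have h3 : A.S π * A.S (swap 0 i) = A.S (swap 0 (π i)) * A.S (swap 0 (π i) * (π * swap 0 i)) := by
    rw [← map_mul, ← map_mul, ← mul_assoc (swap 0 (π i)), swap_mul_self, one_mul]
  rw [L_apply, L_apply]
  have e : A.S π * (A.S (swap 0 i) * A.l g * (A.S (swap 0 i))⁻¹) * (A.S π)⁻¹ =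
      (A.S π * A.S (swap 0 i)) * A.l g * (A.S π * A.S (swap 0 i))⁻¹ := by group
  rw [e, h3]
  exact conj_mul_commute h2

theorem yS (π : Perm (Fin (n + 2))) (h0 : π 0 = 0) (h1 : π 1 = 1) : Commute (A.S π) A.y := by
  refine commute_of_closure A.S A.y ?_ (R.gen2 π h0 h1)
  rintro s (rfl | rfl)
  · exact R.rc1.1
  · exact R.rc1.2

theorem conj_y {x : Q} (h : Commute x A.y) : x * A.y * x⁻¹ = A.y := by rw [h.eq, mul_inv_cancel_right]

theorem yh (u : Fˣ) : Commute (A.L 0 (hd u) * (A.L 1 (hd u))⁻¹) A.y := by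
  obtain ⟨k, rfl⟩ := Subgroup.mem_zpowers_iff.1 (R.genζ u)
  have e : A.L 0 (hd (ζ ^ k)) * (A.L 1 (hd (ζ ^ k)))⁻¹ = (A.L 0 (hd ζ) * (A.L 1 (hd ζ))⁻¹) ^ k := by
    rw [(R.comL (hd ζ) (hd ζ)).inv_right.mul_zpow, inv_zpow, ← map_zpow, ← map_zpow, ← hdHom_apply, map_zpow,
      hdHom_apply]
  rw [e]
  exact R.rc4.zpow_left k

theorem yt (s : F) : Commute (A.L 0 (tv ve s)) A.y := by
  by_cases hs : s = 0
  · subst hs; simp
  have key : ∀ c : F, Commute (A.L 0 (tv ve c)) A.y → ∀ b : F, b ≠ 0 → Commute (A.L 0 (tv ve (b * b * c))) A.y := by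
    intro c hc b hb
    set u := Units.mk0 b hb with hu
    have h1 := (Commute.conj_iff (A.L 0 (hd u) * (A.L 1 (hd u))⁻¹)).2 hc
    rw [R.conj_y (R.yh u)] at h1
    have h2 : A.L 0 (hd u) * (A.L 1 (hd u))⁻¹ * A.L 0 (tv ve c) * (A.L 0 (hd u) * (A.L 1 (hd u))⁻¹)⁻¹ =
        A.L 0 (tv ve (b * b * c)) := by
      have h3 := (R.comL (tv ve c) (hd u)).inv_right.eq
      calc _ = A.L 0 (hd u) * ((A.L 1 (hd u))⁻¹ * A.L 0 (tv ve c)) * A.L 1 (hd u) * (A.L 0 (hd u))⁻¹ := by group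
        _ = A.L 0 (hd u) * A.L 0 (tv ve c) * (A.L 0 (hd u))⁻¹ := by rw [← h3]; group
        _ = _ := by
          rw [← map_inv, ← map_mul, ← map_mul, conj_tv, ac_hd_ve, tv_smul, hu, Units.val_mk0]
    rwa [h2] at h1
  obtain ⟨b, hb, h | h⟩ := square_class R.genζ s hs
  · rw [h]; exact key 1 R.rc5.1 b hb
  · rw [h]; exact key _ R.rc5.2 b hb

theorem yL (j : Fin (n + 2)) (h0 : j ≠ 0) (h1 : j ≠ 1) (x : SpecialLinearGroup (Fin 2) F) :
    Commute (A.L j x) A.y := by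
  obtain ⟨j', h0', h1', hj'⟩ := R.rc3 j h0 h1
  have h2 : Commute (A.L j' x) A.y := by
    refine commute_of_closure (A.L j') A.y ?_ (R.mem_gen x)
    rintro _ ⟨i, rfl⟩
    exact hj' i
  obtain ⟨σ, s0, s1, sj⟩ := exists_perm_fix1 h0 h1 h0' h1'
  have h3 := (Commute.conj_iff (A.S σ)).2 h2
  rwa [R.S_L, sj, R.conj_y (R.yS σ s0 s1)] at h3

theorem sys1 : A.Sys1 where
  comS := R.comS
  comL := R.comL
  yS := R.yS
  yS01 := R.rc2
  yL := R.yL
  yh := R.yh
  yt := R.yt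

theorem Y_eq {π : Perm (Fin (n + 2))} {g h : SpecialLinearGroup (Fin 2) F} {i j : Fin (n + 2)} {v w : Fin 2 → F}
    (hi : π 0 = i) (hj : π 1 = j) (hv : ac g ve = v) (hw : ac h ve = w) : A.Y π g h = A.E i j v w := by
  rw [← R.sys1.E_eq, hi, hj, hv, hw]

theorem ve_add_ne (c : F) : (ve + c • vf : Fin 2 → F) ≠ 0 := fun h => by simpa using congrFun h 0

theorem sys2 : A.Sys2 (ζ : F) where
  toSys1 := R.sys1
  hζ0 := Units.ne_zero ζ
  hζ := square_class R.genζ
  add1 c hc := by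
    have key : ∀ c : F, c ≠ 0 →
        A.y * A.Y 1 1 (gv (c • vf)) = A.L 0 (tv ve (-c)) * A.Y 1 1 (gv (ve + c • vf)) →
        A.E 0 1 ve ve * A.E 0 1 ve (c • vf) = A.L 0 (tv ve (-c)) * A.E 0 1 ve (ve + c • vf) := by
      intro c hc h
      rwa [R.sys1.y_eq, R.Y_eq (π := 1) (i := 0) (j := 1) rfl rfl (ac_one _) (gv_ve (smul_ne_zero hc vf_ne)),
        R.Y_eq (π := 1) (i := 0) (j := 1) rfl rfl (ac_one _) (gv_ve (ve_add_ne R c))] at h
    rcases hc with rfl | rfl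
    · exact key 1 one_ne_zero R.rc7.1
    · exact key _ (Units.ne_zero ζ) R.rc7.2
  com1 j h0 h1 := by
    obtain ⟨π, p0, p1, p2, hπ⟩ := R.rc8 j h0 h1
    rw [R.sys1.y_eq, R.Y_eq p0 rfl (ac_one _) (ac_one _)] at hπ
    obtain ⟨σ, s0, s1, sj⟩ := exists_perm_fix1 h0 h1 p1 p2
    have h2 := (Commute.conj_iff (A.S σ)).2 hπ
    rwa [R.sys1.E_S σ (by simp), R.sys1.E_S σ p1.symm, s0, s1, sj] at h2
  com2 j h0 h1 := by
    obtain ⟨π, π', p0, p1, p2, q0, q1, hπ⟩ := R.rc9 j h0 h1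
    rw [R.sys1.y_eq, R.Y_eq p0 rfl (gv_ve vf_ne) (ac_one _),
      R.Y_eq q0 q1 (gv_ve (neg_ne_zero.2 ve_ne)) (ac_one _)] at hπ
    obtain ⟨σ, s0, s1, sj⟩ := exists_perm_fix1 h0 h1 p1 p2
    have h2 := congrArg (MulAut.conj (A.S σ)) hπ
    rw [map_mul, map_mul, map_mul, map_inv, R.sys1.conj_S_E (by simp), R.sys1.conj_S_E p1.symm,
      R.sys1.conj_S_E p2.symm, s0, s1, sj] at h2
    exact h2
  com3 j k h0 h1 h2 h3 h4 := by
    obtain ⟨π, p0, p1, p2, p3, hπ⟩ := R.rc10 j k h0 h1 h2 h3 h4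
    rw [R.sys1.y_eq, R.Y_eq rfl rfl (ac_one _) (ac_one _)] at hπ
    have hne : π 0 ≠ π 1 := by rw [Ne, π.injective.eq_iff]; simp
    obtain ⟨σ, s0, s1, sj, sk⟩ := exists_perm_fix2 h0 h1 p0 p1 h2 h3 p2 p3 h4 hne
    have h5 := (Commute.conj_iff (A.S σ)).2 hπ
    rwa [R.sys1.E_S σ (by simp), R.sys1.E_S σ hne, s0, s1, sj, sk] at h5
  sw := by
    have h := R.rc12
    rwa [R.Y_eq (π := 1) (i := 0) (j := 1) rfl rfl (ac_one _) (gv_ve vf_ne),
      R.Y_eq (π := 1) (i := 0) (j := 1) rfl rfl (gv_ve vf_ne) (gv_ve (neg_ne_zero.2 ve_ne))] at h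

end Rels

end Pre

end Cfsg.Agent.H111
end

-- part: H111/SpHyp
section
/-!
# Type `C`: injectivity (helper111, cluster S2284-S2297)
-/

set_option autoImplicit false

namespace Cfsg.Agent.H111

open Equiv
open Matrix (SpecialLinearGroup)
open Cfsg.Agent.ChevalleyStructure.SteinbergBruhat

section Sl2

variable {F : Type*} [Field F]

theorem wd_hd_wd (u : Fˣ) : (wd * hd u * wd⁻¹ : SpecialLinearGroup (Fin 2) F) = hd u⁻¹ := by
  rw [mul_inv_eq_iff_eq_mul]
  apply sl_ext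
  · rw [ac_mul, ac_mul, ac_hd_ve, ac_smul, ac_wd_ve, ac_hd_vf, inv_inv]
  · rw [ac_mul, ac_mul, ac_hd_vf, ac_smul, ac_wd_vf, ac_neg, ac_hd_ve, smul_neg]

end Sl2

namespace Pre

variable {n : ℕ} {F : Type*} [Field F] {Q : Type*} [Group Q]

theorem map_E (A : Pre n F Q) {Q' : Type*} [Group Q'] (f : Q →* Q') (i j : Fin (n + 2)) (v w : Fin 2 → F) :
    (A.map f).E i j v w = f (A.E i j v w) := by
  rw [E, E]
  split_ifs
  · rw [map_Y]
  · rw [map_one]
  · rw [map_one]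

theorem map_Xel (A : Pre n F Q) {Q' : Type*} [Group Q'] (f : Q →* Q') (a b : Sg n) (t : F) :
    (A.map f).Xel a b t = f (A.Xel a b t) := by
  rw [Xel, Xel]
  split_ifs
  · rw [map_L]
  · rw [map_one]
  · rw [map_E]

/-- The root datum. -/
noncomputable def rd (A : Pre n F Q) : RData Q (Root n) (Sim n) where
  pos r := 0 < r.ht
  neg := Root.neg
  sim := simR
  refl := Root.refl
  X r := Subgroup.closure {x | ∃ a b t, r.1 = s(a, b) ∧ x = A.Xel a b t}
  H := ⨆ i, ((A.L i).comp hdHom).range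
  n := Sum.elim (fun i => A.S (swap i.castSucc i.succ)) fun _ => A.L (Fin.last (n + 1)) wd

theorem rd_n_inl (A : Pre n F Q) (i : Fin (n + 1)) : A.rd.n (Sum.inl i) = A.S (swap i.castSucc i.succ) := rfl
theorem rd_n_inr (A : Pre n F Q) (u : Unit) : A.rd.n (Sum.inr u) = A.L (Fin.last (n + 1)) wd := rfl

theorem hd_mem_H (A : Pre n F Q) (i : Fin (n + 2)) (u : Fˣ) : A.L i (hd u) ∈ A.rd.H :=
  Subgroup.mem_iSup_of_mem i ⟨u, rfl⟩

theorem H_induction (A : Pre n F Q) {C : Q → Prop} (mem : ∀ i u, C (A.L i (hd u))) (one : C 1)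
    (mul : ∀ x y, C x → C y → C (x * y)) {h : Q} (hh : h ∈ A.rd.H) : C h := by
  refine Subgroup.iSup_induction (fun i => ((A.L i).comp hdHom).range) (C := C) hh ?_ one mul
  rintro i _ ⟨u, rfl⟩
  exact mem i u

namespace Sys2

variable {A : Pre n F Q} {ζ : F} (H : A.Sys2 ζ)
include H

theorem X_mkR (a b : Sg n) (h : b ≠ ng a) : A.rd.X (mkR a b h) = H.XR a b := by
  apply le_antisymm
  · change Subgroup.closure _ ≤ _
    rw [Subgroup.closure_le]
    rintro x ⟨c, d, t, e, rfl⟩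
    have e' : s(a, b) = s(c, d) := e
    rw [Sym2.eq_iff] at e'
    rcases e' with ⟨rfl, rfl⟩ | ⟨rfl, rfl⟩
    · exact ⟨t, rfl⟩
    · exact ⟨t, H.Xel_symm _ _ t⟩
  · rintro x ⟨t, rfl⟩
    exact Subgroup.subset_closure ⟨a, b, t, rfl, rfl⟩

theorem mem_X (r : Root n) (x : Q) : x ∈ A.rd.X r →
    ∃ a b, ∃ h : b ≠ ng a, ∃ t, r = mkR a b h ∧ x = A.Xel a b t := by
  revert r
  refine Root.ind fun a b h hx => ?_
  rw [H.X_mkR] at hx
  obtain ⟨t, rfl⟩ := hx
  exact ⟨a, b, h, t, rfl, rfl⟩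

theorem conj_H {h : Q} (hh : h ∈ A.rd.H) : ∀ a b : Sg n, ∀ x ∈ H.XR a b, h * x * h⁻¹ ∈ H.XR a b := by
  refine A.H_induction (C := fun h => ∀ a b : Sg n, ∀ x ∈ H.XR a b, h * x * h⁻¹ ∈ H.XR a b) ?_ ?_ ?_ hh
  · rintro i u a b x ⟨t, rfl⟩
    exact H.conj_hd_mem i u a b t
  · intro a b x hx
    simpa using hx
  · intro x y hx hy a b z hz
    have := hx a b _ (hy a b z hz)
    have e : x * (y * z * y⁻¹) * x⁻¹ = x * y * z * (x * y)⁻¹ := by group
    rwa [e] at this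

theorem conj_n (i : Sim n) (a b : Sg n) (t : F) :
    A.rd.n i * A.Xel a b t * (A.rd.n i)⁻¹ ∈ H.XR (rho i a) (rho i b) := by
  rcases i with i | u
  · rw [rd_n_inl]
    exact ⟨t, H.conj_S_Xel _ a b t⟩
  · rw [rd_n_inr]
    exact H.conj_wd_mem (Fin.last (n + 1)) a b t

theorem conj_nH (i : Sim n) {h : Q} (hh : h ∈ A.rd.H) : A.rd.n i * h * (A.rd.n i)⁻¹ ∈ A.rd.H := by
  refine A.H_induction (C := fun h => A.rd.n i * h * (A.rd.n i)⁻¹ ∈ A.rd.H) ?_ ?_ ?_ hh
  · intro j u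
    rcases i with i | u'
    · rw [rd_n_inl, H.S_L]
      exact A.hd_mem_H _ _
    · rw [rd_n_inr]
      have := H.conj_L_L (Fin.last (n + 1)) j wd (hd u)
      rw [MulAut.conj_apply] at this
      rw [this]
      split_ifs
      · rw [wd_hd_wd]
        exact A.hd_mem_H _ _
      · exact A.hd_mem_H _ _
  · simp
  · intro x y hx hy
    have := A.rd.H.mul_mem hx hy
    have e : A.rd.n i * x * (A.rd.n i)⁻¹ * (A.rd.n i * y * (A.rd.n i)⁻¹) = A.rd.n i * (x * y) * (A.rd.n i)⁻¹ := by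
      group
    rwa [e] at this

theorem neg_one_mem (i : Fin (n + 2)) : A.L i (-1) ∈ A.rd.H := by
  rw [← hd_neg_one]
  exact A.hd_mem_H _ _

theorem n_mul_n (i : Sim n) : A.rd.n i * A.rd.n i ∈ A.rd.H := by
  rcases i with i | u
  · rw [rd_n_inl, ← map_mul, swap_mul_self, map_one]
    exact Subgroup.one_mem _
  · rw [rd_n_inr, ← map_mul, wd_mul_wd]
    exact H.neg_one_mem _

theorem sim_ne (i : Fin (n + 1)) : ((i.succ, false) : Sg n) ≠ ng (i.castSucc, true) := by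
  intro h
  have := congrArg (fun a : Sg n => a.1.val) h
  simp [ng] at this

theorem cs_ne (i : Fin (n + 1)) : i.castSucc ≠ i.succ := by
  intro h
  have := congrArg Fin.val h
  simp at this

theorem X_sim_inl (i : Fin (n + 1)) : A.rd.X (A.rd.sim (Sum.inl i)) = H.XR (i.castSucc, true) (i.succ, false) :=
  H.X_mkR _ _ (H.sim_ne i)

theorem X_nsim_inl (i : Fin (n + 1)) :
    A.rd.X (A.rd.neg (A.rd.sim (Sum.inl i))) = H.XR (i.castSucc, false) (i.succ, true) := by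
  change A.rd.X (simR (Sum.inl i)).neg = _
  rw [simR_inl i (H.sim_ne i), Root.neg, im_mkR, H.X_mkR]
  rfl

theorem X_sim_inr (u : Unit) :
    A.rd.X (A.rd.sim (Sum.inr u)) = H.XR (Fin.last (n + 1), true) (Fin.last (n + 1), true) :=
  H.X_mkR _ _ (ng_ne _).symm

theorem X_nsim_inr (u : Unit) :
    A.rd.X (A.rd.neg (A.rd.sim (Sum.inr u))) = H.XR (Fin.last (n + 1), false) (Fin.last (n + 1), false) := by
  change A.rd.X (simR (Sum.inr u)).neg = _
  rw [simR_inr u (ng_ne _).symm, Root.neg, im_mkR, H.X_mkR]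
  rfl

theorem n_mem (i : Sim n) :
    A.rd.n i ∈ A.rd.X (A.rd.sim i) ⊔ A.rd.X (A.rd.neg (A.rd.sim i)) ⊔ A.rd.H := by
  rcases i with i | u
  · rw [rd_n_inl, H.X_sim_inl, H.X_nsim_inl, H.S_swap (H.cs_ne i)]
    have hne := H.cs_ne i
    have h1 : A.E i.castSucc i.succ ve vf ∈ H.XR (i.castSucc, true) (i.succ, false) :=
      H.E_mem' (a := (i.castSucc, true)) (b := (i.succ, false)) hne ⟨1, by simp⟩ ⟨1, by simp⟩
    have h2 : A.E i.castSucc i.succ vf (-ve) ∈ H.XR (i.castSucc, false) (i.succ, true) :=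
      H.E_mem' (a := (i.castSucc, false)) (b := (i.succ, true)) hne ⟨1, by simp⟩ ⟨-1, by simp⟩
    refine Subgroup.mul_mem _ (Subgroup.mul_mem _ (Subgroup.mul_mem _ ?_ ?_) ?_) ?_
    · exact (le_sup_left.trans le_sup_left : H.XR _ _ ≤ _) h1
    · exact (le_sup_right.trans le_sup_left : H.XR _ _ ≤ _) h2
    · exact (le_sup_left.trans le_sup_left : H.XR _ _ ≤ _) h1
    · exact (le_sup_right : A.rd.H ≤ _) (H.neg_one_mem _)
  · rw [rd_n_inr, H.X_sim_inr, H.X_nsim_inr, wd_eq, map_mul, map_mul]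
    have h1 : A.L (Fin.last (n + 1)) (tv ve 1) ∈ H.XR (Fin.last (n + 1), true) (Fin.last (n + 1), true) :=
      H.L_mem (a := (Fin.last (n + 1), true)) ⟨1, by simp⟩ 1
    have h2 : A.L (Fin.last (n + 1)) (tv vf 1) ∈ H.XR (Fin.last (n + 1), false) (Fin.last (n + 1), false) :=
      H.L_mem (a := (Fin.last (n + 1), false)) ⟨1, by simp⟩ 1
    refine Subgroup.mul_mem _ (Subgroup.mul_mem _ ?_ ?_) ?_
    · exact (le_sup_left.trans le_sup_left : H.XR _ _ ≤ _) h1
    · exact (le_sup_right.trans le_sup_left : H.XR _ _ ≤ _) h2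
    · exact (le_sup_left.trans le_sup_left : H.XR _ _ ≤ _) h1

theorem X_neg (i : Sim n) : ∀ x ∈ A.rd.X (A.rd.neg (A.rd.sim i)), x = 1 ∨
    ∃ a ∈ A.rd.X (A.rd.sim i), ∃ h ∈ A.rd.H, ∃ b ∈ A.rd.X (A.rd.sim i), x = a * (A.rd.n i * h) * b := by
  rcases i with i | u
  · rw [H.X_sim_inl, H.X_nsim_inl, rd_n_inl]
    rintro x ⟨t, rfl⟩
    have hne := H.cs_ne i
    rw [Xel_ne A (a := (i.castSucc, false)) (b := (i.succ, true)) hne]
    simp only [bs_false, bs_true]
    by_cases ht : t = 0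
    · left; subst ht; simp
    right
    set p := i.castSucc with hp
    set q := i.succ with hq
    -- conjugate the formula of the transposition by `g = hd (-t)` in the plane `q`
    set g : SpecialLinearGroup (Fin 2) F := hd (Units.mk0 (-t) (neg_ne_zero.2 ht)) with hg
    have hge : ac g ve = (-t) • ve := by rw [hg, ac_hd_ve, Units.val_mk0]
    have hgf : ac g vf = (-t)⁻¹ • vf := by rw [hg, ac_hd_vf, Units.val_inv_eq_inv_val, Units.val_mk0]
    have key := congrArg (MulAut.conj (A.L q g)) (H.S_swap hne)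
    rw [map_mul, map_mul, map_mul] at key
    simp only [H.conj_L_E hne, H.conj_L_L, if_neg (Ne.symm hne), if_true, hge, hgf, ac_neg] at key
    have e1 : -((-t) • ve) = (t • ve : Fin 2 → F) := by rw [neg_smul, neg_neg]
    rw [e1] at key
    have hS : A.L q g * A.S (swap p q) = A.S (swap p q) * A.L p g := by
      rw [H.S_L', swap_apply_left]
    refine ⟨(A.E p q ve ((-t)⁻¹ • vf))⁻¹, (H.XR _ _).inv_mem ?_, A.L p g * (A.L q g)⁻¹ * (A.L p (-1))⁻¹, ?_,
      (A.E p q ve ((-t)⁻¹ • vf))⁻¹, ?_, ?_⟩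
    · exact H.E_mem' (a := (p, true)) (b := (q, false)) hne ⟨1, by simp⟩ ⟨_, rfl⟩
    · exact A.rd.H.mul_mem (A.rd.H.mul_mem (A.hd_mem_H _ _) (A.rd.H.inv_mem (A.hd_mem_H _ _)))
        (A.rd.H.inv_mem (H.neg_one_mem _))
    · exact (H.XR _ _).inv_mem (H.E_mem' (a := (p, true)) (b := (q, false)) hne ⟨1, by simp⟩ ⟨_, rfl⟩)
    · rw [MulAut.conj_apply, hS] at key
      have e2 : A.E p q vf (t • ve) = (A.E p q ve ((-t)⁻¹ • vf))⁻¹ * (A.S (swap p q) * A.L p g * (A.L q g)⁻¹) *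
          (A.L p (-1))⁻¹ * (A.E p q ve ((-t)⁻¹ • vf))⁻¹ := by
        rw [key]; group
      rw [e2]; group
  · rw [H.X_sim_inr, H.X_nsim_inr, rd_n_inr]
    rintro x ⟨t, rfl⟩
    rw [Xel_self]
    simp only [bs_false]
    by_cases ht : t = 0
    · left; subst ht; simp
    right
    refine ⟨A.L (Fin.last (n + 1)) (tv ve (-(((Units.mk0 t ht)⁻¹ : Fˣ) : F))), ?_,
      A.L (Fin.last (n + 1)) (hd (Units.mk0 t ht)), A.hd_mem_H _ _,
      A.L (Fin.last (n + 1)) (tv ve (-(((Units.mk0 t ht)⁻¹ : Fˣ) : F))), ?_, ?_⟩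
    · exact H.L_mem (a := (Fin.last (n + 1), true)) ⟨1, by simp⟩ _
    · exact H.L_mem (a := (Fin.last (n + 1), true)) ⟨1, by simp⟩ _
    · rw [← map_mul, ← map_mul, ← map_mul, ← tv_vf_eq, Units.val_mk0]

theorem comm (r s : Root n) (hr : 0 < r.ht) (hs' : 0 < s.ht) (x : Q) (hx : x ∈ A.rd.X r) (y : Q)
    (hy : y ∈ A.rd.X s) :
    x * y * x⁻¹ * y⁻¹ ∈ ⨆ t, ⨆ (_ : r.ht < Root.ht t ∧ s.ht < Root.ht t), A.rd.X t := by
  obtain ⟨a, b, hab, t, rfl, rfl⟩ := H.mem_X _ _ hx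
  obtain ⟨c, d, hcd, u, rfl, rfl⟩ := H.mem_X _ _ hy
  refine H.CM_all a b c d t u _ ?_ hr hs'
  intro p q hpq h1 h2
  rw [← H.X_mkR p q hpq]
  exact le_iSup₂_of_le (f := fun t (_ : (mkR a b hab).ht < Root.ht t ∧ (mkR c d hcd).ht < Root.ht t) => A.rd.X t)
    (mkR p q hpq) ⟨h1, h2⟩ le_rfl

theorem gen (hgen : Subgroup.closure (Set.range A.S ∪ Set.range A.l ∪ {A.y}) = ⊤) :
    A.rd.B ⊔ Subgroup.closure (Set.range A.rd.n) = ⊤ := by
  set K := A.rd.B ⊔ Subgroup.closure (Set.range A.rd.n) with hK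
  have hn : ∀ i, A.rd.n i ∈ K := fun i =>
    (le_sup_right : _ ≤ K) (Subgroup.subset_closure ⟨i, rfl⟩)
  have hX : ∀ a b : Sg n, b ≠ ng a → 0 < hs a + hs b → ∀ t, A.Xel a b t ∈ K := by
    intro a b h hp t
    refine (le_sup_left : _ ≤ K) ((le_sup_left : A.rd.U ≤ A.rd.B) ?_)
    have : A.rd.X (mkR a b h) ≤ A.rd.U :=
      le_iSup₂_of_le (f := fun r (_ : A.rd.pos r) => A.rd.X r) (mkR a b h) hp le_rfl
    apply this
    rw [H.X_mkR]
    exact ⟨t, rfl⟩
  have hS : ∀ π, A.S π ∈ K := by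
    intro π
    have h1 : π ∈ Submonoid.closure (Set.range fun i : Fin (n + 1) => swap i.castSucc i.succ) := by
      rw [Equiv.Perm.mclosure_swap_castSucc_succ]; trivial
    have h2 : Submonoid.closure (Set.range fun i : Fin (n + 1) => swap i.castSucc i.succ) ≤
        (K.comap A.S).toSubmonoid := by
      rw [Submonoid.closure_le]
      rintro _ ⟨i, rfl⟩
      exact hn (Sum.inl i)
    exact h2 h1
  have hLast : ∀ g, A.L (Fin.last (n + 1)) g ∈ K := by
    have he : ∀ s, A.L (Fin.last (n + 1)) (tv ve s) ∈ K := by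
      intro s
      have := hX (Fin.last (n + 1), true) (Fin.last (n + 1), true) (ng_ne _).symm (by
        rw [hs_true]; simp only [Fin.val_last]; push_cast; omega) s
      rw [Xel_self] at this
      exact this
    have hw : A.L (Fin.last (n + 1)) wd ∈ K := hn (Sum.inr ())
    have hf : ∀ s, A.L (Fin.last (n + 1)) (tv vf s) ∈ K := by
      intro s
      have e : (tv vf s : SpecialLinearGroup (Fin 2) F) = wd * tv ve s * wd⁻¹ := by
        rw [conj_tv, ac_wd_ve]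
      rw [e, map_mul, map_mul, map_inv]
      exact K.mul_mem (K.mul_mem hw (he s)) (K.inv_mem hw)
    intro g
    have h1 := exists_eq_tv_mul g
    have h2 : Subgroup.closure ({x | ∃ s, x = tv ve s} ∪ {x | ∃ s, x = tv vf s} :
        Set (SpecialLinearGroup (Fin 2) F)) ≤ K.comap (A.L (Fin.last (n + 1))) := by
      rw [Subgroup.closure_le]
      rintro _ (⟨s, rfl⟩ | ⟨s, rfl⟩)
      · exact he s
      · exact hf s
    exact h2 h1
  have hL : ∀ i g, A.L i g ∈ K := by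
    intro i g
    have h1 := H.S_L (swap (Fin.last (n + 1)) i) (Fin.last (n + 1)) g
    rw [swap_apply_left] at h1
    rw [← h1]
    exact K.mul_mem (K.mul_mem (hS _) (hLast _)) (K.inv_mem (hS _))
  rw [eq_top_iff, ← hgen, Subgroup.closure_le]
  rintro x ((⟨π, rfl⟩ | ⟨g, rfl⟩) | rfl)
  · exact hS π
  · rw [← L_zero]
    exact hL 0 g
  · rw [H.y_eq]
    have h := hX (0, true) (1, true) (by simp [ng]) (by
      rw [hs_true, hs_true]
      simp only [Fin.val_zero, Fin.val_one]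
      push_cast
      omega) 1
    rw [Xel_ne A (a := (0, true)) (b := (1, true)) h01, one_smul] at h
    exact h

end Sys2

end Pre

end Cfsg.Agent.H111
end

-- part: H111/SpInj
section
/-!
# Type `C`: injectivity, conclusion (helper111, cluster S2284-S2297)
-/

set_option autoImplicit false

namespace Cfsg.Agent.H111

open Equiv
open Matrix (SpecialLinearGroup)
open Cfsg.Agent.ChevalleyStructure.SteinbergBruhat

namespace Pre

variable {n : ℕ} {F : Type*} [Field F] {Q : Type*} [Group Q]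

theorem coef_hd_ne {i : Fin (n + 2)} {u : Fˣ} {a b : Sg n} (h : coef ((cpre n F).L i (hd u)) a b ≠ 0) : a = b := by
  by_contra hab
  apply h
  rw [coef, cpre_L]
  obtain ⟨j, s⟩ := a
  obtain ⟨k, t⟩ := b
  simp only [co, cL_apply, eb]
  by_cases hjk : j = k
  · subst hjk
    rw [Pi.single_eq_same]
    have hst : s ≠ t := fun e => hab (by rw [e])
    cases s <;> cases t <;> simp at hst ⊢ <;> split_ifs <;> simp
  · rw [Pi.single_eq_of_ne hjk]
    split_ifs <;> simp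

/-- the diagonal matrices -/
def cD (a : Fin (n + 2) → Fˣ) : VV n F ≃ₗ[F] VV n F where
  toFun x i := ac (hd (a i)) (x i)
  invFun x i := ac (hd (a i))⁻¹ (x i)
  left_inv x := by funext j; simp
  right_inv x := by funext j; simp
  map_add' x y := by funext j; simp [ac_add]
  map_smul' c x := by funext j; simp [ac_smul]

theorem cD_apply (a : Fin (n + 2) → Fˣ) (x : VV n F) (i : Fin (n + 2)) : cD a x i = ac (hd (a i)) (x i) := rfl

theorem om_cD (a : Fin (n + 2) → Fˣ) (x y : VV n F) : om (cD a x) (cD a y) = om x y := by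
  simp only [om, cD_apply, dd_ac]

/-- the diagonal matrices -/
def cDh : (Fin (n + 2) → Fˣ) →* SpV n F where
  toFun a := ⟨cD a, om_cD a⟩
  map_one' := by
    apply Subtype.ext; ext1 x; funext i
    change cD 1 x i = x i
    rw [cD_apply, Pi.one_apply, hd_one, ac_one]
  map_mul' a b := by
    apply Subtype.ext; ext1 x; funext i
    change cD (a * b) x i = cD a (cD b x) i
    rw [cD_apply, cD_apply, cD_apply, Pi.mul_apply, hd_mul, ac_mul]

theorem cDh_single (i : Fin (n + 2)) (u : Fˣ) : (cDh (Pi.mulSingle i u) : SpV n F) = (cpre n F).L i (hd u) := by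
  apply Subtype.ext
  rw [cpre_L]
  ext1 x; funext j
  change cD _ x j = _
  rw [cD_apply, cL_apply]
  by_cases h : j = i
  · subst h; simp
  · rw [if_neg h, Pi.mulSingle_eq_of_ne h, hd_one, ac_one]

theorem coef_cDh (a : Fin (n + 2) → Fˣ) (i : Fin (n + 2)) : coef (cDh a : SpV n F) (i, true) (i, true) = a i := by
  rw [coef]
  change co _ (cD a _) = _
  simp [co, cD_apply, eb]

namespace Sys2

variable {A : Pre n F Q} {ζ : F} (H : A.Sys2 ζ)
include H

theorem tor_comm : Pairwise fun i j => ∀ x y : Fˣ, Commute (((A.L i).comp hdHom) x) (((A.L j).comp hdHom) y) :=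
  fun _ _ hij x y => H.L_comm hij (hd x) (hd y)

/-- the torus -/
noncomputable def tor : (Fin (n + 2) → Fˣ) →* Q :=
  MonoidHom.noncommPiCoprod (fun i => (A.L i).comp hdHom) H.tor_comm

theorem tor_single (i : Fin (n + 2)) (u : Fˣ) : H.tor (Pi.mulSingle i u) = A.L i (hd u) :=
  MonoidHom.noncommPiCoprod_mulSingle (fun i => (A.L i).comp hdHom) (hcomm := H.tor_comm) i u

theorem exists_tor {h : Q} (hh : h ∈ A.rd.H) : ∃ a, h = H.tor a := by
  refine A.H_induction (C := fun h => ∃ a, h = H.tor a) ?_ ?_ ?_ hh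
  · intro i u
    exact ⟨_, (H.tor_single i u).symm⟩
  · exact ⟨1, (map_one _).symm⟩
  · rintro _ _ ⟨a, rfl⟩ ⟨b, rfl⟩
    exact ⟨a * b, (map_mul _ _ _).symm⟩

theorem map_tor (θ : Q →* SpV n F) (hθ : A.map θ = cpre n F) (a : Fin (n + 2) → Fˣ) : θ (H.tor a) = cDh a := by
  have : θ.comp H.tor = cDh := by
    apply MonoidHom.pi_ext
    intro i u
    rw [MonoidHom.comp_apply, H.tor_single, cDh_single, ← hθ, map_L]
  exact DFunLike.congr_fun this a

theorem hyp (hgen : Subgroup.closure (Set.range A.S ∪ Set.range A.l ∪ {A.y}) = ⊤)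
    (θ : Q →* SpV n F) (hθ : A.map θ = cpre n F) :
    Inj.Hyp A.rd Root.ht θ (W0 n F) (Wk n F 1 one_pos) (Wr F) where
  refl_refl := Root.refl_refl
  refl_sim := refl_simR
  refl_pos := Root.refl_pos
  refl_neg := Root.refl_neg
  pos_iff _ := Iff.rfl
  ht_sim := ht_simR
  ht_neg := Root.ht_neg
  ht_ne := Root.ht_ne
  conjH h hh := Root.ind fun a b hab x hx => by
    rw [H.X_mkR] at hx ⊢
    exact H.conj_H hh a b x hx
  conjn i := Root.ind fun a b hab x hx => by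
    rw [H.X_mkR] at hx
    obtain ⟨t, rfl⟩ := hx
    change _ ∈ A.rd.X ((mkR a b hab).refl i)
    rw [Root.refl, im_mkR, H.X_mkR]
    exact H.conj_n i a b t
  conjnH i h hh := H.conj_nH i hh
  nn := H.n_mul_n
  nmem := H.n_mem
  Xneg := H.X_neg
  comm := H.comm
  gen := H.gen hgen
  W0pos := Root.ind fun a b hab hp x hx => by
    rw [H.X_mkR] at hx
    obtain ⟨t, rfl⟩ := hx
    rw [← map_Xel, hθ]
    intro c d hne
    by_cases hcd : c = d
    · rw [hcd]
    · rw [ht_mkR] at hp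
      rcases coef_Xel_off hab t hcd hne with ⟨rfl, rfl⟩ | ⟨rfl, rfl⟩
      · rw [hs_ng]; omega
      · rw [hs_ng]; omega
  W0H h hh := by
    refine A.H_induction (C := fun h => θ h ∈ W0 n F) ?_ ?_ ?_ hh
    · intro i u
      rw [← map_L, hθ]
      intro c d hne
      rw [coef_hd_ne hne]
    · rw [map_one]; exact Submonoid.one_mem _
    · intro x y hx hy
      rw [map_mul]; exact Submonoid.mul_mem _ hx hy
  W0neg := Root.ind fun a b hab hp => by
    rw [ht_mkR] at hp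
    refine ⟨A.Xel a b 1, ?_, ?_⟩
    · rw [H.X_mkR]; exact ⟨1, rfl⟩
    · rw [← map_Xel, hθ]
      intro h
      have := h a (ng b) (by rw [coef_Xel_main hab, one_mul]; exact sg_ne _)
      rw [hs_ng] at this
      omega
  Wpos r s hr hrs hne x hx := by
    obtain ⟨c, d, hcd, t, rfl, rfl⟩ := H.mem_X _ _ hx
    rw [← map_Xel, hθ, Wr, dif_pos hr]
    rw [ht_mkR] at hrs
    refine ⟨⟨fun a => coef_Xel_diag hcd t a, ?_⟩, ?_⟩
    · intro a b hab hne'
      rcases coef_Xel_off hcd t hab hne' with ⟨rfl, rfl⟩ | ⟨rfl, rfl⟩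
      · rw [hs_ng]; omega
      · rw [hs_ng]; omega
    · intro a b hab
      by_contra hne'
      have hr' := r.2
      rw [hab, isRoot_iff] at hr'
      have hane : a ≠ ng b := by
        rintro rfl
        simp at hr'
      apply hne
      rcases coef_Xel_off hcd t hane hne' with ⟨rfl, h2⟩ | ⟨rfl, h2⟩
      · have h3 := ng_inj h2
        subst h3
        apply Subtype.ext
        rw [hab]
        exact Sym2.eq_swap
      · have h3 := ng_inj h2
        subst h3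
        apply Subtype.ext
        rw [hab]; rfl
  Wr r hr x hx hxW := by
    obtain ⟨c, d, hcd, t, rfl, rfl⟩ := H.mem_X _ _ hx
    rw [← map_Xel, hθ, Wr, dif_pos hr] at hxW
    have := hxW.2 c d rfl
    rw [coef_Xel_main hcd] at this
    have ht0 : t = 0 := (mul_eq_zero.1 this).resolve_right (sg_ne _)
    rw [ht0, H.Xel_zero]
  W1pos := Root.ind fun a b hab hp x hx => by
    rw [H.X_mkR] at hx
    obtain ⟨t, rfl⟩ := hx
    rw [← map_Xel, hθ]
    rw [ht_mkR] at hp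
    refine ⟨fun c => coef_Xel_diag hab t c, fun c d hcd hne => ?_⟩
    rcases coef_Xel_off hab t hcd hne with ⟨rfl, rfl⟩ | ⟨rfl, rfl⟩
    · rw [hs_ng]; omega
    · rw [hs_ng]; omega
  W1H h hh hW := by
    obtain ⟨a, rfl⟩ := H.exists_tor hh
    rw [H.map_tor θ hθ] at hW
    have ha : a = 1 := by
      funext i
      have := hW.1 (i, true)
      rw [coef_cDh] at this
      exact Units.ext this
    rw [ha, map_one]

theorem injective (hgen : Subgroup.closure (Set.range A.S ∪ Set.range A.l ∪ {A.y}) = ⊤)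
    (θ : Q →* SpV n F) (hθ : A.map θ = cpre n F) : Function.Injective θ :=
  (H.hyp hgen θ hθ).injective

end Sys2

end Pre

end Cfsg.Agent.H111
end

-- part: H111/SpSurj
section
/-!
# Generation of the symplectic group, identification (helper111, cluster S2284-S2297)
-/

set_option autoImplicit false

namespace Cfsg.Agent.H111

open Equiv
open Matrix (SpecialLinearGroup)
open Cfsg.Agent.TitsThree.SpIdent Cfsg.Agent.ClassicalGeometry.SympBasic

section Surj

variable {n : ℕ} {F : Type*} [Field F]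

/-- the two models -/
def toSum : VV n F ≃ₗ[F] (Fin (n + 2) ⊕ Fin (n + 2) → F) where
  toFun x := Sum.elim (fun i => x i 1) fun i => x i 0
  invFun y i := ![y (Sum.inr i), y (Sum.inl i)]
  left_inv x := by
    funext i
    apply ext2 <;> simp
  right_inv y := by
    funext i
    rcases i with i | i <;> simp
  map_add' x y := by
    funext i
    rcases i with i | i <;> rfl
  map_smul' c x := by
    funext i
    rcases i with i | i <;> rfl

theorem symp_toSum (x y : VV n F) : sympForm (n + 2) F (toSum x) (toSum y) = om x y := by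
  rw [sympForm_eq_sum, om]
  rfl

/-- `SpV` and the isometry group of the library -/
def toIsos : SpV n F ≃* isos (form (n + 2) F) where
  toFun g := ⟨(toSum.symm.trans g.1).trans toSum, by
    intro u v
    change sympForm (n + 2) F (toSum (g.1 (toSum.symm u))) (toSum (g.1 (toSum.symm v))) = sympForm (n + 2) F u v
    rw [symp_toSum, g.2, ← symp_toSum]
    simp⟩
  invFun g := ⟨(toSum.trans g.1).trans toSum.symm, by
    intro u v
    change om (toSum.symm (g.1 (toSum u))) (toSum.symm (g.1 (toSum v))) = om u v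
    rw [← symp_toSum, ← symp_toSum]
    simp only [LinearEquiv.apply_symm_apply]
    exact g.2 _ _⟩
  left_inv g := by
    apply Subtype.ext
    ext1 x
    change toSum.symm (toSum (g.1 (toSum.symm (toSum x)))) = g.1 x
    simp
  right_inv g := by
    apply Subtype.ext
    ext1 x
    change toSum (toSum.symm (g.1 (toSum (toSum.symm x)))) = g.1 x
    simp
  map_mul' g h := by
    apply Subtype.ext
    ext1 x
    change toSum ((g * h).1 (toSum.symm x)) = toSum (g.1 (toSum.symm (toSum (h.1 (toSum.symm x)))))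
    rw [LinearEquiv.symm_apply_apply]
    rfl

/-- `SpV` is the symplectic group -/
noncomputable def spEquiv : SpV n F ≃* Matrix.symplecticGroup (Fin (n + 2)) F :=
  toIsos.trans (MulEquiv.ofBijective (toSp (m := n + 2) (F := F)) ⟨toSp_injective, toSp_surjective⟩)

/-- The subgroup generated by the data. -/
def KK (n : ℕ) (F : Type*) [Field F] : Subgroup (SpV n F) :=
  Subgroup.closure (Set.range (cpre n F).S ∪ Set.range (cpre n F).l ∪ {(cpre n F).y})

theorem S_mem_KK (π : Perm (Fin (n + 2))) : (cpre n F).S π ∈ KK n F :=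
  Subgroup.subset_closure (Or.inl (Or.inl ⟨π, rfl⟩))
theorem l_mem_KK (g : SpecialLinearGroup (Fin 2) F) : (cpre n F).l g ∈ KK n F :=
  Subgroup.subset_closure (Or.inl (Or.inr ⟨g, rfl⟩))
theorem y_mem_KK : (cpre n F).y ∈ KK n F := Subgroup.subset_closure (Or.inr rfl)
theorem L_mem_KK (i : Fin (n + 2)) (g : SpecialLinearGroup (Fin 2) F) : (cpre n F).L i g ∈ KK n F := by
  rw [Pre.L_apply]
  exact Subgroup.mul_mem _ (Subgroup.mul_mem _ (S_mem_KK _) (l_mem_KK _)) (Subgroup.inv_mem _ (S_mem_KK _))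
theorem E_mem_KK {i j : Fin (n + 2)} (hij : i ≠ j) (v w : Fin 2 → F) : (cpre n F).E i j v w ∈ KK n F := by
  refine cpre_sys1.E_cases (A := cpre n F) (fun _ _ _ _ x => x ∈ KK n F) ?_ ?_ ?_ hij v w
  · intro i j w _; exact Subgroup.one_mem _
  · intro i j w _; exact Subgroup.one_mem _
  · intro π g h
    have hz : (cpre n F).z π g h ∈ KK n F :=
      Subgroup.mul_mem _ (S_mem_KK _) (Subgroup.mul_mem _ (L_mem_KK _ _) (L_mem_KK _ _))
    exact Subgroup.mul_mem _ (Subgroup.mul_mem _ hz y_mem_KK) (Subgroup.inv_mem _ hz)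

theorem exists_kill (x : VV n F) (i : Fin (n + 2)) (hi : x i ≠ 0) (s : Finset (Fin (n + 2))) (his : i ∉ s) :
    ∃ g ∈ KK n F, ∀ k, g.1 x k = if k ∈ s then 0 else x k := by
  classical
  induction s using Finset.induction_on with
  | empty => exact ⟨1, Subgroup.one_mem _, fun k => by simp⟩
  | insert j s hj ih =>
    obtain ⟨g, hg, hgx⟩ := ih (fun h => his (Finset.mem_insert_of_mem h))
    have hij : i ≠ j := fun h => his (h ▸ Finset.mem_insert_self _ _)
    obtain ⟨u, hu⟩ := exists_dd_ne hi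
    refine ⟨(cpre n F).E i j u (-(x j)) * g, Subgroup.mul_mem _ (E_mem_KK hij _ _) hg, fun k => ?_⟩
    rw [Subgroup.coe_mul, LinearEquiv.mul_apply, cpre_E hij, cE_apply]
    have his' : i ∉ s := fun h => his (Finset.mem_insert_of_mem h)
    by_cases h1 : k = i
    · subst h1
      rw [fE_apply_i hij, hgx, hgx, if_neg his', if_neg hj, if_neg his, dd_neg_right, dd_self]
      simp
    by_cases h2 : k = j
    · subst h2
      rw [fE_apply_j hij, hgx, hgx, if_neg his', if_neg hj, if_pos (Finset.mem_insert_self _ _), hu]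
      simp
    · rw [fE_apply_k h1 h2, hgx]
      simp [h2]

theorem exists_to_base (x : VV n F) (hx : x ≠ 0) : ∃ g ∈ KK n F, g.1 (Pi.single 0 ve) = x := by
  obtain ⟨i, hi⟩ : ∃ i, x i ≠ 0 := by
    by_contra h
    push Not at h
    exact hx (funext h)
  obtain ⟨g, hg, hgx⟩ := exists_kill x i hi (Finset.univ.erase i) (by simp)
  obtain ⟨k, hk⟩ := exists_col hi
  refine ⟨g⁻¹ * (cpre n F).L i k * (cpre n F).S (swap 0 i), Subgroup.mul_mem _ (Subgroup.mul_mem _
    (Subgroup.inv_mem _ hg) (L_mem_KK _ _)) (S_mem_KK _), ?_⟩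
  have h1 : (cpre n F).L i k * (cpre n F).S (swap 0 i) * g⁻¹ = (cpre n F).L i k * (cpre n F).S (swap 0 i) * g⁻¹ := rfl
  rw [Subgroup.coe_mul, Subgroup.coe_mul, LinearEquiv.mul_apply, LinearEquiv.mul_apply, cpre_S, cpre_L]
  have h2 : cL i k (cS (swap 0 i) (Pi.single 0 ve : VV n F)) = g.1 x := by
    funext j
    rw [cL_apply, cS_apply, hgx, swap_inv]
    by_cases h : j = i
    · subst h
      rw [swap_apply_right, Pi.single_eq_same]
      simp [hk]
    · rw [if_neg h, if_pos (by simp [h]), Pi.single_eq_of_ne]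
      intro e
      apply h
      rw [← swap_apply_self 0 i j, e, swap_apply_left]
  rw [h2, ← LinearEquiv.mul_apply, ← Subgroup.coe_mul, inv_mul_cancel]
  rfl

theorem KK_eq_top : KK n F = ⊤ := by
  have h1 : (KK n F).map (toIsos (n := n) (F := F)).toMonoidHom = ⊤ := by
    apply isos_eq_of_sie
    intro u c
    by_cases hu : u = 0
    · subst hu
      refine ⟨1, Subgroup.one_mem _, ?_⟩
      rw [map_one]
      apply Subtype.ext
      ext1 v
      change v = v + sympForm (n + 2) F v 0 • (0 : Fin (n + 2) ⊕ Fin (n + 2) → F) - ((-1 : F)⁻¹ * sympForm (n + 2) F v 0) • 0 +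
        (c * sympForm (n + 2) F v 0) • 0
      simp
    · obtain ⟨g, hg, hgx⟩ := exists_to_base (n := n) (F := F) (toSum.symm u) (by simpa using hu)
      refine ⟨g * (cpre n F).L 0 (tv ve c) * g⁻¹, Subgroup.mul_mem _ (Subgroup.mul_mem _ hg (L_mem_KK _ _))
        (Subgroup.inv_mem _ hg), ?_⟩
      apply Subtype.ext
      ext1 v
      obtain ⟨x, rfl⟩ := toSum.surjective v
      change toSum ((g * (cpre n F).L 0 (tv ve c) * g⁻¹).1 (toSum.symm (toSum x))) =
        toSum x + sympForm (n + 2) F (toSum x) u • (0 : Fin (n + 2) ⊕ Fin (n + 2) → F) -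
        ((-1 : F)⁻¹ * sympForm (n + 2) F (toSum x) 0) • u + (c * sympForm (n + 2) F (toSum x) u) • u
      rw [sympForm_zero_right, smul_zero, add_zero, mul_zero, zero_smul, sub_zero, LinearEquiv.symm_apply_apply]
      obtain ⟨z, hz⟩ : ∃ z, z = toSum.symm u := ⟨_, rfl⟩
      have hu' : u = toSum z := by rw [hz]; simp
      rw [hu', symp_toSum, ← map_smul, ← map_add]
      congr 1
      rw [← hz] at hgx
      rw [Subgroup.coe_mul, Subgroup.coe_mul, LinearEquiv.mul_apply, LinearEquiv.mul_apply, cpre_L]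
      have h3 : ∀ y : VV n F, cL 0 (tv ve c) y = y + (c * om y (Pi.single 0 ve)) • (Pi.single 0 ve : VV n F) := by
        intro y
        funext j
        have h4 : om y (Pi.single 0 ve : VV n F) = dd (y 0) ve := by
          rw [om, Finset.sum_eq_single 0]
          · rw [Pi.single_eq_same]
          · intro j _ hj
            rw [Pi.single_eq_of_ne hj, dd_zero_right]
          · intro h; exact absurd (Finset.mem_univ _) h
        rw [cL_apply, h4, Pi.add_apply, Pi.smul_apply]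
        by_cases h : j = 0
        · subst h
          rw [if_pos rfl, ac_tv, Pi.single_eq_same]
        · rw [if_neg h, Pi.single_eq_of_ne h, smul_zero, add_zero]
      rw [h3, map_add, map_smul, hgx]
      have h5 : om (g⁻¹.1 x) (Pi.single 0 ve) = om x z := by
        rw [← hgx, ← g.2 (g⁻¹.1 x)]
        congr 1
        rw [← LinearEquiv.mul_apply, ← Subgroup.coe_mul, mul_inv_cancel]
        rfl
      rw [h5, ← LinearEquiv.mul_apply, ← Subgroup.coe_mul, mul_inv_cancel]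
      rfl
  rw [eq_top_iff]
  intro g _
  have h2 : toIsos g ∈ (KK n F).map (toIsos (n := n) (F := F)).toMonoidHom := by rw [h1]; trivial
  obtain ⟨g', hg', h3⟩ := h2
  rwa [← toIsos.injective h3]

end Surj

end Cfsg.Agent.H111
end

-- part: H111/SpPres
section
/-!
# Presentations of the symplectic groups (helper111, cluster S2284-S2297)
-/

set_option autoImplicit false

universe u

namespace Cfsg.Agent.H111

open Equiv
open Matrix (SpecialLinearGroup)

theorem HasPres.exists_gen {G : Type*} [Group G] {k m : ℕ} (h : HasPres G k m) :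
    ∃ g : Fin k → G, Subgroup.closure (Set.range g) = ⊤ := by
  obtain ⟨f, _, hf, _, _⟩ := hasPres_iff.1 h
  refine ⟨fun i => f (FreeGroup.of i), ?_⟩
  rw [← FreeGroup.range_lift_eq_closure, MonoidHom.range_eq_top]
  have e : FreeGroup.lift (fun i => f (FreeGroup.of i)) = f := by ext i; simp
  rwa [e]

/-- Symmetric groups are 2-generated. -/
theorem perm_two_gen (α : Type*) [Fintype α] : ∃ a b : Perm α, Subgroup.closure {a, b} = (⊤ : Subgroup (Perm α)) := by
  classical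
  have key : ∀ m : ℕ, ∃ a b : Perm (Fin m), Subgroup.closure {a, b} = (⊤ : Subgroup (Perm (Fin m))) := by
    intro m
    rcases m with _ | _ | m
    · exact ⟨1, 1, by ext x; rw [Subsingleton.elim x 1]; simp [Subgroup.one_mem]⟩
    · refine ⟨1, 1, ?_⟩
      have : Subsingleton (Fin (0 + 1)) := inferInstanceAs (Subsingleton (Fin 1))
      ext x
      rw [Subsingleton.elim x 1]
      simp [Subgroup.one_mem]
    · refine ⟨finRotate (m + 2), swap 0 (finRotate (m + 2) 0), ?_⟩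
      exact Equiv.Perm.closure_cycle_adjacent_swap (isCycle_finRotate) (support_finRotate) 0
  obtain ⟨a, b, h⟩ := key (Fintype.card α)
  let e : Perm (Fin (Fintype.card α)) ≃* Perm α := (Fintype.equivFin α).symm.permCongrHom
  refine ⟨e a, e b, ?_⟩
  have := congrArg (Subgroup.map e.toMonoidHom) h
  rw [MonoidHom.map_closure, Set.image_pair] at this
  rw [← MonoidHom.range_eq_map, MonoidHom.range_eq_top.2 e.surjective] at this
  exact this

theorem exists_gen_fix {n : ℕ} (p : Fin (n + 2) → Prop) [DecidablePred p] :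
    ∃ a b : Perm (Fin (n + 2)), (∀ π : Perm (Fin (n + 2)), (∀ i, ¬ p i → π i = i) → π ∈ Subgroup.closure {a, b}) ∧
      (∀ i, ¬ p i → a i = i) ∧ (∀ i, ¬ p i → b i = i) := by
  obtain ⟨a, b, h⟩ := perm_two_gen {i : Fin (n + 2) // p i}
  refine ⟨Perm.ofSubtype a, Perm.ofSubtype b, ?_, fun i hi => Perm.ofSubtype_apply_of_not_mem _ hi,
    fun i hi => Perm.ofSubtype_apply_of_not_mem _ hi⟩
  intro π hπ
  have h1 : ∀ i, p i ↔ p (π i) := by
    intro i
    by_contra hcon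
    by_cases hi : p i
    · have h2 : ¬ p (π i) := fun h => hcon ⟨fun _ => h, fun _ => hi⟩
      have h3 := hπ _ h2
      have h4 := π.injective h3
      rw [h4] at h2
      exact h2 hi
    · rw [hπ i hi] at hcon
      exact hcon Iff.rfl
  have h2 : Perm.ofSubtype (Perm.subtypePerm π fun i => (h1 i).symm) = π := by
    apply Perm.ofSubtype_subtypePerm
    intro i hi
    by_contra h3
    exact hi (hπ i h3)
  rw [← h2]
  have h3 : Perm.subtypePerm π (fun i => (h1 i).symm) ∈ Subgroup.closure {a, b} := by rw [h]; trivial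
  have h4 := Subgroup.mem_map_of_mem Perm.ofSubtype h3
  rwa [MonoidHom.map_closure, Set.image_pair] at h4

/-- commutator word -/
def cw {Q : Type*} [Group Q] (x y : Q) : Q := x * y * x⁻¹ * y⁻¹

theorem cw_eq_one {Q : Type*} [Group Q] {x y : Q} : cw x y = 1 ↔ Commute x y := by
  rw [cw, mul_inv_eq_one, mul_inv_eq_iff_eq_mul]; rfl

theorem map_cw {Q Q' : Type*} [Group Q] [Group Q'] (f : Q →* Q') (x y : Q) : f (cw x y) = cw (f x) (f y) := by
  simp [cw]

namespace Pre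

variable {n : ℕ} {F : Type u} [Field F]

section Lists

variable {Q : Type u} [Group Q] {Q' : Type u} [Group Q']

/-- Base relators (16). -/
noncomputable def base (g : Fin 3 → SpecialLinearGroup (Fin 2) F) (ζ : Fˣ) (A : Pre n F Q) : List Q :=
  [cw (A.L 0 (g 0)) (A.L 1 (g 0)), cw (A.L 0 (g 0)) (A.L 1 (g 1)), cw (A.L 0 (g 0)) (A.L 1 (g 2)),
   cw (A.L 0 (g 1)) (A.L 1 (g 0)), cw (A.L 0 (g 1)) (A.L 1 (g 1)), cw (A.L 0 (g 1)) (A.L 1 (g 2)),
   cw (A.L 0 (g 2)) (A.L 1 (g 0)), cw (A.L 0 (g 2)) (A.L 1 (g 1)), cw (A.L 0 (g 2)) (A.L 1 (g 2)),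
   cw (A.S (swap 0 1)) (A.y), cw (A.L 0 (hd ζ) * (A.L 1 (hd ζ))⁻¹) (A.y),
   cw (A.L 0 (tv ve 1)) (A.y), cw (A.L 0 (tv ve (ζ : F))) (A.y),
   A.y * A.Y 1 1 (gv ((1 : F) • vf)) * (A.L 0 (tv ve (-(1 : F))) * A.Y 1 1 (gv (ve + (1 : F) • vf)))⁻¹,
   A.y * A.Y 1 1 (gv ((ζ : F) • vf)) * (A.L 0 (tv ve (-(ζ : F))) * A.Y 1 1 (gv (ve + (ζ : F) • vf)))⁻¹,
   A.S (swap 0 1) * (A.Y 1 1 (gv vf) * A.Y 1 (gv vf) (gv (-ve)) * A.Y 1 1 (gv vf) * A.L 0 (-1))⁻¹]

/-- Relators for at least three planes (13). -/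
noncomputable def ext3 (g : Fin 3 → SpecialLinearGroup (Fin 2) F) (a b c d : Perm (Fin (n + 2))) (j : Fin (n + 2))
    (π π' : Perm (Fin (n + 2))) (A : Pre n F Q) : List Q :=
  [cw (A.S c) (A.l (g 0)), cw (A.S c) (A.l (g 1)), cw (A.S c) (A.l (g 2)),
   cw (A.S d) (A.l (g 0)), cw (A.S d) (A.l (g 1)), cw (A.S d) (A.l (g 2)),
   cw (A.S a) (A.y), cw (A.S b) (A.y),
   cw (A.L j (g 0)) (A.y), cw (A.L j (g 1)) (A.y), cw (A.L j (g 2)) (A.y),
   cw (A.y) (A.Y π 1 1),
   A.y * A.Y π (gv vf) 1 * A.y⁻¹ * (A.Y π (gv vf) 1 * A.Y π' (gv (-ve)) 1)⁻¹]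

/-- Relator for at least four planes (1). -/
noncomputable def ext4 (π : Perm (Fin (n + 2))) (A : Pre n F Q) : List Q := [cw (A.y) (A.Y π 1 1)]

theorem base_map (g : Fin 3 → SpecialLinearGroup (Fin 2) F) (ζ : Fˣ) (A : Pre n F Q) (f : Q →* Q') :
    (A.map f).base g ζ = (A.base g ζ).map f := by
  simp only [base, List.map_cons, List.map_nil, map_cw, map_mul, map_inv, map_L, map_Y, map_S, map_y]

theorem ext3_map (g : Fin 3 → SpecialLinearGroup (Fin 2) F) (a b c d : Perm (Fin (n + 2))) (j : Fin (n + 2))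
    (π π' : Perm (Fin (n + 2))) (A : Pre n F Q) (f : Q →* Q') :
    (A.map f).ext3 g a b c d j π π' = (A.ext3 g a b c d j π π').map f := by
  simp only [ext3, List.map_cons, List.map_nil, map_cw, map_mul, map_inv, map_L, map_Y, map_S, map_y,
    map_l]

theorem ext4_map (π : Perm (Fin (n + 2))) (A : Pre n F Q) (f : Q →* Q') :
    (A.map f).ext4 π = (A.ext4 π).map f := by
  simp only [ext4, List.map_cons, List.map_nil, map_cw, map_Y, map_y]

end Lists

/-- The free product in which everything takes place. -/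
abbrev PP (n : ℕ) (F : Type u) [Field F] : Type u :=
  Monoid.Coprod (Perm (Fin (n + 2))) (Monoid.Coprod (SpecialLinearGroup (Fin 2) F) (FreeGroup (Fin 1)))

/-- the universal data -/
def uni (n : ℕ) (F : Type u) [Field F] : Pre n F (PP n F) where
  S := Monoid.Coprod.inl
  l := Monoid.Coprod.inr.comp Monoid.Coprod.inl
  y := Monoid.Coprod.inr (Monoid.Coprod.inr (FreeGroup.of 0))

/-- the homomorphism given by data -/
def hom {Q : Type*} [Group Q] (A : Pre n F Q) : PP n F →* Q :=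
  Monoid.Coprod.lift A.S (Monoid.Coprod.lift A.l (FreeGroup.lift fun _ => A.y))

theorem uni_map_hom {Q : Type*} [Group Q] (A : Pre n F Q) : (uni n F).map A.hom = A := by
  obtain ⟨S, l, y⟩ := A
  simp only [Pre.map, hom, uni, Pre.mk.injEq]
  refine ⟨?_, ?_, ?_⟩
  · ext x; simp
  · ext x; simp
  · simp

theorem closure_uni : Subgroup.closure (Set.range (uni n F).S ∪ Set.range (uni n F).l ∪ {(uni n F).y}) = ⊤ := by
  set K := Subgroup.closure (Set.range (uni n F).S ∪ Set.range (uni n F).l ∪ {(uni n F).y}) with hK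
  have hS : ∀ π, Monoid.Coprod.inl π ∈ K := fun π => Subgroup.subset_closure (Or.inl (Or.inl ⟨π, rfl⟩))
  have hl : ∀ g, Monoid.Coprod.inr (Monoid.Coprod.inl g) ∈ K := fun g =>
    Subgroup.subset_closure (Or.inl (Or.inr ⟨g, rfl⟩))
  have hy : Monoid.Coprod.inr (Monoid.Coprod.inr (FreeGroup.of 0)) ∈ K := Subgroup.subset_closure (Or.inr rfl)
  rw [eq_top_iff]
  intro x _
  induction x using Monoid.Coprod.induction_on with
  | inl π => exact hS π
  | inr x =>
    induction x using Monoid.Coprod.induction_on with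
    | inl g => exact hl g
    | inr w =>
      have h1 : w ∈ Subgroup.closure (Set.range (FreeGroup.of : Fin 1 → FreeGroup (Fin 1))) := by
        rw [FreeGroup.closure_range_of]; trivial
      have h2 : Subgroup.closure (Set.range (FreeGroup.of : Fin 1 → FreeGroup (Fin 1))) ≤
          K.comap ((Monoid.Coprod.inr : _ →* PP n F).comp Monoid.Coprod.inr) := by
        rw [Subgroup.closure_le]
        rintro _ ⟨i, rfl⟩
        rw [Subsingleton.elim i 0]
        exact hy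
      exact h2 h1
    | mul x y hx hy =>
      rw [map_mul]
      exact K.mul_mem (hx trivial) (hy trivial)
  | mul x y hx hy => exact K.mul_mem (hx trivial) (hy trivial)

theorem quo_of (m : ℕ) (L : ∀ (Q : Type u) [Group Q], Pre n F Q → List Q)
    (hmap : ∀ (Q Q' : Type u) [Group Q] [Group Q'] (A : Pre n F Q) (f : Q →* Q'), L Q' (A.map f) = (L Q A).map f)
    (hlen : ∀ (Q : Type u) [Group Q] (A : Pre n F Q), (L Q A).length = m)
    (hsys : ∀ (Q : Type u) [Group Q] (A : Pre n F Q), (∀ r ∈ L Q A, r = 1) → ∃ ζ : F, A.Sys2 ζ)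
    (hc : ∀ r ∈ L _ (cpre n F), r = 1) : Quo (PP n F) (SpV n F) m := by
  rw [← hlen _ (uni n F)]
  have hf : Function.Surjective (cpre n F).hom := by
    intro x
    have hx : x ∈ KK n F := by rw [KK_eq_top]; trivial
    induction hx using Subgroup.closure_induction with
    | mem x hx =>
      rcases hx with (⟨π, rfl⟩ | ⟨g, rfl⟩) | rfl
      · exact ⟨Monoid.Coprod.inl π, by simp [hom]⟩
      · exact ⟨Monoid.Coprod.inr (Monoid.Coprod.inl g), by simp [hom]⟩
      · exact ⟨Monoid.Coprod.inr (Monoid.Coprod.inr (FreeGroup.of 0)), by simp [hom]⟩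
    | one => exact ⟨1, map_one _⟩
    | mul x y _ _ hx hy =>
      obtain ⟨a, rfl⟩ := hx
      obtain ⟨b, rfl⟩ := hy
      exact ⟨a * b, map_mul _ _ _⟩
    | inv x _ hx =>
      obtain ⟨a, rfl⟩ := hx
      refine ⟨a⁻¹, eq_inv_of_mul_eq_one_left ?_⟩
      rw [← map_mul]
      exact (congrArg (cpre n F).hom (inv_mul_cancel a)).trans (map_one (cpre n F).hom)
  refine Quo.of_inj (cpre n F).hom hf (L _ (uni n F)) ?_ ?_
  · intro r hr
    apply hc
    have := hmap _ _ (uni n F) (cpre n F).hom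
    rw [uni_map_hom] at this
    rw [this]
    exact List.mem_map_of_mem hr
  · intro φ θ hφ hθ hr
    have h1 : ∀ r ∈ L _ ((uni n F).map φ), r = 1 := by
      rw [hmap]
      intro r hr'
      obtain ⟨s, hs, rfl⟩ := List.mem_map.1 hr'
      exact hr s hs
    obtain ⟨ζ, H⟩ := hsys _ _ h1
    refine H.injective ?_ θ ?_
    · rw [eq_top_iff]
      intro x _
      obtain ⟨p, rfl⟩ := hφ x
      have h2 : p ∈ Subgroup.closure (Set.range (uni n F).S ∪ Set.range (uni n F).l ∪ {(uni n F).y}) := by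
        rw [closure_uni]; trivial
      have h3 := Subgroup.mem_map_of_mem φ h2
      rw [MonoidHom.map_closure] at h3
      refine Subgroup.closure_mono ?_ h3
      rintro _ ⟨z, ((⟨π, rfl⟩ | ⟨g, rfl⟩) | rfl), rfl⟩
      · exact Or.inl (Or.inl ⟨π, rfl⟩)
      · exact Or.inl (Or.inr ⟨g, rfl⟩)
      · exact Or.inr rfl
    · have e : ((uni n F).map φ).map θ = (uni n F).map (cpre n F).hom := by
        have : θ.comp φ = (cpre n F).hom := MonoidHom.ext hθ
        rw [← this]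
        rfl
      rw [e, uni_map_hom]

end Pre

end Cfsg.Agent.H111
end

-- part: H111/SpQuo
section
/-!
# Presentations of the symplectic groups: conclusion (helper111, cluster S2284-S2297)
-/

set_option autoImplicit false

universe u

namespace Cfsg.Agent.H111

open Equiv
open Matrix (SpecialLinearGroup)

namespace Pre

variable {n : ℕ} {F : Type u} [Field F] {Q : Type u} [Group Q]

namespace Sys2

variable {A : Pre n F Q} {ζ : Fˣ} (H : A.Sys2 (ζ : F))
include H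

theorem Y_eq {π : Perm (Fin (n + 2))} {g h : SpecialLinearGroup (Fin 2) F} {i j : Fin (n + 2)} {v w : Fin 2 → F}
    (hi : π 0 = i) (hj : π 1 = j) (hv : ac g ve = v) (hw : ac h ve = w) : A.Y π g h = A.E i j v w := by
  rw [← H.toSys1.E_eq, hi, hj, hv, hw]

theorem base_eq_one (g : Fin 3 → SpecialLinearGroup (Fin 2) F) : ∀ r ∈ A.base g ζ, r = 1 := by
  have hadd : ∀ c : F, c ≠ 0 →
      A.y * A.Y 1 1 (gv (c • vf)) * (A.L 0 (tv ve (-c)) * A.Y 1 1 (gv (ve + c • vf)))⁻¹ = 1 := by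
    intro c hc
    have hne : (ve + c • vf : Fin 2 → F) ≠ 0 := fun h => by simpa using congrFun h 0
    rw [mul_inv_eq_one, H.toSys1.y_eq,
      H.Y_eq (π := 1) (i := 0) (j := 1) rfl rfl (ac_one _) (gv_ve (smul_ne_zero hc vf_ne)),
      H.Y_eq (π := 1) (i := 0) (j := 1) rfl rfl (ac_one _) (gv_ve hne), H.add (by simp), dd_smul_left, dd_vf_ve,
      mul_neg, mul_one]
  have hL : ∀ x y, cw (A.L 0 x) (A.L 1 y) = 1 := fun x y => cw_eq_one.2 (H.comL x y)
  simp only [base, List.mem_cons, List.not_mem_nil, or_false, forall_eq_or_imp, forall_eq]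
  refine ⟨hL _ _, hL _ _, hL _ _, hL _ _, hL _ _, hL _ _, hL _ _, hL _ _, hL _ _, cw_eq_one.2 H.yS01,
    cw_eq_one.2 (H.yh ζ), cw_eq_one.2 (H.yt 1), cw_eq_one.2 (H.yt _), hadd 1 one_ne_zero, hadd _ (Units.ne_zero ζ), ?_⟩
  rw [mul_inv_eq_one, H.sw, H.Y_eq (π := 1) (i := 0) (j := 1) rfl rfl (ac_one _) (gv_ve vf_ne),
      H.Y_eq (π := 1) (i := 0) (j := 1) rfl rfl (gv_ve vf_ne) (gv_ve (neg_ne_zero.2 ve_ne))]

theorem ext3_eq_one (g : Fin 3 → SpecialLinearGroup (Fin 2) F) {a b c d : Perm (Fin (n + 2))} {j : Fin (n + 2)}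
    {π π' : Perm (Fin (n + 2))} (ha : a 0 = 0 ∧ a 1 = 1) (hb : b 0 = 0 ∧ b 1 = 1) (hc : c 0 = 0) (hd' : d 0 = 0)
    (hj0 : j ≠ 0) (hj1 : j ≠ 1) (p0 : π 0 = 0) (p1 : π 1 = j) (q0 : π' 0 = 1) (q1 : π' 1 = j) :
    ∀ r ∈ A.ext3 g a b c d j π π', r = 1 := by
  have h01 : (0 : Fin (n + 2)) ≠ 1 := by simp
  simp only [ext3, List.mem_cons, List.not_mem_nil, or_false, forall_eq_or_imp, forall_eq]
  refine ⟨cw_eq_one.2 (H.comS c hc _), cw_eq_one.2 (H.comS c hc _), cw_eq_one.2 (H.comS c hc _),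
    cw_eq_one.2 (H.comS d hd' _), cw_eq_one.2 (H.comS d hd' _), cw_eq_one.2 (H.comS d hd' _),
    cw_eq_one.2 (H.yS a ha.1 ha.2), cw_eq_one.2 (H.yS b hb.1 hb.2),
    cw_eq_one.2 (H.yL j hj0 hj1 _), cw_eq_one.2 (H.yL j hj0 hj1 _), cw_eq_one.2 (H.yL j hj0 hj1 _), ?_, ?_⟩
  · rw [cw_eq_one, H.toSys1.y_eq, H.Y_eq p0 p1 (ac_one _) (ac_one _), Commute, SemiconjBy,
      ← mul_inv_eq_iff_eq_mul, H.comm3 h01 hj0.symm hj1.symm, dd_self, zero_smul, Sys1.E_zero_left, mul_one]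
  · rw [mul_inv_eq_one, H.toSys1.y_eq, H.Y_eq p0 p1 (gv_ve vf_ne) (ac_one _),
      H.Y_eq q0 q1 (gv_ve (neg_ne_zero.2 ve_ne)) (ac_one _), H.comm3 h01 hj0.symm hj1.symm, dd_vf_ve,
      neg_smul, one_smul]

theorem ext4_eq_one {j k : Fin (n + 2)} (hj0 : j ≠ 0) (hj1 : j ≠ 1) (hk0 : k ≠ 0) (hk1 : k ≠ 1) (hjk : j ≠ k)
    {π : Perm (Fin (n + 2))} (p0 : π 0 = j) (p1 : π 1 = k) : ∀ r ∈ A.ext4 π, r = 1 := by
  have h01 : (0 : Fin (n + 2)) ≠ 1 := by simp
  simp only [ext4, List.mem_cons, List.not_mem_nil, or_false, forall_eq]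
  rw [cw_eq_one, H.toSys1.y_eq, H.Y_eq p0 p1 (ac_one _) (ac_one _)]
  exact H.comm4 h01 hj0.symm hj1.symm hk0.symm hk1.symm hjk _ _ _ _

end Sys2

/-- from the relators to the relations, without the third plane -/
theorem rels_of_base {A : Pre n F Q} {g : Fin 3 → SpecialLinearGroup (Fin 2) F} {ζ : Fˣ}
    (hg : Subgroup.closure (Set.range g) = ⊤) (hζ : ∀ u : Fˣ, u ∈ Subgroup.zpowers ζ)
    (h : ∀ r ∈ A.base g ζ, r = 1) {a b c d : Perm (Fin (n + 2))}
    (gen2 : ∀ π : Perm (Fin (n + 2)), π 0 = 0 → π 1 = 1 → π ∈ Subgroup.closure {a, b})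
    (gen1 : ∀ π : Perm (Fin (n + 2)), π 0 = 0 → π ∈ Subgroup.closure {c, d})
    (ra : ∀ i, Commute (A.S c) (A.l (g i)) ∧ Commute (A.S d) (A.l (g i)))
    (rc1 : Commute (A.S a) A.y ∧ Commute (A.S b) A.y)
    (rc3 : ∀ j : Fin (n + 2), j ≠ 0 → j ≠ 1 → ∃ j' : Fin (n + 2), j' ≠ 0 ∧ j' ≠ 1 ∧ ∀ i, Commute (A.L j' (g i)) A.y)
    (rc8 : ∀ j : Fin (n + 2), j ≠ 0 → j ≠ 1 →
      ∃ π : Perm (Fin (n + 2)), π 0 = 0 ∧ π 1 ≠ 0 ∧ π 1 ≠ 1 ∧ Commute A.y (A.Y π 1 1))
    (rc9 : ∀ j : Fin (n + 2), j ≠ 0 → j ≠ 1 →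
      ∃ π π' : Perm (Fin (n + 2)), π 0 = 0 ∧ π 1 ≠ 0 ∧ π 1 ≠ 1 ∧ π' 0 = 1 ∧ π' 1 = π 1 ∧
        A.y * A.Y π (gv vf) 1 * A.y⁻¹ = A.Y π (gv vf) 1 * A.Y π' (gv (-ve)) 1)
    (rc10 : ∀ j k : Fin (n + 2), j ≠ 0 → j ≠ 1 → k ≠ 0 → k ≠ 1 → j ≠ k →
      ∃ π : Perm (Fin (n + 2)), π 0 ≠ 0 ∧ π 0 ≠ 1 ∧ π 1 ≠ 0 ∧ π 1 ≠ 1 ∧ Commute A.y (A.Y π 1 1)) :
    A.Rels g a b c d ζ := by
  simp only [base, List.mem_cons, List.not_mem_nil, or_false, forall_eq_or_imp, forall_eq, cw_eq_one,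
    mul_inv_eq_one] at h
  obtain ⟨b1, b2, b3, b4, b5, b6, b7, b8, b9, h2, h4, h5, h6, h7, h8, h9⟩ := h
  refine ⟨hg, gen2, gen1, hζ, ra, ?_, rc1, h2, rc3, h4, ⟨h5, h6⟩, ⟨h7, h8⟩, rc8, rc9, rc10, h9⟩
  intro i j
  fin_cases i <;> fin_cases j <;> assumption

theorem sys2_of_ext3 {A : Pre n F Q} {g : Fin 3 → SpecialLinearGroup (Fin 2) F} {ζ : Fˣ}
    (hg : Subgroup.closure (Set.range g) = ⊤) (hζ : ∀ u : Fˣ, u ∈ Subgroup.zpowers ζ)
    (h : ∀ r ∈ A.base g ζ, r = 1) {a b c d : Perm (Fin (n + 2))} {j : Fin (n + 2)} {π π' : Perm (Fin (n + 2))}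
    (gen2 : ∀ π : Perm (Fin (n + 2)), π 0 = 0 → π 1 = 1 → π ∈ Subgroup.closure {a, b})
    (gen1 : ∀ π : Perm (Fin (n + 2)), π 0 = 0 → π ∈ Subgroup.closure {c, d})
    (hj0 : j ≠ 0) (hj1 : j ≠ 1) (p0 : π 0 = 0) (p1 : π 1 = j) (q0 : π' 0 = 1) (q1 : π' 1 = j)
    (h' : ∀ r ∈ A.ext3 g a b c d j π π', r = 1)
    (rc10 : ∀ j k : Fin (n + 2), j ≠ 0 → j ≠ 1 → k ≠ 0 → k ≠ 1 → j ≠ k →
      ∃ π : Perm (Fin (n + 2)), π 0 ≠ 0 ∧ π 0 ≠ 1 ∧ π 1 ≠ 0 ∧ π 1 ≠ 1 ∧ Commute A.y (A.Y π 1 1)) :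
    A.Sys2 (ζ : F) := by
  simp only [ext3, List.mem_cons, List.not_mem_nil, or_false, forall_eq_or_imp, forall_eq, cw_eq_one,
    mul_inv_eq_one] at h'
  obtain ⟨c0, c1, c2, d0, d1, d2, ya, yb, l0, l1, l2, h8, h9⟩ := h'
  refine (rels_of_base hg hζ h gen2 gen1 ?_ ⟨ya, yb⟩ ?_ ?_ ?_ rc10).sys2
  · intro i
    fin_cases i
    · exact ⟨c0, d0⟩
    · exact ⟨c1, d1⟩
    · exact ⟨c2, d2⟩
  · intro _ _ _
    refine ⟨j, hj0, hj1, fun i => ?_⟩
    fin_cases i
    · exact l0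
    · exact l1
    · exact l2
  · intro _ _ _
    exact ⟨π, p0, by rw [p1]; exact hj0, by rw [p1]; exact hj1, h8⟩
  · intro _ _ _
    exact ⟨π, π', p0, by rw [p1]; exact hj0, by rw [p1]; exact hj1, q0, by rw [q1, p1], h9⟩

/-- Two planes. -/
theorem quo_zero [Finite F] {r : ℕ} (hSL : HasPres (SpecialLinearGroup (Fin 2) F) 3 r) :
    Quo (PP 0 F) (SpV 0 F) 16 := by
  obtain ⟨g, hg⟩ := hSL.exists_gen
  obtain ⟨ζ, hζ⟩ := IsCyclic.exists_generator (α := Fˣ)
  refine quo_of 16 (fun Q _ A => A.base g ζ) (fun Q Q' _ _ A f => base_map g ζ A f) (fun Q _ A => rfl) ?_ ?_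
  · intro Q _ A h
    have hnone : ∀ j : Fin (0 + 2), j ≠ 0 → j ≠ 1 → False := by
      intro j h0 h1
      fin_cases j
      · exact h0 rfl
      · exact h1 rfl
    have hone : ∀ π : Perm (Fin (0 + 2)), π 0 = 0 → π = 1 := by
      intro π h0
      ext i
      fin_cases i
      · simpa using congrArg Fin.val h0
      · have h1 : π 1 ≠ 0 := fun e => by
          have := π.injective (e.trans h0.symm)
          simp at this
        by_contra hne
        exact hnone (π 1) h1 (fun e => hne (by rw [Fin.mk_one]; exact congrArg Fin.val e))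
    refine ⟨ζ, (rels_of_base (a := 1) (b := 1) (c := 1) (d := 1) hg hζ h ?_ ?_ ?_ ?_ ?_ ?_ ?_ ?_).sys2⟩
    · intro π h0 _
      rw [hone π h0]; exact Subgroup.one_mem _
    · intro π h0
      rw [hone π h0]; exact Subgroup.one_mem _
    · intro i; simp
    · simp
    · intro j h0 h1; exact (hnone j h0 h1).elim
    · intro j h0 h1; exact (hnone j h0 h1).elim
    · intro j h0 h1; exact (hnone j h0 h1).elim
    · intro j _ h0 h1; exact (hnone j h0 h1).elim
  · exact (cpre_sys2 (Units.ne_zero ζ) (square_class hζ)).base_eq_one g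

/-- Three planes. -/
theorem quo_one [Finite F] {r : ℕ} (hSL : HasPres (SpecialLinearGroup (Fin 2) F) 3 r) :
    Quo (PP 1 F) (SpV 1 F) 29 := by
  obtain ⟨g, hg⟩ := hSL.exists_gen
  obtain ⟨ζ, hζ⟩ := IsCyclic.exists_generator (α := Fˣ)
  obtain ⟨c, d, hcd, hc, hd'⟩ := exists_gen_fix (n := 1) (fun i => i ≠ 0)
  obtain ⟨a, b, hab, ha, hb⟩ := exists_gen_fix (n := 1) (fun i => i ≠ 0 ∧ i ≠ 1)
  obtain ⟨π, p0, p1⟩ := exists_perm2 (n := 1) (i := 0) (j := 2) (by decide)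
  obtain ⟨π', q0, q1⟩ := exists_perm2 (n := 1) (i := 1) (j := 2) (by decide)
  refine quo_of 29 (fun Q _ A => A.base g ζ ++ A.ext3 g a b c d 2 π π') ?_ (fun Q _ A => rfl) ?_ ?_
  · intro Q Q' _ _ A f
    rw [List.map_append, base_map, ext3_map]
  · intro Q _ A h
    refine ⟨ζ, sys2_of_ext3 hg hζ (fun r hr => h r (List.mem_append_left _ hr)) ?_ ?_ (j := 2) (by decide) (by decide)
      p0 p1 q0 q1 (fun r hr => h r (List.mem_append_right _ hr)) ?_⟩
    · intro σ h0 h1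
      apply hab
      intro i hi
      rw [not_and_or, not_not, not_not] at hi
      rcases hi with rfl | rfl
      · exact h0
      · exact h1
    · intro σ h0
      apply hcd
      intro i hi
      rw [not_not] at hi
      rw [hi, h0]
    · intro j k h0 h1 h2 h3 h4
      exfalso
      revert j k
      decide
  · intro r hr
    have H := cpre_sys2 (n := 1) (Units.ne_zero ζ) (square_class hζ)
    rcases List.mem_append.1 hr with hr | hr
    · exact H.base_eq_one g r hr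
    · exact H.ext3_eq_one g ⟨ha 0 (by decide), ha 1 (by decide)⟩ ⟨hb 0 (by decide), hb 1 (by decide)⟩
        (hc 0 (by decide)) (hd' 0 (by decide)) (by decide) (by decide) p0 p1 q0 q1 r hr

/-- At least four planes. -/
theorem quo_two [Finite F] {r : ℕ} (hSL : HasPres (SpecialLinearGroup (Fin 2) F) 3 r) (n : ℕ) :
    Quo (PP (n + 2) F) (SpV (n + 2) F) 30 := by
  obtain ⟨g, hg⟩ := hSL.exists_gen
  obtain ⟨ζ, hζ⟩ := IsCyclic.exists_generator (α := Fˣ)
  obtain ⟨c, d, hcd, hc, hd'⟩ := exists_gen_fix (n := n + 2) (fun i => i ≠ 0)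
  obtain ⟨a, b, hab, ha, hb⟩ := exists_gen_fix (n := n + 2) (fun i => i ≠ 0 ∧ i ≠ 1)
  let j2 : Fin (n + 2 + 2) := ⟨2, by omega⟩
  let j3 : Fin (n + 2 + 2) := ⟨3, by omega⟩
  have h20 : j2 ≠ 0 := fun e => by simpa [j2] using congrArg Fin.val e
  have h21 : j2 ≠ 1 := fun e => by simpa [j2] using congrArg Fin.val e
  have h30 : j3 ≠ 0 := fun e => by simpa [j3] using congrArg Fin.val e
  have h31 : j3 ≠ 1 := fun e => by simpa [j3] using congrArg Fin.val e
  have h23 : j2 ≠ j3 := fun e => by simpa [j2, j3] using congrArg Fin.val e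
  obtain ⟨π, p0, p1⟩ := exists_perm2 h20.symm
  obtain ⟨π', q0, q1⟩ := exists_perm2 h21.symm
  obtain ⟨π'', r0, r1⟩ := exists_perm2 h23
  refine quo_of 30 (fun Q _ A => A.base g ζ ++ A.ext3 g a b c d j2 π π' ++ A.ext4 π'') ?_ (fun Q _ A => rfl) ?_ ?_
  · intro Q Q' _ _ A f
    rw [List.map_append, List.map_append, base_map, ext3_map, ext4_map]
  · intro Q _ A h
    refine ⟨ζ, sys2_of_ext3 hg hζ (fun r hr => h r (List.mem_append_left _ (List.mem_append_left _ hr))) ?_ ?_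
      (j := j2) h20 h21 p0 p1 q0 q1 (fun r hr => h r (List.mem_append_left _ (List.mem_append_right _ hr))) ?_⟩
    · intro σ h0 h1
      apply hab
      intro i hi
      rw [not_and_or, not_not, not_not] at hi
      rcases hi with rfl | rfl
      · exact h0
      · exact h1
    · intro σ h0
      apply hcd
      intro i hi
      rw [not_not] at hi
      rw [hi, h0]
    · intro j k _ _ _ _ _
      refine ⟨π'', by rw [r0]; exact h20, by rw [r0]; exact h21, by rw [r1]; exact h30, by rw [r1]; exact h31, ?_⟩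
      have := h (cw A.y (A.Y π'' 1 1)) (List.mem_append_right _ (by simp [ext4]))
      exact cw_eq_one.1 this
  · intro r hr
    have H := cpre_sys2 (n := n + 2) (Units.ne_zero ζ) (square_class hζ)
    rcases List.mem_append.1 hr with hr | hr
    · rcases List.mem_append.1 hr with hr | hr
      · exact H.base_eq_one g r hr
      · exact H.ext3_eq_one g ⟨ha 0 (by simp), ha 1 (by simp)⟩ ⟨hb 0 (by simp), hb 1 (by simp)⟩
          (hc 0 (by simp)) (hd' 0 (by simp)) h20 h21 p0 p1 q0 q1 r hr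
    · exact H.ext4_eq_one h20 h21 h30 h31 h23 r0 r1 r hr

end Pre

end Cfsg.Agent.H111
end

-- part: H111/SpFinal
section
/-!
# Presentations of `Sp_2n(F)` and `PSp_2n(F)` (helper111, cluster S2284-S2297)
-/

set_option autoImplicit false

universe u

namespace Cfsg.Agent.H111.SpFinal

open Equiv
open Matrix (SpecialLinearGroup)

variable {F : Type u} [Field F] [Fintype F]

theorem hasPres_SL2 : HasPres (SpecialLinearGroup (Fin 2) F) 3 8 := by
  by_cases h2 : (2 : F) = 0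
  · exact (Cfsg.Agent.H109.sl2_even h2).mono (by norm_num)
  · exact Cfsg.Agent.H109.sl2_odd h2

theorem assemble {n k m r a b : ℕ} (hP : HasPres (Perm (Fin (n + 2))) k m)
    (hq : Quo (Pre.PP n F) (SpV n F) r) (hb : k + 4 = b) (ha : m + 8 + r ≤ a) :
    HasPres (Matrix.symplecticGroup (Fin (n + 2)) F) b a := by
  subst hb
  have h1 := (hasPres_SL2 (F := F)).coprod (HasPres.free 1)
  have h2 := hP.coprod h1
  exact ((h2.quo hq).mono (by omega)).of_mulEquiv spEquiv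

theorem sp_two : HasPres (Matrix.symplecticGroup (Fin 2) F) 6 32 :=
  assemble (n := 0) (Cfsg.Agent.H110.AltPres.hasPres_perm_two 2) (Pre.quo_zero hasPres_SL2) (by norm_num) (by norm_num)

theorem sp_three : HasPres (Matrix.symplecticGroup (Fin 3) F) 7 44 :=
  assemble (n := 1) (Cfsg.Agent.H110.AltPres.hasPres_perm 3) (Pre.quo_one hasPres_SL2) (by norm_num) (by norm_num)

theorem sp_four {n : ℕ} (hn : 4 ≤ n) : HasPres (Matrix.symplecticGroup (Fin n) F) 7 45 := by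
  obtain ⟨n, rfl⟩ := Nat.exists_eq_add_of_le' hn
  exact assemble (n := n + 2) (Cfsg.Agent.H110.AltPres.hasPres_perm (n + 2 + 2)) (Pre.quo_two hasPres_SL2 n)
    (by norm_num) (by norm_num)

theorem psp {n k m : ℕ} (hn : 1 ≤ n) (h : HasPres (Matrix.symplecticGroup (Fin n) F) k m) :
    HasPres (Cfsg.PSp n F) k (m + 1) := by
  apply h.centerQuo
  have hc := Cfsg.Agent.S0246.result (F := F) rfl n hn
  have h2 : Nat.gcd 2 (Fintype.card F - 1) = 1 ∨ Nat.gcd 2 (Fintype.card F - 1) = 2 :=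
    (Nat.dvd_prime Nat.prime_two).1 (Nat.gcd_dvd_left 2 _)
  rcases h2 with h2 | h2
  · rw [h2] at hc
    have : Subsingleton (Subgroup.center (Matrix.symplecticGroup (Fin n) F)) :=
      (Nat.card_eq_one_iff_unique.1 hc).1
    exact isCyclic_of_subsingleton
  · rw [h2] at hc
    have : Fact (Nat.Prime 2) := ⟨Nat.prime_two⟩
    exact isCyclic_of_prime_card hc

end Cfsg.Agent.H111.SpFinal
end
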